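import Cfsg.Agent.RootSub.QP7

/-!
# Quadratic pairs: Theorem F, the dichotomy

For `x, y` of minimal rank either `xyx = yxy = 0` or `T = xy + yx` acts invertibly on
the image of an idempotent polynomial `ε` in `T`, with irreducible minimal polynomial there, and
`x`, `y` vanish on `ker ε`.
-/

set_option autoImplicit false
set_option linter.unusedSectionVars false

namespace Cfsg.Agent.RootSub.QP

open Cfsg Polynomial Matrix

variable {k : Type*} [Field k] {M : Type*} [AddCommGroup M] [Module k M]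
variable {G : Subgroup (LinearMap.GeneralLinearGroup k M)}

/-- The field type data of a pair. -/
structure FDat (x y : M →ₗ[k] M) where
  /-- the minimal polynomial of `T` on the image of `ε` -/
  p : k[X]
  /-- `ε` as a polynomial in `T` -/
  f : k[X]
  /-- the inverse of `T`, as a polynomial in `T` -/
  u : k[X]
  irr : Irreducible p
  notX : ¬ X ∣ p
  idem : pv (TT x y) f * pv (TT x y) f = pv (TT x y) f
  x_eps : x * pv (TT x y) f = x
  y_eps : y * pv (TT x y) f = y
  p_eps : pv (TT x y) p * pv (TT x y) f = 0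
  T_u : TT x y * pv (TT x y) u = pv (TT x y) f

namespace FDat

variable {x y : M →ₗ[k] M} (D : FDat x y)

/-- the idempotent -/
noncomputable def eps : M →ₗ[k] M := pv (TT x y) D.f

lemma eps_idem : D.eps * D.eps = D.eps := D.idem

lemma mul_eps_x : x * D.eps = x := D.x_eps

lemma mul_eps_y : y * D.eps = y := D.y_eps

lemma eps_x (hxx : x * x = 0) : D.eps * x = x := by
  have : pv (TT x y) D.f * x = x * pv (TT x y) D.f := pv_comm_x hxx _
  unfold eps
  rw [this, D.x_eps]

lemma eps_y (hyy : y * y = 0) : D.eps * y = y := by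
  have : pv (TT x y) D.f * y = y * pv (TT x y) D.f := pv_comm_y hyy _
  unfold eps
  rw [this, D.y_eps]

lemma T_eps : TT x y * D.eps = TT x y := by
  have e : TT x y = x * y + y * x := rfl
  calc TT x y * D.eps = (x * y + y * x) * D.eps := by rw [← e]
    _ = x * (y * D.eps) + y * (x * D.eps) := by noncomm_ring
    _ = TT x y := by rw [D.mul_eps_x, D.mul_eps_y]; rfl

lemma eps_T : D.eps * TT x y = TT x y := by
  have : pv (TT x y) D.f * TT x y = TT x y * pv (TT x y) D.f := pv_comm_of rfl _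
  unfold eps
  rw [this]
  exact D.T_eps

lemma u_T : pv (TT x y) D.u * TT x y = D.eps := by
  have : pv (TT x y) D.u * TT x y = TT x y * pv (TT x y) D.u := pv_comm_of rfl _
  rw [this]
  exact D.T_u

lemma pv_eps_of_dvd {g : k[X]} (h : D.p ∣ g) : pv (TT x y) g * D.eps = 0 := by
  obtain ⟨w, rfl⟩ := h
  rw [mul_comm, pv_mul, mul_assoc]
  change pv (TT x y) w * (pv (TT x y) D.p * pv (TT x y) D.f) = 0
  rw [D.p_eps, mul_zero]

lemma pv_x_of_dvd (hxx : x * x = 0) {g : k[X]} (h : D.p ∣ g) : pv (TT x y) g * x = 0 := by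
  calc pv (TT x y) g * x = pv (TT x y) g * (D.eps * x) := by rw [D.eps_x hxx]
    _ = 0 := by rw [← mul_assoc, D.pv_eps_of_dvd h, zero_mul]

lemma pv_y_of_dvd (hyy : y * y = 0) {g : k[X]} (h : D.p ∣ g) : pv (TT x y) g * y = 0 := by
  calc pv (TT x y) g * y = pv (TT x y) g * (D.eps * y) := by rw [D.eps_y hyy]
    _ = 0 := by rw [← mul_assoc, D.pv_eps_of_dvd h, zero_mul]

lemma dvd_of_pv_mul {g : k[X]} {w : M →ₗ[k] M} (hw : D.eps * w = w) (hw0 : w ≠ 0) (h : pv (TT x y) g * w = 0) :
    D.p ∣ g := by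
  by_contra hnd
  obtain ⟨r, s, hrs⟩ := (D.irr.coprime_iff_not_dvd).mpr hnd
  apply hw0
  have h1 : pv (TT x y) D.p * w = 0 := by
    rw [← hw, ← mul_assoc]
    change pv (TT x y) D.p * pv (TT x y) D.f * w = 0
    rw [D.p_eps, zero_mul]
  calc w = pv (TT x y) (r * D.p + s * g) * w := by rw [hrs, pv_one, one_mul]
    _ = pv (TT x y) r * (pv (TT x y) D.p * w) + pv (TT x y) s * (pv (TT x y) g * w) := by
        rw [pv_add, pv_mul, pv_mul, add_mul, mul_assoc, mul_assoc]
    _ = 0 := by rw [h1, h, mul_zero, mul_zero, add_zero]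

lemma dvd_of_eps {g : k[X]} (h : pv (TT x y) g * D.eps = 0) (hne : D.eps ≠ 0) : D.p ∣ g :=
  D.dvd_of_pv_mul D.eps_idem hne h

include D in
lemma T_x_ne (hxx : x * x = 0) (hx0 : x ≠ 0) : TT x y * x ≠ 0 := by
  intro h
  apply hx0
  calc x = D.eps * x := (D.eps_x hxx).symm
    _ = pv (TT x y) D.u * TT x y * x := by rw [D.u_T]
    _ = 0 := by rw [mul_assoc, h, mul_zero]

include D in
lemma T_y_ne (hyy : y * y = 0) (hy0 : y ≠ 0) : TT x y * y ≠ 0 := by
  intro h
  apply hy0
  calc y = D.eps * y := (D.eps_y hyy).symm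
    _ = pv (TT x y) D.u * TT x y * y := by rw [D.u_T]
    _ = 0 := by rw [mul_assoc, h, mul_zero]

lemma eps_T_x : D.eps * (TT x y * x) = TT x y * x := by
  rw [← mul_assoc, D.eps_T]

lemma eps_T_y : D.eps * (TT x y * y) = TT x y * y := by
  rw [← mul_assoc, D.eps_T]

include D in
/-- A pair with field data satisfies the second alternative of the dichotomy -/
lemma dich (hxx : x * x = 0) (hyy : y * y = 0) : Dich x y := by
  right
  constructor
  · intro v hv
    calc x v = (D.eps * x) v := by rw [D.eps_x hxx]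
      _ = (pv (TT x y) D.u * TT x y * x) v := by rw [D.u_T]
      _ = 0 := by rw [mul_assoc, Module.End.mul_apply, Module.End.mul_apply, hv, map_zero]
  · intro v hv
    calc y v = (D.eps * y) v := by rw [D.eps_y hyy]
      _ = (pv (TT x y) D.u * TT x y * y) v := by rw [D.u_T]
      _ = 0 := by rw [mul_assoc, Module.End.mul_apply, Module.End.mul_apply, hv, map_zero]

end FDat

section ThmF

variable [FiniteDimensional k M] {x y : M →ₗ[k] M} {d : ℕ}

lemma Fit.eps_eq_zero_of (F : Fit (TT x y)) (hT : TT x y * F.eps = 0) : F.eps = 0 := by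
  have h : pv (TT x y) F.u * TT x y = TT x y * pv (TT x y) F.u := pv_comm_of rfl _
  rw [← F.T_u_eps, ← h, mul_assoc, hT, mul_zero]

lemma Fit.eps_ne (F : Fit (TT x y)) (hq : ¬ IsUnit F.q) : F.eps ≠ 0 := by
  intro h
  apply hq
  have h1 := F.Te_one_sub
  rw [h, sub_zero, mul_one] at h1
  have h3 : pv (TT x y) (X ^ F.e) = 0 := by rw [pv_pow, pv_X, h1]
  have h4 := minpoly_dvd_of_pv h3
  rw [F.hmin] at h4
  obtain ⟨w, hw⟩ := h4
  have h5 : (X : k[X]) ^ F.e * (F.q * w) = X ^ F.e * 1 := by
    rw [mul_one, ← mul_assoc]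
    exact hw.symm
  have h6 := mul_left_cancel₀ (pow_ne_zero _ X_ne_zero) h5
  exact IsUnit.of_mul_eq_one _ h6

/-- Theorem F, auxiliary induction -/
theorem thmF_aux (hmin : ∀ z, QE G z → d ≤ rk z) (h2 : (2 : k) ≠ 0) (hk3 : Nat.card k ≠ 3) (n : ℕ) :
    ∀ x y : M →ₗ[k] M, QE G x → QE G y → rk x = d → rk y = d → rk (TT x y) = n →
      (x * y * x = 0 ∧ y * x * y = 0) ∨ Nonempty (FDat x y) := by
  induction n using Nat.strong_induction_on with
  | _ n ih =>
    intro x y hx hy hrx hry hn
    have IH : ∀ x' y', QE G x' → QE G y' → rk x' = d → rk y' = d → rk (TT x' y') < rk (TT x y) → Dich x' y' := by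
      intro x' y' hx' hy' hrx' hry' hlt
      rcases ih _ (hn ▸ hlt) x' y' hx' hy' hrx' hry' rfl with h | ⟨⟨D⟩⟩
      · exact Or.inl h
      · exact D.dich hx'.1 hy'.1
    obtain ⟨F⟩ := exists_fit (TT x y)
    by_cases hq : IsUnit F.q
    · left
      apply UL hmin h2 F.e x y hx hy hrx hry
      obtain ⟨w, hw⟩ := hq.exists_right_inv
      have e : (X : k[X]) ^ F.e = (X ^ F.e * F.q) * w := by
        rw [mul_assoc, hw, mul_one]
      have e2 : (TT x y) ^ F.e = pv (TT x y) (X ^ F.e) := by rw [pv_pow, pv_X]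
      rw [e2, e, pv_mul, F.pv_Xe_q, zero_mul]
    · right
      have hq0 : F.q ≠ 0 := fun h => F.hq (h ▸ dvd_zero _)
      obtain ⟨p, hp, hpq⟩ := WfDvdMonoid.exists_irreducible_factor hq hq0
      have hXp : ¬ X ∣ p := fun h => F.hq (h.trans hpq)
      have hqp := rigidity hmin h2 hk3 hx hy hrx hry F IH hp hpq
      have hε := F.eps_ne hq
      have hcx : F.eps * x = x * F.eps := pv_comm_x hx.1 _
      have hcy : F.eps * y = y * F.eps := pv_comm_y hy.1 _
      have hxε : x * F.eps ≠ 0 := by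
        intro h0
        apply hε
        apply F.eps_eq_zero_of
        have e : TT x y = x * y + y * x := rfl
        calc TT x y * F.eps = (x * y + y * x) * F.eps := by rw [← e]
          _ = x * (y * F.eps) + y * (x * F.eps) := by noncomm_ring
          _ = (x * F.eps) * y + y * (x * F.eps) := by rw [← hcy]; noncomm_ring
          _ = 0 := by rw [h0, zero_mul, mul_zero, add_zero]
      have hyε : y * F.eps ≠ 0 := by
        intro h0
        apply hε
        apply F.eps_eq_zero_of
        have e : TT x y = x * y + y * x := rfl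
        calc TT x y * F.eps = (x * y + y * x) * F.eps := by rw [← e]
          _ = x * (y * F.eps) + y * (x * F.eps) := by noncomm_ring
          _ = 0 := by rw [h0, ← hcx]; rw [← mul_assoc y, h0, zero_mul, mul_zero, add_zero]
      have h1 := G1 rfl hmin h2 hk3 hx hy hrx F hp hqp hXp hxε
      have h3 := G1 (TT_comm x y) hmin h2 hk3 hy hx hry F hp hqp hXp hyε
      have hTε : TT x y * F.eps = TT x y := by
        have e : TT x y = x * y + y * x := rfl
        calc TT x y * F.eps = (x * y + y * x) * F.eps := by rw [← e]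
          _ = x * (y * F.eps) + y * (x * F.eps) := by noncomm_ring
          _ = TT x y := by rw [h1, h3]; rfl
      have hcomm : TT x y * pv (TT x y) F.u = pv (TT x y) F.u * TT x y := (pv_comm_of rfl _).symm
      refine ⟨⟨p, X ^ F.e * F.s, F.u, hp, hXp, F.eps_idem, h1, h3, ?_, ?_⟩⟩
      · obtain ⟨w, hw⟩ := hqp
        change pv (TT x y) p * F.eps = 0
        rw [hw, mul_comm, pv_mul, mul_assoc, F.q_eps, mul_zero]
      · change TT x y * pv (TT x y) F.u = F.eps
        have h5 := F.T_u_eps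
        rw [hcomm, mul_assoc, hTε] at h5
        rw [hcomm]
        exact h5

/-- **Theorem F**: the dichotomy for a pair of elements of minimal rank. -/
theorem thmF (hmin : ∀ z, QE G z → d ≤ rk z) (h2 : (2 : k) ≠ 0) (hk3 : Nat.card k ≠ 3)
    (hx : QE G x) (hy : QE G y) (hrx : rk x = d) (hry : rk y = d) :
    (x * y * x = 0 ∧ y * x * y = 0) ∨ Nonempty (FDat x y) :=
  thmF_aux hmin h2 hk3 _ x y hx hy hrx hry rfl

end ThmF

section Structure

variable {x y : M →ₗ[k] M}

lemma FDat.eps_ne (D : FDat x y) (hxx : x * x = 0) (hx0 : x ≠ 0) : D.eps ≠ 0 := by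
  intro h
  apply hx0
  rw [← D.eps_x hxx, h, zero_mul]

/-- The entries of an element of `Γ` -/
lemma gam_coeffs {γ : SpecialLinearGroup (Fin 2) k[X]} (hγ : γ ∈ GamP k) :
    ((γ : Matrix (Fin 2) (Fin 2) k[X]) 0 0).coeff 0 = 1 ∧ ((γ : Matrix (Fin 2) (Fin 2) k[X]) 1 0).coeff 0 = 0 ∧
      ((γ : Matrix (Fin 2) (Fin 2) k[X]) 1 1).coeff 0 = 1 := by
  obtain ⟨⟨h1, h2⟩, h3, -⟩ := EvP_of_mem (M := k) (x := 0) (y := 0) (by simp) (by simp) hγ
  exact ⟨h3, h1, h2 ▸ h3⟩

lemma ev_eq_of_coeffs {γ : SpecialLinearGroup (Fin 2) k[X]} (hγ : γ ∈ GamP k) :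
    ev x y (γ : Matrix (Fin 2) (Fin 2) k[X]) = 1 + (pv (TT x y) (divX ((γ : Matrix (Fin 2) (Fin 2) k[X]) 0 0)) * x * y +
      pv (TT x y) (divX ((γ : Matrix (Fin 2) (Fin 2) k[X]) 1 1)) * y * x +
      pv (TT x y) ((γ : Matrix (Fin 2) (Fin 2) k[X]) 0 1) * x +
      pv (TT x y) (divX ((γ : Matrix (Fin 2) (Fin 2) k[X]) 1 0)) * y) := by
  unfold ev
  rw [(gam_coeffs hγ).1, one_smul]
  abel

namespace FDat

variable (D : FDat x y)

/-- `ev γ = 1` iff `γ ≡ 1` modulo `p`. -/
theorem ev_eq_one_iff (hxx : x * x = 0) (hyy : y * y = 0) (hx0 : x ≠ 0) (hy0 : y ≠ 0)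
    {γ : SpecialLinearGroup (Fin 2) k[X]} (hγ : γ ∈ GamP k) :
    ev x y (γ : Matrix (Fin 2) (Fin 2) k[X]) = 1 ↔ SpecialLinearGroup.map (AdjoinRoot.mk D.p) γ = 1 := by
  obtain ⟨c00, c10, c11⟩ := gam_coeffs hγ
  rw [ev_eq_of_coeffs hγ]
  set a := (γ : Matrix (Fin 2) (Fin 2) k[X]) 0 0 with ha
  set b := (γ : Matrix (Fin 2) (Fin 2) k[X]) 0 1 with hb
  set c := (γ : Matrix (Fin 2) (Fin 2) k[X]) 1 0 with hc
  set e := (γ : Matrix (Fin 2) (Fin 2) k[X]) 1 1 with he
  have xa : a = X * divX a + C 1 := by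
    conv_lhs => rw [← X_mul_divX_add a, c00]
  have xc : c = X * divX c + C 0 := by
    conv_lhs => rw [← X_mul_divX_add c, c10]
  have xe : e = X * divX e + C 1 := by
    conv_lhs => rw [← X_mul_divX_add e, c11]
  have hcX : IsCoprime D.p (X : k[X]) := (coprime_X_of_dvd D.notX dvd_rfl D.irr).symm
  constructor
  · intro h
    have hz : pv (TT x y) (divX a) * x * y + pv (TT x y) (divX e) * y * x + pv (TT x y) b * x + pv (TT x y) (divX c) * y = 0 := by
      have := add_left_cancel (h.trans (add_zero _).symm)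
      exact this
    have hpx : ∀ g : k[X], x * (pv (TT x y) g * x) = 0 := fun g => by
      rw [← mul_assoc, ← pv_comm_x hxx, mul_assoc, hxx, mul_zero]
    have hpy : ∀ g : k[X], y * (pv (TT x y) g * y) = 0 := fun g => by
      rw [← mul_assoc, ← pv_comm_y hyy, mul_assoc, hyy, mul_zero]
    have hca : ∀ g : k[X], x * pv (TT x y) g = pv (TT x y) g * x := fun g => (pv_comm_x hxx g).symm
    have hcb : ∀ g : k[X], y * pv (TT x y) g = pv (TT x y) g * y := fun g => (pv_comm_y hyy g).symm
    -- first: `C`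
    have h1 : pv (TT x y) (divX c) * (TT x y * x) = 0 := by
      have h3 := congrArg (fun z => x * z * x) hz
      simp only [mul_add, add_mul, mul_zero, zero_mul] at h3
      have e1 : x * (pv (TT x y) (divX a) * x * y) * x = 0 := by
        calc x * (pv (TT x y) (divX a) * x * y) * x = (x * pv (TT x y) (divX a)) * x * y * x := by noncomm_ring
          _ = pv (TT x y) (divX a) * (x * x) * y * x := by rw [hca]; noncomm_ring
          _ = 0 := by rw [hxx]; simp
      have e2 : x * (pv (TT x y) (divX e) * y * x) * x = 0 := by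
        rw [mul_assoc x, mul_assoc _ x x, hxx, mul_zero, mul_zero]
      have e3 : x * (pv (TT x y) b * x) * x = 0 := by
        rw [hpx, zero_mul]
      rw [e1, e2, e3, zero_add, zero_add, zero_add] at h3
      rw [TT_mul_x hxx, ← h3]
      calc pv (TT x y) (divX c) * (x * y * x) = (pv (TT x y) (divX c) * x) * y * x := by noncomm_ring
        _ = x * (pv (TT x y) (divX c) * y) * x := by rw [← hca]; noncomm_ring
    have h1' := D.dvd_of_pv_mul D.eps_T_x (D.T_x_ne hxx hx0) h1
    have h3 : pv (TT x y) b * (TT x y * y) = 0 := by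
      have h3 := congrArg (fun z => y * z * y) hz
      simp only [mul_add, add_mul, mul_zero, zero_mul] at h3
      have e1 : y * (pv (TT x y) (divX a) * x * y) * y = 0 := by
        rw [mul_assoc y, mul_assoc _ y y, hyy, mul_zero, mul_zero]
      have e2 : y * (pv (TT x y) (divX e) * y * x) * y = 0 := by
        calc y * (pv (TT x y) (divX e) * y * x) * y = (y * pv (TT x y) (divX e)) * y * x * y := by noncomm_ring
          _ = pv (TT x y) (divX e) * (y * y) * x * y := by rw [hcb]; noncomm_ring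
          _ = 0 := by rw [hyy]; simp
      have e4 : y * (pv (TT x y) (divX c) * y) * y = 0 := by
        rw [hpy, zero_mul]
      rw [e1, e2, e4, zero_add, zero_add, add_zero] at h3
      rw [TT_mul_y hyy, ← h3]
      calc pv (TT x y) b * (y * x * y) = (pv (TT x y) b * y) * x * y := by noncomm_ring
        _ = y * (pv (TT x y) b * x) * y := by rw [← hcb]; noncomm_ring
    have h3' := D.dvd_of_pv_mul D.eps_T_y (D.T_y_ne hyy hy0) h3
    have hz2 : pv (TT x y) (divX a) * x * y + pv (TT x y) (divX e) * y * x = 0 := by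
      rw [D.pv_x_of_dvd hxx h3', D.pv_y_of_dvd hyy h1', add_zero, add_zero] at hz
      exact hz
    have h4 : pv (TT x y) (divX a) * (TT x y * x) = 0 := by
      have h3 := congrArg (fun z => z * x) hz2
      simp only [add_mul, zero_mul] at h3
      rw [mul_assoc (pv (TT x y) (divX e) * y), hxx, mul_zero, add_zero] at h3
      rw [TT_mul_x hxx, ← h3]
      noncomm_ring
    have h4' := D.dvd_of_pv_mul D.eps_T_x (D.T_x_ne hxx hx0) h4
    have h5 : pv (TT x y) (divX e) * (TT x y * y) = 0 := by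
      have h3 := congrArg (fun z => z * y) hz2
      simp only [add_mul, zero_mul] at h3
      rw [mul_assoc (pv (TT x y) (divX a) * x), hyy, mul_zero, zero_add] at h3
      rw [TT_mul_y hyy, ← h3]
      noncomm_ring
    have h5' := D.dvd_of_pv_mul D.eps_T_y (D.T_y_ne hyy hy0) h5
    have q00 : AdjoinRoot.mk D.p a = 1 := by
      rw [xa, map_add, map_mul, AdjoinRoot.mk_eq_zero.mpr h4', mul_zero, zero_add, C_1, map_one]
    have q01 : AdjoinRoot.mk D.p b = 0 := AdjoinRoot.mk_eq_zero.mpr h3'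
    have q10 : AdjoinRoot.mk D.p c = 0 := by
      rw [xc, map_add, map_mul, AdjoinRoot.mk_eq_zero.mpr h1', mul_zero, zero_add, C_0, map_zero]
    have q11 : AdjoinRoot.mk D.p e = 1 := by
      rw [xe, map_add, map_mul, AdjoinRoot.mk_eq_zero.mpr h5', mul_zero, zero_add, C_1, map_one]
    apply slR_ext
    · simpa [SpecialLinearGroup.map_apply_coe, RingHom.mapMatrix_apply, ← ha] using q00
    · simpa [SpecialLinearGroup.map_apply_coe, RingHom.mapMatrix_apply, ← hb] using q01
    · simpa [SpecialLinearGroup.map_apply_coe, RingHom.mapMatrix_apply, ← hc] using q10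
    · simpa [SpecialLinearGroup.map_apply_coe, RingHom.mapMatrix_apply, ← he] using q11
  · intro h
    have q00 : AdjoinRoot.mk D.p a = AdjoinRoot.mk D.p (C 1) := by
      have := congrArg (fun g : SpecialLinearGroup (Fin 2) (AdjoinRoot D.p) => (g : Matrix (Fin 2) (Fin 2) (AdjoinRoot D.p)) 0 0) h
      simpa [SpecialLinearGroup.map_apply_coe] using this
    have q01 : AdjoinRoot.mk D.p b = 0 := by
      have := congrArg (fun g : SpecialLinearGroup (Fin 2) (AdjoinRoot D.p) => (g : Matrix (Fin 2) (Fin 2) (AdjoinRoot D.p)) 0 1) h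
      simpa [SpecialLinearGroup.map_apply_coe] using this
    have q10 : AdjoinRoot.mk D.p c = AdjoinRoot.mk D.p (C 0) := by
      have := congrArg (fun g : SpecialLinearGroup (Fin 2) (AdjoinRoot D.p) => (g : Matrix (Fin 2) (Fin 2) (AdjoinRoot D.p)) 1 0) h
      simpa [SpecialLinearGroup.map_apply_coe] using this
    have q11 : AdjoinRoot.mk D.p e = AdjoinRoot.mk D.p (C 1) := by
      have := congrArg (fun g : SpecialLinearGroup (Fin 2) (AdjoinRoot D.p) => (g : Matrix (Fin 2) (Fin 2) (AdjoinRoot D.p)) 1 1) h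
      simpa [SpecialLinearGroup.map_apply_coe] using this
    rw [AdjoinRoot.mk_eq_mk] at q00 q10 q11
    rw [AdjoinRoot.mk_eq_zero] at q01
    have d00 := dvd_divX_of_irred D.irr D.notX c00 q00
    have d10 := dvd_divX_of_irred D.irr D.notX c10 q10
    have d11 := dvd_divX_of_irred D.irr D.notX c11 q11
    rw [D.pv_x_of_dvd hxx d00, D.pv_y_of_dvd hyy d11, D.pv_x_of_dvd hxx q01, D.pv_y_of_dvd hyy d10]
    simp

end FDat

end Structure

end Cfsg.Agent.RootSub.QP
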