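import Cfsg.Agent.RootSub.QP9

/-!
# Quadratic pairs: consequences of Theorem F

The decomposition of `M` attached to a pair of field type, and the partner of `x` in the scalar family
generated by `y`.
-/

set_option autoImplicit false
set_option linter.unusedSectionVars false

namespace Cfsg.Agent.RootSub.QP

open Cfsg Polynomial Matrix

variable {k : Type*} [Field k] {M : Type*} [AddCommGroup M] [Module k M]
variable {G : Subgroup (LinearMap.GeneralLinearGroup k M)}

namespace FDat

variable {x y : M →ₗ[k] M} (D : FDat x y)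

/-- swapping the pair -/
noncomputable def symm : FDat y x where
  p := D.p
  f := D.f
  u := D.u
  irr := D.irr
  notX := D.notX
  idem := by rw [TT_comm]; exact D.idem
  x_eps := by rw [TT_comm]; exact D.y_eps
  y_eps := by rw [TT_comm]; exact D.x_eps
  p_eps := by rw [TT_comm]; exact D.p_eps
  T_u := by rw [TT_comm]; exact D.T_u

lemma TT_apply (v : M) : TT x y v = x (y v) + y (x v) := rfl

lemma ker_eps_eq : LinearMap.ker D.eps = LinearMap.ker x ⊓ LinearMap.ker y := by
  apply le_antisymm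
  · intro v hv
    rw [LinearMap.mem_ker] at hv
    refine ⟨?_, ?_⟩
    · change x v = 0
      calc x v = (x * D.eps) v := by rw [D.mul_eps_x]
        _ = 0 := by rw [Module.End.mul_apply, hv, map_zero]
    · change y v = 0
      calc y v = (y * D.eps) v := by rw [D.mul_eps_y]
        _ = 0 := by rw [Module.End.mul_apply, hv, map_zero]
  · rintro v ⟨hvx, hvy⟩
    have hvx' : x v = 0 := hvx
    have hvy' : y v = 0 := hvy
    rw [LinearMap.mem_ker]
    have e : TT x y v = 0 := by
      rw [TT_apply, hvx', hvy', map_zero, map_zero, add_zero]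
    rw [← D.u_T, Module.End.mul_apply, e, map_zero]

include D in
lemma ker_T_eq : LinearMap.ker (TT x y) = LinearMap.ker x ⊓ LinearMap.ker y := by
  apply le_antisymm
  · intro v hv
    rw [LinearMap.mem_ker] at hv
    rw [← D.ker_eps_eq, LinearMap.mem_ker, ← D.u_T, Module.End.mul_apply, hv, map_zero]
  · rintro v ⟨hvx, hvy⟩
    have hvx' : x v = 0 := hvx
    have hvy' : y v = 0 := hvy
    rw [LinearMap.mem_ker, TT_apply, hvx', hvy', map_zero, map_zero, add_zero]

lemma range_eps_eq (hxx : x * x = 0) (hyy : y * y = 0) : LinearMap.range D.eps = LinearMap.range x ⊔ LinearMap.range y := by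
  apply le_antisymm
  · rintro _ ⟨v, rfl⟩
    have e : D.eps v = TT x y (pv (TT x y) D.u v) := by
      rw [← Module.End.mul_apply, D.T_u]
      rfl
    rw [e, TT_apply]
    exact Submodule.add_mem_sup ⟨_, rfl⟩ ⟨_, rfl⟩
  · apply sup_le
    · rintro _ ⟨v, rfl⟩
      refine ⟨x v, ?_⟩
      rw [← Module.End.mul_apply, D.eps_x hxx]
    · rintro _ ⟨v, rfl⟩
      refine ⟨y v, ?_⟩
      rw [← Module.End.mul_apply, D.eps_y hyy]

include D in
lemma range_T_eq (hxx : x * x = 0) (hyy : y * y = 0) : LinearMap.range (TT x y) = LinearMap.range x ⊔ LinearMap.range y := by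
  rw [← D.range_eps_eq hxx hyy]
  apply le_antisymm
  · rintro _ ⟨v, rfl⟩
    refine ⟨TT x y v, ?_⟩
    rw [← Module.End.mul_apply, D.eps_T]
  · rintro _ ⟨v, rfl⟩
    refine ⟨pv (TT x y) D.u v, ?_⟩
    rw [← Module.End.mul_apply, D.T_u]
    rfl

include D in
/-- `M = (ker x ⊓ ker y) ⊕ (range x ⊔ range y)`. -/
theorem isCompl (hxx : x * x = 0) (hyy : y * y = 0) :
    IsCompl (LinearMap.ker x ⊓ LinearMap.ker y) (LinearMap.range x ⊔ LinearMap.range y) := by
  rw [← D.ker_eps_eq, ← D.range_eps_eq hxx hyy]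
  have h : IsIdempotentElem D.eps := D.eps_idem
  exact ((LinearMap.IsIdempotentElem.isProj_range _ h).isCompl).symm

include D in
/-- `T` is injective on `range x ⊔ range y`, which it preserves. -/
theorem T_inj (hxx : x * x = 0) (hyy : y * y = 0) {v : M} (hv : v ∈ LinearMap.range x ⊔ LinearMap.range y)
    (h : TT x y v = 0) : v = 0 := by
  have h3 : v ∈ (LinearMap.ker x ⊓ LinearMap.ker y) := by
    rw [← D.ker_T_eq]
    exact h
  have := (D.isCompl hxx hyy).disjoint
  exact (Submodule.disjoint_def.mp this) v h3 hv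

/-- the partner of `x` associated with `y`: `t = T⁻¹ y` on the image of `ε`. -/
noncomputable def partner : M →ₗ[k] M := pv (TT x y) D.u * y

lemma partner_y (hyy : y * y = 0) : y * D.partner = D.partner * y := by
  unfold partner
  rw [← mul_assoc, ← pv_comm_y hyy, mul_assoc, hyy]

lemma T_partner (hyy : y * y = 0) : TT x y * D.partner = y := by
  unfold partner
  rw [← mul_assoc, D.T_u]
  exact D.eps_y hyy

lemma partner_T (hyy : y * y = 0) : D.partner * TT x y = y := by
  have h : y * TT x y = TT x y * y := comm_TT_y hyy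
  unfold partner
  rw [mul_assoc, h, ← mul_assoc, D.u_T]
  exact D.eps_y hyy

lemma partner_sq (hyy : y * y = 0) : D.partner * D.partner = 0 := by
  unfold partner
  calc pv (TT x y) D.u * y * (pv (TT x y) D.u * y) = pv (TT x y) D.u * (y * pv (TT x y) D.u) * y := by noncomm_ring
    _ = pv (TT x y) D.u * (pv (TT x y) D.u * y) * y := by rw [← pv_comm_y hyy]
    _ = pv (TT x y) D.u * pv (TT x y) D.u * (y * y) := by noncomm_ring
    _ = 0 := by rw [hyy, mul_zero]

lemma ker_partner (hyy : y * y = 0) : LinearMap.ker D.partner = LinearMap.ker y := by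
  apply le_antisymm
  · intro v hv
    rw [LinearMap.mem_ker] at hv ⊢
    rw [← D.T_partner hyy, Module.End.mul_apply, hv, map_zero]
  · intro v hv
    rw [LinearMap.mem_ker] at hv ⊢
    unfold partner
    rw [Module.End.mul_apply, hv, map_zero]

lemma range_partner (hyy : y * y = 0) : LinearMap.range D.partner = LinearMap.range y := by
  apply le_antisymm
  · rintro _ ⟨v, rfl⟩
    have h : D.partner = y * pv (TT x y) D.u := by
      unfold partner
      exact pv_comm_y hyy _
    rw [h, Module.End.mul_apply]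
    exact ⟨_, rfl⟩
  · rintro _ ⟨v, rfl⟩
    refine ⟨TT x y v, ?_⟩
    rw [← Module.End.mul_apply, D.partner_T hyy]

lemma x_partner_x (hxx : x * x = 0) : x * D.partner * x = x := by
  unfold partner
  calc x * (pv (TT x y) D.u * y) * x = (x * pv (TT x y) D.u) * y * x := by noncomm_ring
    _ = pv (TT x y) D.u * x * y * x := by rw [← pv_comm_x hxx]
    _ = pv (TT x y) D.u * (TT x y * x) := by rw [TT_mul_x hxx]; noncomm_ring
    _ = D.eps * x := by rw [← mul_assoc, D.u_T]
    _ = x := D.eps_x hxx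

lemma partner_x_partner (hxx : x * x = 0) (hyy : y * y = 0) : D.partner * x * D.partner = D.partner := by
  unfold partner
  calc pv (TT x y) D.u * y * x * (pv (TT x y) D.u * y)
      = pv (TT x y) D.u * y * (x * pv (TT x y) D.u) * y := by noncomm_ring
    _ = pv (TT x y) D.u * y * (pv (TT x y) D.u * x) * y := by rw [← pv_comm_x hxx]
    _ = pv (TT x y) D.u * (y * pv (TT x y) D.u) * x * y := by noncomm_ring
    _ = pv (TT x y) D.u * (pv (TT x y) D.u * y) * x * y := by rw [← pv_comm_y hyy]
    _ = pv (TT x y) D.u * pv (TT x y) D.u * (y * x * y) := by noncomm_ring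
    _ = pv (TT x y) D.u * pv (TT x y) D.u * (TT x y * y) := by rw [TT_mul_y hyy]
    _ = pv (TT x y) D.u * (pv (TT x y) D.u * TT x y) * y := by noncomm_ring
    _ = pv (TT x y) D.u * (D.eps * y) := by rw [D.u_T]; noncomm_ring
    _ = pv (TT x y) D.u * y := by rw [D.eps_y hyy]

lemma dvd_X_u (hxx : x * x = 0) (hx0 : x ≠ 0) : D.p ∣ X * D.u - 1 := by
  apply D.dvd_of_eps _ (D.eps_ne hxx hx0)
  rw [pv_sub, pv_one, pv_mul, pv_X, D.T_u, sub_mul, one_mul]
  change D.eps * D.eps - D.eps = 0
  rw [D.eps_idem, sub_self]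

/-- the partner is a quadratic element -/
theorem partner_QE (hx : QE G x) (hy : QE G y) (h2 : (2 : k) ≠ 0) (hk3 : Nat.card k ≠ 3) : QE G D.partner := by
  have hxx := hx.1
  have hyy := hy.1
  haveI : Fact (Irreducible D.p) := ⟨D.irr⟩
  refine ⟨D.partner_sq hyy, ?_, fun c => ?_⟩
  · intro h
    apply hy.2.1
    rw [← D.T_partner hyy, h, mul_zero]
  · obtain ⟨γ, hγ, hγe⟩ := exists_lift h2 hk3 D.notX (loR (AdjoinRoot.mk D.p (C c)))
    obtain ⟨g, hg, hge, -⟩ := exists_unit_ev hx hy hγ
    refine ⟨g, hg, ?_⟩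
    rw [hge, ev_eq_of_coeffs hγ]
    obtain ⟨c00, c10, c11⟩ := gam_coeffs hγ
    have q00 : AdjoinRoot.mk D.p ((γ : Matrix (Fin 2) (Fin 2) k[X]) 0 0) = AdjoinRoot.mk D.p (C 1) := by
      have := congrArg (fun g : SpecialLinearGroup (Fin 2) (AdjoinRoot D.p) => (g : Matrix (Fin 2) (Fin 2) (AdjoinRoot D.p)) 0 0) hγe
      simpa [SpecialLinearGroup.map_apply_coe] using this
    have q01 : AdjoinRoot.mk D.p ((γ : Matrix (Fin 2) (Fin 2) k[X]) 0 1) = 0 := by
      have := congrArg (fun g : SpecialLinearGroup (Fin 2) (AdjoinRoot D.p) => (g : Matrix (Fin 2) (Fin 2) (AdjoinRoot D.p)) 0 1) hγe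
      simpa [SpecialLinearGroup.map_apply_coe] using this
    have q10 : AdjoinRoot.mk D.p ((γ : Matrix (Fin 2) (Fin 2) k[X]) 1 0) = AdjoinRoot.mk D.p (C c) := by
      have := congrArg (fun g : SpecialLinearGroup (Fin 2) (AdjoinRoot D.p) => (g : Matrix (Fin 2) (Fin 2) (AdjoinRoot D.p)) 1 0) hγe
      simpa [SpecialLinearGroup.map_apply_coe] using this
    have q11 : AdjoinRoot.mk D.p ((γ : Matrix (Fin 2) (Fin 2) k[X]) 1 1) = AdjoinRoot.mk D.p (C 1) := by
      have := congrArg (fun g : SpecialLinearGroup (Fin 2) (AdjoinRoot D.p) => (g : Matrix (Fin 2) (Fin 2) (AdjoinRoot D.p)) 1 1) hγe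
      simpa [SpecialLinearGroup.map_apply_coe] using this
    rw [AdjoinRoot.mk_eq_mk] at q00 q10 q11
    rw [AdjoinRoot.mk_eq_zero] at q01
    have d00 := dvd_divX_of_irred D.irr D.notX c00 q00
    have d11 := dvd_divX_of_irred D.irr D.notX c11 q11
    have d10 : D.p ∣ divX ((γ : Matrix (Fin 2) (Fin 2) k[X]) 1 0) - C c * D.u := by
      have hcX : IsCoprime D.p (X : k[X]) := (coprime_X_of_dvd D.notX dvd_rfl D.irr).symm
      apply hcX.dvd_of_dvd_mul_left
      have e : X * (divX ((γ : Matrix (Fin 2) (Fin 2) k[X]) 1 0) - C c * D.u) =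
          ((γ : Matrix (Fin 2) (Fin 2) k[X]) 1 0 - C c) - C c * (X * D.u - 1) := by
        have h3 := X_mul_divX_add ((γ : Matrix (Fin 2) (Fin 2) k[X]) 1 0)
        rw [c10, C_0, add_zero] at h3
        linear_combination h3
      rw [e]
      exact dvd_sub q10 (Dvd.dvd.mul_left (D.dvd_X_u hxx hx.2.1) _)
    have e10 : pv (TT x y) (divX ((γ : Matrix (Fin 2) (Fin 2) k[X]) 1 0)) * y = c • D.partner := by
      have h3 := D.pv_y_of_dvd hyy d10
      rw [pv_sub, sub_mul, sub_eq_zero, pv_C_mul, smul_mul_assoc] at h3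
      exact h3
    rw [D.pv_x_of_dvd hxx d00, D.pv_y_of_dvd hyy d11, D.pv_x_of_dvd hxx q01, e10]
    simp

lemma rk_partner (hyy : y * y = 0) [FiniteDimensional k M] : rk D.partner = rk y := by
  unfold rk
  rw [D.range_partner hyy]

include D in
/-- **F2**. -/
theorem exists_partner [FiniteDimensional k M] (hx : QE G x) (hy : QE G y) (h2 : (2 : k) ≠ 0) (hk3 : Nat.card k ≠ 3) :
    ∃ t, QE G t ∧ LinearMap.ker t = LinearMap.ker y ∧ LinearMap.range t = LinearMap.range y ∧ rk t = rk y ∧
      x * t * x = x ∧ t * x * t = t :=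
  ⟨D.partner, D.partner_QE hx hy h2 hk3, D.ker_partner hy.1, D.range_partner hy.1, D.rk_partner hy.1,
    D.x_partner_x hx.1, D.partner_x_partner hx.1 hy.1⟩

end FDat

end Cfsg.Agent.RootSub.QP
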