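import Cfsg.Agent.RootSub.SLGen
import Cfsg.Agent.Lib.DicksonGen

/-!
# `⟨up(k), lo(kα)⟩`: the case of finite `k` and the conclusion.
-/

set_option autoImplicit false
set_option linter.unusedSectionVars false

namespace Cfsg.Agent.RootSub

open Matrix
open Cfsg.Agent.Lib.SL2Core Cfsg.Agent.Lib.DicksonTT Cfsg.Agent.Lib.DicksonGen Cfsg.Agent.Lib.PSL2Max

section Swap

variable {L : Type*} [Field L]

/-- swap of the two coordinates -/
def swapFun (g : SpecialLinearGroup (Fin 2) L) : SpecialLinearGroup (Fin 2) L :=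
  ⟨!![(g : Matrix (Fin 2) (Fin 2) L) 1 1, (g : Matrix (Fin 2) (Fin 2) L) 1 0;
      (g : Matrix (Fin 2) (Fin 2) L) 0 1, (g : Matrix (Fin 2) (Fin 2) L) 0 0], by
        have h := g.2
        rw [det_fin_two] at h ⊢
        simp only [of_apply, cons_val', cons_val_zero, cons_val_one]
        linear_combination h⟩

@[simp] lemma swapFun_val (g : SpecialLinearGroup (Fin 2) L) :
    (swapFun g : Matrix (Fin 2) (Fin 2) L) = !![(g : Matrix (Fin 2) (Fin 2) L) 1 1, (g : Matrix (Fin 2) (Fin 2) L) 1 0;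
      (g : Matrix (Fin 2) (Fin 2) L) 0 1, (g : Matrix (Fin 2) (Fin 2) L) 0 0] := rfl

/-- swap of the two coordinates as a homomorphism -/
def swapHom : SpecialLinearGroup (Fin 2) L →* SpecialLinearGroup (Fin 2) L :=
  MonoidHom.mk' swapFun (by
    intro g h
    apply sl2_ext <;> simp [Matrix.mul_apply, Fin.sum_univ_two] <;> ring)

lemma swapHom_apply (g : SpecialLinearGroup (Fin 2) L) : swapHom g = swapFun g := rfl

end Swap

section Dickson

variable {L : Type*} [Field L] [Finite L] (p : ℕ) [hp : Fact p.Prime] [CharP L p]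

theorem up_mem_of_dickson (hp2 : p ≠ 2) (HL : Subgroup (SpecialLinearGroup (Fin 2) L)) {lam : L} (hlam : lam ≠ 0)
    (hu : upM 1 ∈ HL) (hv : loM lam ∈ HL) (hex : p = 3 → lam ^ 8 ≠ 1) {r : L}
    (hr : r ∈ Subfield.closure ({lam} : Set L)) : upM r ∈ HL := by
  classical
  set F₀ : Subfield L := Subfield.closure ({lam} : Set L) with hF₀
  letI : Fintype F₀ := Fintype.ofFinite F₀
  have : CharP F₀ p := (RingHom.charP_iff F₀.subtype Subtype.val_injective p).mpr inferInstance
  have h2L : (2 : L) ≠ 0 := by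
    intro h
    apply hp2
    have h1 : ((2 : ℕ) : L) = 0 := by exact_mod_cast h
    have h2 := (CharP.cast_eq_zero_iff L p 2).mp h1
    exact (Nat.prime_dvd_prime_iff_eq hp.out Nat.prime_two).mp h2
  have h2F : (2 : F₀) ≠ 0 := by
    intro h
    apply h2L
    rw [← map_ofNat F₀.subtype 2, h, map_zero]
  let lam0 : F₀ := ⟨lam, Subfield.subset_closure rfl⟩
  have hlam0 : lam0 ≠ 0 := by
    intro h
    exact hlam (congrArg Subtype.val h)
  have hgen : Subfield.closure ({lam0} : Set F₀) = ⊤ := by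
    rw [eq_top_iff]
    rintro ⟨x, hx⟩ -
    have h1 : Subfield.closure ({lam} : Set L) ≤ (Subfield.closure ({lam0} : Set F₀)).map F₀.subtype := by
      rw [Subfield.closure_le]
      rintro _ rfl
      exact ⟨lam0, Subfield.subset_closure rfl, rfl⟩
    obtain ⟨y, hy, hyx⟩ := h1 hx
    have : y = ⟨x, hx⟩ := Subtype.ext hyx
    rwa [← this]
  let ι : SpecialLinearGroup (Fin 2) F₀ →* SpecialLinearGroup (Fin 2) L := SpecialLinearGroup.map F₀.subtype
  let Hs : Subgroup (SL2 F₀) := HL.comap (swapHom.comp ι)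
  have hιu : ∀ s : F₀, ι (upM s) = upM (s : L) := by
    intro s
    apply sl2_ext <;> simp [ι, SpecialLinearGroup.map_apply_coe, RingHom.mapMatrix_apply]
  have hιl : ∀ s : F₀, ι (loM s) = loM (s : L) := by
    intro s
    apply sl2_ext <;> simp [ι, SpecialLinearGroup.map_apply_coe, RingHom.mapMatrix_apply]
  have hsu : ∀ s : L, swapHom (upM s) = loM s := by
    intro s
    rw [swapHom_apply]
    apply sl2_ext <;> simp
  have hsl : ∀ s : L, swapHom (loM s) = upM s := by
    intro s
    rw [swapHom_apply]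
    apply sl2_ext <;> simp
  have huu : ∀ s : F₀, uu s = upM s := fun s => rfl
  have hvv : ∀ s : F₀, vv s = loM s := fun s => rfl
  have hu' : proj (uu lam0) ∈ Hs.map proj := by
    refine ⟨uu lam0, ?_, rfl⟩
    change swapHom (ι (uu lam0)) ∈ HL
    rw [huu, hιu, hsu]
    exact hv
  have hv' : proj (vv (1 : F₀)) ∈ Hs.map proj := by
    refine ⟨vv 1, ?_, rfl⟩
    change swapHom (ι (vv 1)) ∈ HL
    rw [hvv, hιl, hsl]
    exact hu
  rcases main_cases p (Hs.map proj) h2F hlam0 hgen hu' hv' with htop | ⟨⟨e⟩, hp3⟩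
  · -- the main case
    let s : F₀ := ⟨r, hr⟩
    have hmem : proj (vv (s / 2)) ∈ Hs.map proj := by rw [htop]; trivial
    obtain ⟨g, hg, hge⟩ := hmem
    have hgg : g * g = loM s := by
      have e1 : loM (s / 2) * loM (s / 2) = loM s := by
        rw [loM_mul, ← two_mul, mul_div_cancel₀ _ h2F]
      rcases (proj_eq_proj_iff' _ _).mp hge.symm with h1 | h1
      · rw [h1, hvv, e1]
      · rw [h1, hvv, ← e1]
        apply Subtype.ext
        simp [negS_coe]
    have hmem2 : loM s ∈ Hs := by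
      rw [← hgg]
      exact Subgroup.mul_mem _ hg hg
    have h5 : swapHom (ι (loM s)) ∈ HL := hmem2
    rw [hιl, hsl] at h5
    exact h5
  · -- the exceptional case
    subst hp3
    exfalso
    have h3F : (3 : F₀) = 0 := by exact_mod_cast CharP.cast_eq_zero F₀ 3
    have hu3 : proj (uu lam0) ^ 3 = 1 := proj_uu_pow lam0
    have hv3 : proj (vv (1 : F₀)) ^ 3 = 1 := proj_vv_pow 1
    have h := A5_case h3F h2F (Hs.map proj) e hlam0 hu' hv' hu3 hv3
    apply hex rfl
    have e3 : (lam0 : L) = lam := rfl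
    rcases h with h | h | h
    · have : lam = 1 := by rw [← e3, h]; rfl
      rw [this]; simp
    · have : lam = -1 := by rw [← e3, h]; rfl
      rw [this]; norm_num
    · have h1 : lam * lam = -1 := by
        have := congrArg Subtype.val h
        exact this
      have : lam ^ 8 = (lam * lam) ^ 4 := by ring
      rw [this, h1]
      norm_num

end Dickson

section Main

variable {k L : Type*} [Field k] [Field L] [Algebra k L] {α : L}

lemma A_top_of_pow {h2 : (2 : k) ≠ 0} (h : ∀ i : ℕ, α ^ i ∈ Asub k α h2)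
    (hgen : ∀ z : L, z ∈ Algebra.adjoin k ({α} : Set L)) : Asub k α h2 = ⊤ := by
  rw [eq_top_iff]
  intro z _
  have hz := hgen z
  rw [Algebra.adjoin_singleton_eq_range_aeval] at hz
  obtain ⟨f, rfl⟩ := hz
  change Polynomial.aeval α f ∈ _
  rw [Polynomial.aeval_eq_sum_range]
  exact Submodule.sum_mem _ fun i _ => Submodule.smul_mem _ _ (h i)

lemma card_ge_nine [Finite k] [CharP k 3] (hk3 : Nat.card k ≠ 3) : 9 ≤ Nat.card k := by
  have : Fintype k := Fintype.ofFinite k
  haveI : Fact (Nat.Prime 3) := ⟨Nat.prime_three⟩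
  obtain ⟨e, he, hpe⟩ := FiniteField.card k 3
  rw [Nat.card_eq_fintype_card] at hk3 ⊢
  have hn : 0 < (e : ℕ) := e.pos
  generalize (e : ℕ) = n at hn hpe
  rcases n with _ | _ | n
  · omega
  · exact absurd (by rw [hpe]; norm_num) hk3
  · rw [hpe, pow_succ, pow_succ]
    have : 1 ≤ 3 ^ n := Nat.one_le_pow _ _ (by norm_num)
    omega

lemma count_lemma [Finite k] (hk9 : 9 ≤ Nat.card k) (h1 : α ^ 8 = 1)
    (hroot : ∀ c : k, c ≠ 0 → (algebraMap k L c) ^ 8 = 1) : ∃ a : k, α = algebraMap k L a := by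
  classical
  by_contra hαk
  have : Fintype k := Fintype.ofFinite k
  rw [Nat.card_eq_fintype_card] at hk9
  let S : Finset L := (Finset.univ.filter (fun c : k => c ≠ 0)).image (algebraMap k L)
  have hS : S.card = Fintype.card k - 1 := by
    rw [Finset.card_image_of_injective _ (algebraMap k L).injective, Finset.filter_ne', Finset.card_erase_of_mem (Finset.mem_univ _),
      Finset.card_univ]
  have hαS : α ∉ S := by
    intro h
    obtain ⟨c, -, hc⟩ := Finset.mem_image.mp h
    exact hαk ⟨c, hc.symm⟩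
  have hsub : insert α S ⊆ Polynomial.nthRootsFinset 8 (1 : L) := by
    intro x hx
    rw [Polynomial.mem_nthRootsFinset (by norm_num)]
    rcases Finset.mem_insert.mp hx with rfl | hx
    · exact h1
    · obtain ⟨c, hc, rfl⟩ := Finset.mem_image.mp hx
      exact hroot c (Finset.mem_filter.mp hc).2
  have hcard := Finset.card_le_card hsub
  rw [Finset.card_insert_of_notMem hαS, hS] at hcard
  have hroots : (Polynomial.nthRootsFinset 8 (1 : L)).card ≤ 8 := by
    have h5 := Polynomial.card_nthRoots 8 (1 : L)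
    have h6 : (Polynomial.nthRootsFinset 8 (1 : L)).card ≤ Multiset.card (Polynomial.nthRoots 8 (1 : L)) := by
      rw [Polynomial.nthRootsFinset]
      exact Multiset.toFinset_card_le _
    omega
  omega

lemma exists_scalar_pow [Finite k] (hk3 : Nat.card k ≠ 3) {p : ℕ} [hp : CharP k p]
    (hαk : ¬ ∃ a : k, α = algebraMap k L a) :
    ∃ c : k, c ≠ 0 ∧ (p = 3 → (algebraMap k L c * α) ^ 8 ≠ 1) := by
  by_contra hcon
  have hcon' : ∀ c : k, c ≠ 0 → p = 3 ∧ (algebraMap k L c * α) ^ 8 = 1 := by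
    intro c hc
    by_contra h
    apply hcon
    refine ⟨c, hc, fun h3 h8 => h ⟨h3, h8⟩⟩
  obtain ⟨h3, h1⟩ := hcon' 1 one_ne_zero
  rw [map_one, one_mul] at h1
  have hc3 : CharP k 3 := h3 ▸ hp
  have hroot : ∀ c : k, c ≠ 0 → (algebraMap k L c) ^ 8 = 1 := by
    intro c hc
    have := (hcon' c hc).2
    rw [mul_pow, h1, mul_one] at this
    exact this
  exact hαk (count_lemma (card_ge_nine hk3) h1 hroot)

theorem A_top_of_finite [Finite k] [FiniteDimensional k L] (h2 : (2 : k) ≠ 0) (hk3 : Nat.card k ≠ 3) (hα : α ≠ 0)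
    (hgen : ∀ z : L, z ∈ Algebra.adjoin k ({α} : Set L)) : Asub k α h2 = ⊤ := by
  classical
  obtain ⟨p, hp⟩ := CharP.exists k
  have hpp : p.Prime := by
    have : Fintype k := Fintype.ofFinite k
    exact CharP.char_is_prime k p
  have hL : CharP L p := charP_of_injective_algebraMap (algebraMap k L).injective p
  have hF : Finite L := Module.finite_of_finite k
  have hp2 : p ≠ 2 := by
    rintro rfl
    exact h2 (by exact_mod_cast CharP.cast_eq_zero k 2)
  by_cases hαk : ∃ a : k, α = algebraMap k L a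
  · obtain ⟨a, rfl⟩ := hαk
    refine A_top_of_pow (fun i => ?_) hgen
    have e : (algebraMap k L a) ^ i = (a ^ i) • (1 : L) := by
      rw [Algebra.smul_def, map_pow, mul_one]
    rw [e]
    exact Submodule.smul_mem _ _ one_mem_Asub
  obtain ⟨c, hc, hc8⟩ := exists_scalar_pow hk3 hαk
  have hlam : algebraMap k L c * α ≠ 0 := mul_ne_zero (by simpa using hc) hα
  refine A_top_of_pow (fun i => ?_) hgen
  have h1 : upM (1 : L) ∈ HH k α := by
    have := up_mem_HH (L := L) (α := α) (1 : k)
    rwa [map_one] at this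
  have hr : (algebraMap k L c * α) ^ i ∈ Subfield.closure ({algebraMap k L c * α} : Set L) :=
    pow_mem (Subfield.subset_closure (Set.mem_singleton _)) i
  have hpf : Fact p.Prime := ⟨hpp⟩
  have h3 : (algebraMap k L c * α) ^ i ∈ Asub k α h2 :=
    up_mem_of_dickson p hp2 (HH k α) hlam h1 (lo_mem_HH c) hc8 hr
  have e : α ^ i = ((c ^ i)⁻¹) • (algebraMap k L c * α) ^ i := by
    rw [Algebra.smul_def, mul_pow, ← mul_assoc, ← map_pow, ← map_mul, inv_mul_cancel₀ (pow_ne_zero _ hc)]
    simp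
  rw [e]
  exact Submodule.smul_mem _ _ h3

theorem A_top [FiniteDimensional k L] (h2 : (2 : k) ≠ 0) (hk3 : Nat.card k ≠ 3) (hα : α ≠ 0)
    (hgen : ∀ z : L, z ∈ Algebra.adjoin k ({α} : Set L)) : Asub k α h2 = ⊤ := by
  rcases finite_or_infinite k with h | h
  · exact A_top_of_finite h2 hk3 hα hgen
  · exact A_top_of_infinite h2 hα hgen

/-- `⟨up(k), lo(kα)⟩ = SL₂(L)` for `L = k[α]`. -/
theorem HH_eq_top [FiniteDimensional k L] (h2 : (2 : k) ≠ 0) (hk3 : Nat.card k ≠ 3) (hα : α ≠ 0)
    (hgen : ∀ z : L, z ∈ Algebra.adjoin k ({α} : Set L)) : HH k α = ⊤ := by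
  refine HH_eq_top_of_A hα fun a => ?_
  have : a ∈ Asub k α h2 := by
    rw [A_top h2 hk3 hα hgen]
    trivial
  exact this

/-- the statement S5060 -/
theorem s5060_main {K : Type*} [Field K] [Algebra k K] (hk2 : ringChar k ≠ 2) (hk3 : Nat.card k ≠ 3)
    (α : K) (hα : IsAlgebraic k α) (hα0 : α ≠ 0) :
    (Subgroup.closure ({g : Matrix.SpecialLinearGroup (Fin 2) K | ∃ c : k, (g : Matrix (Fin 2) (Fin 2) K) = !![1, algebraMap k K c; 0, 1]} ∪
        {g : Matrix.SpecialLinearGroup (Fin 2) K | ∃ c : k, (g : Matrix (Fin 2) (Fin 2) K) = !![1, 0; algebraMap k K c * α, 1]}) :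
      Set (Matrix.SpecialLinearGroup (Fin 2) K)) =
    {g : Matrix.SpecialLinearGroup (Fin 2) K | ∀ i j : Fin 2, (g : Matrix (Fin 2) (Fin 2) K) i j ∈ IntermediateField.adjoin k ({α} : Set K)} := by
  have hint : IsIntegral k α := hα.isIntegral
  have h2 : (2 : k) ≠ 0 := by
    intro h
    apply hk2
    have h3 : ((2 : ℕ) : k) = 0 := by exact_mod_cast h
    have h4 := (CharP.cast_eq_zero_iff k (ringChar k) 2).mp h3
    have h5 : ringChar k ≠ 1 := CharP.ringChar_ne_one
    exact (Nat.prime_two.eq_one_or_self_of_dvd _ h4).resolve_left h5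
  set E := IntermediateField.adjoin k ({α} : Set K) with hE
  haveI : FiniteDimensional k E := IntermediateField.adjoin.finiteDimensional hint
  let α' : E := IntermediateField.AdjoinSimple.gen k α
  have hα' : α' ≠ 0 := by
    intro h
    exact hα0 (congrArg Subtype.val h)
  have hgen : ∀ z : E, z ∈ Algebra.adjoin k ({α'} : Set E) := by
    intro z
    have h1 := (IntermediateField.adjoin.powerBasis hint).adjoin_gen_eq_top
    rw [IntermediateField.adjoin.powerBasis_gen] at h1
    change z ∈ Algebra.adjoin k ({IntermediateField.AdjoinSimple.gen k α} : Set E)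
    rw [h1]
    trivial
  have htop := HH_eq_top h2 hk3 hα' hgen
  let ι : SpecialLinearGroup (Fin 2) E →* SpecialLinearGroup (Fin 2) K :=
    SpecialLinearGroup.map (algebraMap E K)
  have hιu : ∀ c : k, ι (upM (algebraMap k E c)) = upM (algebraMap k K c) := by
    intro c
    apply sl2_ext <;> simp [ι, SpecialLinearGroup.map_apply_coe, RingHom.mapMatrix_apply]
  have hιl : ∀ c : k, ι (loM (algebraMap k E c * α')) = loM (algebraMap k K c * α) := by
    intro c
    apply sl2_ext <;> simp [ι, SpecialLinearGroup.map_apply_coe, RingHom.mapMatrix_apply, α']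
  have hcl : Subgroup.closure ({g : Matrix.SpecialLinearGroup (Fin 2) K | ∃ c : k, (g : Matrix (Fin 2) (Fin 2) K) = !![1, algebraMap k K c; 0, 1]} ∪
        {g : Matrix.SpecialLinearGroup (Fin 2) K | ∃ c : k, (g : Matrix (Fin 2) (Fin 2) K) = !![1, 0; algebraMap k K c * α, 1]}) =
      (HH k α').map ι := by
    rw [HH, MonoidHom.map_closure]
    congr 1
    ext g
    constructor
    · rintro (⟨c, hc⟩ | ⟨c, hc⟩)
      · refine ⟨_, Or.inl ⟨c, rfl⟩, ?_⟩
        rw [hιu]
        exact Subtype.ext hc.symm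
      · refine ⟨_, Or.inr ⟨c, rfl⟩, ?_⟩
        rw [hιl]
        exact Subtype.ext hc.symm
    · rintro ⟨_, (⟨c, rfl⟩ | ⟨c, rfl⟩), rfl⟩
      · left
        exact ⟨c, by rw [hιu]; rfl⟩
      · right
        exact ⟨c, by rw [hιl]; rfl⟩
  rw [hcl, htop]
  ext g
  constructor
  · rintro ⟨x, -, rfl⟩ i j
    simp only [ι, SpecialLinearGroup.map_apply_coe, RingHom.mapMatrix_apply, Matrix.map_apply]
    exact (x : Matrix (Fin 2) (Fin 2) E) i j |>.2
  · intro hg
    let m : Matrix (Fin 2) (Fin 2) E := Matrix.of fun i j => ⟨(g : Matrix (Fin 2) (Fin 2) K) i j, hg i j⟩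
    have hm : (algebraMap E K).mapMatrix m = (g : Matrix (Fin 2) (Fin 2) K) := by
      ext i j
      rfl
    have hdet : m.det = 1 := by
      apply (algebraMap E K).injective
      rw [RingHom.map_det, hm, g.2, map_one]
    refine ⟨⟨m, hdet⟩, trivial, ?_⟩
    apply Subtype.ext
    exact hm

end Main

end Cfsg.Agent.RootSub
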