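import Cfsg.Agent.RootSub.QP1
import Cfsg.Agent.RootSub.SLGen2

/-!
# Quadratic pairs: the polynomial model

`m = [[a, b], [X c, d]]` over `k[X]` acts as `a₀ + a₁(T) xy + d₁(T) yx + b(T) x + c(T) y`.
-/

set_option autoImplicit false
set_option linter.unusedSectionVars false

namespace Cfsg.Agent.RootSub.QP

open Cfsg Polynomial Matrix

variable {k : Type*} [Field k] {M : Type*} [AddCommGroup M] [Module k M]

/-- polynomial in `T` -/
noncomputable def pv (T : M →ₗ[k] M) (f : k[X]) : M →ₗ[k] M := aeval (R := k) (A := Module.End k M) T f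

section pv

variable {T : M →ₗ[k] M}

lemma pv_add (f g : k[X]) : pv T (f + g) = pv T f + pv T g := map_add _ _ _
lemma pv_sub (f g : k[X]) : pv T (f - g) = pv T f - pv T g := map_sub _ _ _
lemma pv_neg (f : k[X]) : pv T (-f) = - pv T f := map_neg _ _
lemma pv_mul (f g : k[X]) : pv T (f * g) = pv T f * pv T g := map_mul _ _ _
lemma pv_one : pv T (1 : k[X]) = 1 := map_one _
lemma pv_zero : pv T (0 : k[X]) = 0 := map_zero _
lemma pv_C (c : k) : pv T (C c) = c • (1 : M →ₗ[k] M) := by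
  unfold pv
  rw [aeval_C, Algebra.algebraMap_eq_smul_one]
lemma pv_X : pv T (X : k[X]) = T := aeval_X _
lemma pv_C_mul (c : k) (f : k[X]) : pv T (C c * f) = c • pv T f := by
  rw [pv_mul, pv_C, smul_mul_assoc, one_mul]
lemma pv_pow (f : k[X]) (n : ℕ) : pv T (f ^ n) = pv T f ^ n := map_pow _ _ _

lemma pv_comm (f g : k[X]) : pv T f * pv T g = pv T g * pv T f := by
  rw [← pv_mul, ← pv_mul, mul_comm]

lemma pv_comm_of {z : M →ₗ[k] M} (hz : T * z = z * T) (f : k[X]) : pv T f * z = z * pv T f := by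
  induction f using Polynomial.induction_on' with
  | add p q hp hq => rw [pv_add, add_mul, mul_add, hp, hq]
  | monomial n a =>
    rw [← C_mul_X_pow_eq_monomial, pv_C_mul, pv_pow, pv_X, smul_mul_assoc, mul_smul_comm]
    congr 1
    induction n with
    | zero => simp
    | succ n ih => rw [pow_succ, mul_assoc, hz, ← mul_assoc, ih, mul_assoc]

lemma pv_eq (f : k[X]) : pv T f = f.coeff 0 • (1 : M →ₗ[k] M) + T * pv T (divX f) := by
  conv_lhs => rw [← X_mul_divX_add f]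
  rw [pv_add, pv_mul, pv_X, pv_C]
  abel

end pv

lemma divX_mul_C' (p : k[X]) (c : k) : divX (p * C c) = C c * divX p := by
  rw [mul_comm, divX_C_mul]

lemma divX_X_mul' (p : k[X]) : divX (X * p) = p := by
  ext n
  rw [coeff_divX, coeff_X_mul]

lemma divX_mul_CX (p : k[X]) (e : k) : divX (p * (C e * X)) = C e * p := by
  have : p * (C e * X) = X * (C e * p) := by ring
  rw [this, divX_X_mul']

/-- the action of the matrix -/
noncomputable def ev (x y : M →ₗ[k] M) (m : Matrix (Fin 2) (Fin 2) k[X]) : M →ₗ[k] M :=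
  (m 0 0).coeff 0 • 1 + pv (TT x y) (divX (m 0 0)) * x * y + pv (TT x y) (divX (m 1 1)) * y * x +
    pv (TT x y) (m 0 1) * x + pv (TT x y) (divX (m 1 0)) * y

/-- the matrices of the model -/
def InU (m : Matrix (Fin 2) (Fin 2) k[X]) : Prop :=
  (m 1 0).coeff 0 = 0 ∧ (m 0 0).coeff 0 = (m 1 1).coeff 0

section ev

variable {x y : M →ₗ[k] M}

/-- Upper unitriangular over a commutative ring -/
def upR {R : Type*} [CommRing R] (t : R) : SpecialLinearGroup (Fin 2) R := ⟨!![1, t; 0, 1], by simp [det_fin_two]⟩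
/-- Lower unitriangular over a commutative ring -/
def loR {R : Type*} [CommRing R] (t : R) : SpecialLinearGroup (Fin 2) R := ⟨!![1, 0; t, 1], by simp [det_fin_two]⟩

@[simp] lemma upR_val {R : Type*} [CommRing R] (t : R) : (upR t : Matrix (Fin 2) (Fin 2) R) = !![1, t; 0, 1] := rfl
@[simp] lemma loR_val {R : Type*} [CommRing R] (t : R) : (loR t : Matrix (Fin 2) (Fin 2) R) = !![1, 0; t, 1] := rfl

lemma ev_one (hx : x * x = 0) : ev x y (1 : Matrix (Fin 2) (Fin 2) k[X]) = 1 := by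
  unfold ev
  simp [divX_one, pv_zero]

lemma InU_one : InU (1 : Matrix (Fin 2) (Fin 2) k[X]) := by
  simp [InU]

lemma InU_mul_up {m : Matrix (Fin 2) (Fin 2) k[X]} (hm : InU m) (c : k) :
    InU (m * (upR (C c) : Matrix (Fin 2) (Fin 2) k[X])) := by
  have h1 := hm.1
  have h2 := hm.2
  constructor
  · simpa [Matrix.mul_apply, Fin.sum_univ_two] using h1
  · simp [Matrix.mul_apply, Fin.sum_univ_two, mul_coeff_zero, h1, h2]

lemma InU_mul_lo {m : Matrix (Fin 2) (Fin 2) k[X]} (hm : InU m) (e : k) :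
    InU (m * (loR (C e * X) : Matrix (Fin 2) (Fin 2) k[X])) := by
  have h1 := hm.1
  have h2 := hm.2
  constructor
  · simpa [Matrix.mul_apply, Fin.sum_univ_two, mul_coeff_zero] using h1
  · simpa [Matrix.mul_apply, Fin.sum_univ_two, mul_coeff_zero] using h2

lemma ev_aux_up (hx : x * x = 0) (a₀ c : k) (A D B C' T : M →ₗ[k] M) (hAT : A * T = T * A) (hTx : T * x = x * y * x) :
    a₀ • 1 + A * x * y + (c • C' + D) * y * x + (c • (a₀ • 1 + T * A) + B) * x + C' * y =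
      (a₀ • 1 + A * x * y + D * y * x + B * x + C' * y) * (1 + c • x) := by
  have e1 : A * x * y * x = T * A * x := by
    rw [← hAT, mul_assoc A x, mul_assoc A, mul_assoc A T, hTx, mul_assoc x]
  have e2 : D * y * x * x = 0 := by
    rw [mul_assoc, hx, mul_zero]
  have e3 : B * x * x = 0 := by
    rw [mul_assoc, hx, mul_zero]
  rw [mul_add, mul_one, mul_smul_comm]
  simp only [add_mul, smul_mul_assoc, one_mul, e1, e2, e3, smul_add]
  simp only [smul_smul, smul_zero, add_zero]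
  abel

lemma ev_aux_lo (hy : y * y = 0) (a₀ e : k) (A D B C' T : M →ₗ[k] M) (hDT : D * T = T * D) (hTy : T * y = y * x * y) :
    a₀ • 1 + (A + e • B) * x * y + D * y * x + B * x + (C' + e • (a₀ • 1 + T * D)) * y =
      (a₀ • 1 + A * x * y + D * y * x + B * x + C' * y) * (1 + e • y) := by
  have e1 : D * y * x * y = T * D * y := by
    rw [← hDT, mul_assoc D y, mul_assoc D, mul_assoc D T, hTy, mul_assoc y]
  have e2 : A * x * y * y = 0 := by
    rw [mul_assoc, hy, mul_zero]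
  have e3 : C' * y * y = 0 := by
    rw [mul_assoc, hy, mul_zero]
  rw [mul_add, mul_one, mul_smul_comm]
  simp only [add_mul, smul_mul_assoc, one_mul, e1, e2, e3, smul_add]
  simp only [smul_smul, smul_zero, add_zero]
  abel

/-- right multiplication by an upper generator -/
lemma ev_mul_up (hx : x * x = 0) {m : Matrix (Fin 2) (Fin 2) k[X]} (hm : InU m) (c : k) :
    ev x y (m * (upR (C c) : Matrix (Fin 2) (Fin 2) k[X])) = ev x y m * (1 + c • x) := by
  have e00 : (m * (upR (C c) : Matrix (Fin 2) (Fin 2) k[X])) 0 0 = m 0 0 := by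
    simp [Matrix.mul_apply, Fin.sum_univ_two]
  have e01 : (m * (upR (C c) : Matrix (Fin 2) (Fin 2) k[X])) 0 1 = C c * m 0 0 + m 0 1 := by
    simp [Matrix.mul_apply, Fin.sum_univ_two, mul_comm]
  have e10 : (m * (upR (C c) : Matrix (Fin 2) (Fin 2) k[X])) 1 0 = m 1 0 := by
    simp [Matrix.mul_apply, Fin.sum_univ_two]
  have e11 : (m * (upR (C c) : Matrix (Fin 2) (Fin 2) k[X])) 1 1 = C c * m 1 0 + m 1 1 := by
    simp [Matrix.mul_apply, Fin.sum_univ_two, mul_comm]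
  unfold ev
  rw [e00, e01, e10, e11, divX_add, divX_C_mul, pv_add, pv_add, pv_C_mul, pv_C_mul, pv_eq (m 0 0)]
  exact ev_aux_up hx _ c _ _ _ _ _ (pv_comm_of rfl _) (TT_mul_x hx)

/-- right multiplication by a lower generator -/
lemma ev_mul_lo (hy : y * y = 0) {m : Matrix (Fin 2) (Fin 2) k[X]} (hm : InU m) (e : k) :
    ev x y (m * (loR (C e * X) : Matrix (Fin 2) (Fin 2) k[X])) = ev x y m * (1 + e • y) := by
  have e00 : (m * (loR (C e * X) : Matrix (Fin 2) (Fin 2) k[X])) 0 0 = m 0 0 + m 0 1 * (C e * X) := by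
    simp [Matrix.mul_apply, Fin.sum_univ_two]
  have e01 : (m * (loR (C e * X) : Matrix (Fin 2) (Fin 2) k[X])) 0 1 = m 0 1 := by
    simp [Matrix.mul_apply, Fin.sum_univ_two]
  have e10 : (m * (loR (C e * X) : Matrix (Fin 2) (Fin 2) k[X])) 1 0 = m 1 0 + m 1 1 * (C e * X) := by
    simp [Matrix.mul_apply, Fin.sum_univ_two]
  have e11 : (m * (loR (C e * X) : Matrix (Fin 2) (Fin 2) k[X])) 1 1 = m 1 1 := by
    simp [Matrix.mul_apply, Fin.sum_univ_two]
  have hc : (m 0 0 + m 0 1 * (C e * X)).coeff 0 = (m 0 0).coeff 0 := by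
    simp [mul_coeff_zero]
  unfold ev
  rw [e00, e01, e10, e11, hc, divX_add, divX_add, divX_mul_CX, divX_mul_CX, pv_add, pv_add, pv_C_mul, pv_C_mul,
    pv_eq (m 1 1), ← hm.2]
  exact ev_aux_lo hy _ e _ _ _ _ _ (pv_comm_of rfl _) (TT_mul_y hy)

lemma upR_inv {R : Type*} [CommRing R] (t : R) : (upR t)⁻¹ = upR (-t) := by
  apply Subtype.ext
  rw [SpecialLinearGroup.SL2_inv_expl]
  ext i j
  fin_cases i <;> fin_cases j <;> simp [upR]

lemma loR_inv {R : Type*} [CommRing R] (t : R) : (loR t)⁻¹ = loR (-t) := by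
  apply Subtype.ext
  rw [SpecialLinearGroup.SL2_inv_expl]
  ext i j
  fin_cases i <;> fin_cases j <;> simp [loR]

/-- the generating set of `Γ` -/
noncomputable def gamS (k : Type*) [Field k] : Set (SpecialLinearGroup (Fin 2) k[X]) :=
  {g | ∃ c : k, g = upR (C c)} ∪ {g | ∃ c : k, g = loR (C c * X)}

/-- the group `Γ` -/
noncomputable def GamP (k : Type*) [Field k] : Subgroup (SpecialLinearGroup (Fin 2) k[X]) :=
  Subgroup.closure (gamS k)

lemma up_mem_Gam (c : k) : upR (C c) ∈ GamP k := Subgroup.subset_closure (Or.inl ⟨c, rfl⟩)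
lemma lo_mem_Gam (c : k) : loR (C c * X) ∈ GamP k := Subgroup.subset_closure (Or.inr ⟨c, rfl⟩)

/-- the multiplicativity property -/
def EvP (x y : M →ₗ[k] M) (γ : SpecialLinearGroup (Fin 2) k[X]) : Prop :=
  InU (γ : Matrix (Fin 2) (Fin 2) k[X]) ∧ ((γ : Matrix (Fin 2) (Fin 2) k[X]) 0 0).coeff 0 = 1 ∧
    ∀ m : Matrix (Fin 2) (Fin 2) k[X], InU m → InU (m * (γ : Matrix (Fin 2) (Fin 2) k[X])) ∧
      ev x y (m * (γ : Matrix (Fin 2) (Fin 2) k[X])) = ev x y m * ev x y (γ : Matrix (Fin 2) (Fin 2) k[X])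

lemma ev_up (hx : x * x = 0) (c : k) : ev x y (upR (C c) : Matrix (Fin 2) (Fin 2) k[X]) = 1 + c • x := by
  have := ev_mul_up (y := y) hx (InU_one (k := k)) c
  rwa [one_mul, ev_one hx, one_mul] at this

lemma ev_lo (hx : x * x = 0) (hy : y * y = 0) (c : k) :
    ev x y (loR (C c * X) : Matrix (Fin 2) (Fin 2) k[X]) = 1 + c • y := by
  have := ev_mul_lo (x := x) hy (InU_one (k := k)) c
  rwa [one_mul, ev_one hx, one_mul] at this

lemma EvP_up (hx : x * x = 0) (c : k) : EvP x y (upR (C c)) := by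
  have h1 := InU_mul_up (InU_one (k := k)) c
  rw [one_mul] at h1
  refine ⟨h1, by simp, fun m hm => ⟨InU_mul_up hm c, ?_⟩⟩
  rw [ev_up hx, ev_mul_up hx hm]

lemma EvP_lo (hx : x * x = 0) (hy : y * y = 0) (c : k) : EvP x y (loR (C c * X)) := by
  have h1 := InU_mul_lo (InU_one (k := k)) c
  rw [one_mul] at h1
  refine ⟨h1, by simp, fun m hm => ⟨InU_mul_lo hm c, ?_⟩⟩
  rw [ev_lo hx hy, ev_mul_lo hy hm]

lemma EvP_mul (hx : x * x = 0) {γ₁ γ₂ : SpecialLinearGroup (Fin 2) k[X]} (h1 : EvP x y γ₁) (h2 : EvP x y γ₂) :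
    EvP x y (γ₁ * γ₂) := by
  refine ⟨?_, ?_, fun m hm => ?_⟩
  · have := (h2.2.2 _ h1.1).1
    simpa using this
  · have e : ((γ₁ * γ₂ : SpecialLinearGroup (Fin 2) k[X]) : Matrix (Fin 2) (Fin 2) k[X]) 0 0 =
        (γ₁ : Matrix (Fin 2) (Fin 2) k[X]) 0 0 * (γ₂ : Matrix (Fin 2) (Fin 2) k[X]) 0 0 +
        (γ₁ : Matrix (Fin 2) (Fin 2) k[X]) 0 1 * (γ₂ : Matrix (Fin 2) (Fin 2) k[X]) 1 0 := by
      simp [Matrix.mul_apply, Fin.sum_univ_two]
    rw [e, coeff_add, mul_coeff_zero, mul_coeff_zero, h1.2.1, h2.2.1, h2.1.1]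
    simp
  · have e : ((γ₁ * γ₂ : SpecialLinearGroup (Fin 2) k[X]) : Matrix (Fin 2) (Fin 2) k[X]) =
        (γ₁ : Matrix (Fin 2) (Fin 2) k[X]) * (γ₂ : Matrix (Fin 2) (Fin 2) k[X]) := rfl
    rw [e, ← mul_assoc]
    obtain ⟨h3, h4⟩ := h1.2.2 m hm
    obtain ⟨h5, h6⟩ := h2.2.2 _ h3
    refine ⟨h5, ?_⟩
    rw [h6, h4, mul_assoc]
    congr 1
    have h7 := (h2.2.2 _ h1.1).2
    rw [h7]

theorem EvP_of_mem (hx : x * x = 0) (hy : y * y = 0) {γ : SpecialLinearGroup (Fin 2) k[X]} (hγ : γ ∈ GamP k) :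
    EvP x y γ := by
  induction hγ using Subgroup.closure_induction'' with
  | mem g hg =>
    rcases hg with ⟨c, rfl⟩ | ⟨c, rfl⟩
    · exact EvP_up hx c
    · exact EvP_lo hx hy c
  | inv_mem g hg =>
    rcases hg with ⟨c, rfl⟩ | ⟨c, rfl⟩
    · rw [upR_inv, ← C_neg]
      exact EvP_up hx _
    · rw [loR_inv, ← neg_mul, ← C_neg]
      exact EvP_lo hx hy _
  | one =>
    refine ⟨InU_one, by simp, fun m hm => ?_⟩
    simp [ev_one hx, hm]
  | mul a b _ _ h1 h2 => exact EvP_mul hx h1 h2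

lemma ev_mul_Gam (hx : x * x = 0) (hy : y * y = 0) {γ : SpecialLinearGroup (Fin 2) k[X]} (hγ : γ ∈ GamP k)
    {m : Matrix (Fin 2) (Fin 2) k[X]} (hm : InU m) :
    ev x y (m * (γ : Matrix (Fin 2) (Fin 2) k[X])) = ev x y m * ev x y (γ : Matrix (Fin 2) (Fin 2) k[X]) :=
  ((EvP_of_mem hx hy hγ).2.2 m hm).2

lemma ev_gam_mul (hx : x * x = 0) (hy : y * y = 0) {γ γ' : SpecialLinearGroup (Fin 2) k[X]} (hγ : γ ∈ GamP k)
    (hγ' : γ' ∈ GamP k) : ev x y ((γ * γ' : SpecialLinearGroup (Fin 2) k[X]) : Matrix (Fin 2) (Fin 2) k[X]) =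
      ev x y (γ : Matrix (Fin 2) (Fin 2) k[X]) * ev x y (γ' : Matrix (Fin 2) (Fin 2) k[X]) :=
  ev_mul_Gam hx hy hγ' (EvP_of_mem hx hy hγ).1

lemma ev_gam_one (hx : x * x = 0) : ev x y ((1 : SpecialLinearGroup (Fin 2) k[X]) : Matrix (Fin 2) (Fin 2) k[X]) = 1 := by
  simpa using ev_one (y := y) hx

/-- The element of the group attached to a member of `Γ`. -/
theorem exists_unit_ev {G : Subgroup (LinearMap.GeneralLinearGroup k M)} (hx : QE G x) (hy : QE G y)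
    {γ : SpecialLinearGroup (Fin 2) k[X]} (hγ : γ ∈ GamP k) :
    ∃ g ∈ G, (g : M →ₗ[k] M) = ev x y (γ : Matrix (Fin 2) (Fin 2) k[X]) ∧
      ((g⁻¹ : LinearMap.GeneralLinearGroup k M) : M →ₗ[k] M) = ev x y ((γ⁻¹ : SpecialLinearGroup (Fin 2) k[X]) : Matrix (Fin 2) (Fin 2) k[X]) := by
  have hxx := hx.1
  have hyy := hy.1
  have h1 : InG G (ev x y (γ : Matrix (Fin 2) (Fin 2) k[X])) := by
    induction hγ using Subgroup.closure_induction'' with
    | mem g hg =>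
      rcases hg with ⟨c, rfl⟩ | ⟨c, rfl⟩
      · rw [ev_up hxx]; exact hx.2.2 c
      · rw [ev_lo hxx hyy]; exact hy.2.2 c
    | inv_mem g hg =>
      rcases hg with ⟨c, rfl⟩ | ⟨c, rfl⟩
      · rw [upR_inv, ← C_neg, ev_up hxx]; exact hx.2.2 _
      · rw [loR_inv, ← neg_mul, ← C_neg, ev_lo hxx hyy]; exact hy.2.2 _
    | one => rw [ev_gam_one hxx]; exact InG.one
    | mul a b ha hb h1 h2 =>
      rw [ev_gam_mul hxx hyy ha hb]
      exact h1.mul h2
  obtain ⟨g, hg, hge⟩ := h1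
  refine ⟨g, hg, hge, ?_⟩
  have h2 : ev x y (γ : Matrix (Fin 2) (Fin 2) k[X]) * ev x y ((γ⁻¹ : SpecialLinearGroup (Fin 2) k[X]) : Matrix (Fin 2) (Fin 2) k[X]) = 1 := by
    rw [← ev_gam_mul hxx hyy hγ (Subgroup.inv_mem _ hγ), mul_inv_cancel, ev_gam_one hxx]
  calc ((g⁻¹ : LinearMap.GeneralLinearGroup k M) : M →ₗ[k] M)
      = ((g⁻¹ : LinearMap.GeneralLinearGroup k M) : M →ₗ[k] M) * ((g : M →ₗ[k] M) * ev x y ((γ⁻¹ : SpecialLinearGroup (Fin 2) k[X]) : Matrix (Fin 2) (Fin 2) k[X])) := by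
        rw [hge, h2, mul_one]
    _ = _ := by
        rw [← mul_assoc, val_inv_mul, one_mul]

/-- the matrix `e₁₂` -/
noncomputable def e12 (k : Type*) [Field k] : Matrix (Fin 2) (Fin 2) k[X] := !![0, 1; 0, 0]

/-- right multiplication by `e₁₂`. -/
lemma ev_mul_e12 (hx : x * x = 0) {m : Matrix (Fin 2) (Fin 2) k[X]} (hm : InU m) :
    InU (m * e12 k) ∧ ev x y (m * e12 k) = ev x y m * x := by
  have e00 : (m * e12 k) 0 0 = 0 := by
    simp [e12, Matrix.mul_apply, Fin.sum_univ_two]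
  have e01 : (m * e12 k) 0 1 = m 0 0 := by
    simp [e12, Matrix.mul_apply, Fin.sum_univ_two]
  have e10 : (m * e12 k) 1 0 = 0 := by
    simp [e12, Matrix.mul_apply, Fin.sum_univ_two]
  have e11 : (m * e12 k) 1 1 = m 1 0 := by
    simp [e12, Matrix.mul_apply, Fin.sum_univ_two]
  refine ⟨⟨by rw [e10]; simp, by rw [e00, e11, hm.1]; simp⟩, ?_⟩
  unfold ev
  rw [e00, e01, e10, e11, pv_eq (m 0 0)]
  have hAT : pv (TT x y) (divX (m 0 0)) * TT x y = TT x y * pv (TT x y) (divX (m 0 0)) := pv_comm_of rfl _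
  have e1 : pv (TT x y) (divX (m 0 0)) * x * y * x = TT x y * pv (TT x y) (divX (m 0 0)) * x := by
    rw [← hAT, mul_assoc _ x, mul_assoc _ (x * y), mul_assoc _ (TT x y), TT_mul_x hx]
  have e2 : pv (TT x y) (divX (m 1 1)) * y * x * x = 0 := by
    rw [mul_assoc, hx, mul_zero]
  have e3 : pv (TT x y) (m 0 1) * x * x = 0 := by
    rw [mul_assoc, hx, mul_zero]
  simp only [add_mul, smul_mul_assoc, one_mul, e1, e2, e3, divX_zero, pv_zero, zero_mul, coeff_zero, zero_smul,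
    add_zero, zero_add]
  abel

lemma inv_00 {R : Type*} [CommRing R] (γ : SpecialLinearGroup (Fin 2) R) :
    ((γ⁻¹ : SpecialLinearGroup (Fin 2) R) : Matrix (Fin 2) (Fin 2) R) 0 0 = (γ : Matrix (Fin 2) (Fin 2) R) 1 1 := by
  rw [SpecialLinearGroup.SL2_inv_expl]
  rfl

lemma inv_01 {R : Type*} [CommRing R] (γ : SpecialLinearGroup (Fin 2) R) :
    ((γ⁻¹ : SpecialLinearGroup (Fin 2) R) : Matrix (Fin 2) (Fin 2) R) 0 1 = -(γ : Matrix (Fin 2) (Fin 2) R) 0 1 := by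
  rw [SpecialLinearGroup.SL2_inv_expl]
  rfl

lemma inv_10 {R : Type*} [CommRing R] (γ : SpecialLinearGroup (Fin 2) R) :
    ((γ⁻¹ : SpecialLinearGroup (Fin 2) R) : Matrix (Fin 2) (Fin 2) R) 1 0 = -(γ : Matrix (Fin 2) (Fin 2) R) 1 0 := by
  rw [SpecialLinearGroup.SL2_inv_expl]
  rfl

lemma inv_11 {R : Type*} [CommRing R] (γ : SpecialLinearGroup (Fin 2) R) :
    ((γ⁻¹ : SpecialLinearGroup (Fin 2) R) : Matrix (Fin 2) (Fin 2) R) 1 1 = (γ : Matrix (Fin 2) (Fin 2) R) 0 0 := by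
  rw [SpecialLinearGroup.SL2_inv_expl]
  rfl

/-- the conjugation formula -/
theorem ev_conj_x (hx : x * x = 0) (hy : y * y = 0) {γ : SpecialLinearGroup (Fin 2) k[X]} (hγ : γ ∈ GamP k) :
    ev x y (γ : Matrix (Fin 2) (Fin 2) k[X]) * x * ev x y ((γ⁻¹ : SpecialLinearGroup (Fin 2) k[X]) : Matrix (Fin 2) (Fin 2) k[X]) =
      pv (TT x y) ((γ : Matrix (Fin 2) (Fin 2) k[X]) 0 0 * (γ : Matrix (Fin 2) (Fin 2) k[X]) 0 0) * x -
      pv (TT x y) ((γ : Matrix (Fin 2) (Fin 2) k[X]) 0 0 * divX ((γ : Matrix (Fin 2) (Fin 2) k[X]) 1 0)) * WW x y -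
      pv (TT x y) (X * divX ((γ : Matrix (Fin 2) (Fin 2) k[X]) 1 0) * divX ((γ : Matrix (Fin 2) (Fin 2) k[X]) 1 0)) * y := by
  have hU := (EvP_of_mem (x := x) (y := y) hx hy hγ).1
  obtain ⟨h1, h2⟩ := ev_mul_e12 (y := y) hx hU
  rw [← h2, ← ev_mul_Gam hx hy (Subgroup.inv_mem _ hγ) h1]
  set a := (γ : Matrix (Fin 2) (Fin 2) k[X]) 0 0 with ha
  set c := (γ : Matrix (Fin 2) (Fin 2) k[X]) 1 0 with hc
  have hcX : c = X * divX c := by
    have := X_mul_divX_add c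
    rw [hU.1, C_0, add_zero] at this
    exact this.symm
  set c' := divX c with hc'
  have e00 : ((γ : Matrix (Fin 2) (Fin 2) k[X]) * e12 k * ((γ⁻¹ : SpecialLinearGroup (Fin 2) k[X]) : Matrix (Fin 2) (Fin 2) k[X])) 0 0 = X * (-(a * c')) := by
    simp only [Matrix.mul_apply, Fin.sum_univ_two, inv_00, inv_10, e12]
    simp [← ha, ← hc]
    rw [hcX]
    ring
  have e01 : ((γ : Matrix (Fin 2) (Fin 2) k[X]) * e12 k * ((γ⁻¹ : SpecialLinearGroup (Fin 2) k[X]) : Matrix (Fin 2) (Fin 2) k[X])) 0 1 = a * a := by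
    simp only [Matrix.mul_apply, Fin.sum_univ_two, inv_01, inv_11, e12]
    simp [← ha, ← hc]
  have e10 : ((γ : Matrix (Fin 2) (Fin 2) k[X]) * e12 k * ((γ⁻¹ : SpecialLinearGroup (Fin 2) k[X]) : Matrix (Fin 2) (Fin 2) k[X])) 1 0 = X * (-(X * c' * c')) := by
    simp only [Matrix.mul_apply, Fin.sum_univ_two, inv_00, inv_10, e12]
    simp [← ha, ← hc]
    rw [hcX]
    ring
  have e11 : ((γ : Matrix (Fin 2) (Fin 2) k[X]) * e12 k * ((γ⁻¹ : SpecialLinearGroup (Fin 2) k[X]) : Matrix (Fin 2) (Fin 2) k[X])) 1 1 = X * (a * c') := by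
    simp only [Matrix.mul_apply, Fin.sum_univ_two, inv_01, inv_11, e12]
    simp [← ha, ← hc]
    rw [hcX]
    ring
  unfold ev
  rw [e00, e01, e10, e11, divX_X_mul', divX_X_mul', divX_X_mul', pv_neg, pv_neg]
  simp only [mul_coeff_zero, coeff_X_zero, zero_mul, zero_smul, zero_add, WW]
  simp only [neg_mul, mul_sub, ← mul_assoc]
  abel

end ev

section swap

lemma mul_entry {R : Type*} [CommRing R] (a b : SpecialLinearGroup (Fin 2) R) (i j : Fin 2) :
    ((a * b : SpecialLinearGroup (Fin 2) R) : Matrix (Fin 2) (Fin 2) R) i j =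
      (a : Matrix (Fin 2) (Fin 2) R) i 0 * (b : Matrix (Fin 2) (Fin 2) R) 0 j +
      (a : Matrix (Fin 2) (Fin 2) R) i 1 * (b : Matrix (Fin 2) (Fin 2) R) 1 j := by
  change ((a : Matrix (Fin 2) (Fin 2) R) * (b : Matrix (Fin 2) (Fin 2) R)) i j = _
  rw [Matrix.mul_apply, Fin.sum_univ_two]

/-- swapped element -/
lemma exists_swap {γ : SpecialLinearGroup (Fin 2) k[X]} (hγ : γ ∈ GamP k) :
    ∃ γ' ∈ GamP k, (γ' : Matrix (Fin 2) (Fin 2) k[X]) 0 0 = (γ : Matrix (Fin 2) (Fin 2) k[X]) 1 1 ∧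
      (γ' : Matrix (Fin 2) (Fin 2) k[X]) 1 1 = (γ : Matrix (Fin 2) (Fin 2) k[X]) 0 0 ∧
      (γ' : Matrix (Fin 2) (Fin 2) k[X]) 1 0 = X * (γ : Matrix (Fin 2) (Fin 2) k[X]) 0 1 ∧
      X * (γ' : Matrix (Fin 2) (Fin 2) k[X]) 0 1 = (γ : Matrix (Fin 2) (Fin 2) k[X]) 1 0 := by
  induction hγ using Subgroup.closure_induction'' with
  | mem g hg =>
    rcases hg with ⟨c, rfl⟩ | ⟨c, rfl⟩
    · refine ⟨loR (C c * X), lo_mem_Gam c, by simp, by simp, ?_, by simp⟩
      simp only [loR_val, upR_val]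
      simp
    · refine ⟨upR (C c), up_mem_Gam c, by simp, by simp, by simp, ?_⟩
      simp only [loR_val, upR_val]
      simp
  | inv_mem g hg =>
    rcases hg with ⟨c, rfl⟩ | ⟨c, rfl⟩
    · refine ⟨loR (C (-c) * X), lo_mem_Gam _, ?_, ?_, ?_, ?_⟩
      · rw [upR_inv]; simp
      · rw [upR_inv]; simp
      · rw [upR_inv]
        simp only [loR_val, upR_val]
        simp
      · rw [upR_inv]; simp
    · refine ⟨upR (C (-c)), up_mem_Gam _, ?_, ?_, ?_, ?_⟩
      · rw [loR_inv]; simp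
      · rw [loR_inv]; simp
      · rw [loR_inv]; simp
      · rw [loR_inv]
        simp only [loR_val, upR_val]
        simp
  | one => exact ⟨1, Subgroup.one_mem _, by simp, by simp, by simp, by simp⟩
  | mul a b _ _ h1 h2 =>
    obtain ⟨a', ha', h1a, h1b, h1c, h1d⟩ := h1
    obtain ⟨b', hb', h2a, h2b, h2c, h2d⟩ := h2
    refine ⟨a' * b', Subgroup.mul_mem _ ha' hb', ?_, ?_, ?_, ?_⟩
    · rw [mul_entry, mul_entry]
      rw [h1a, h2a]
      have e1 : (a' : Matrix (Fin 2) (Fin 2) k[X]) 0 1 * (b' : Matrix (Fin 2) (Fin 2) k[X]) 1 0 =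
          (X * (a' : Matrix (Fin 2) (Fin 2) k[X]) 0 1) * (b : Matrix (Fin 2) (Fin 2) k[X]) 0 1 := by
        rw [h2c]
        ring
      rw [e1, h1d]
      ring
    · rw [mul_entry, mul_entry]
      rw [h1b, h2b, h1c, ← h2d]
      ring
    · rw [mul_entry, mul_entry]
      rw [h1c, h1b, h2a, h2c]
      ring
    · rw [mul_entry, mul_entry]
      rw [← h1d, ← h2d, h1a.symm, h2b.symm]
      ring

end swap

end Cfsg.Agent.RootSub.QP
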