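import Cfsg.Agent.RootSub.QP2

/-!
# A rigidity lemma for subgroups of `SL₂(R)`

If `Γ ≤ SL₂(R)` surjects onto `SL₂(K)` under a ring map `R → K` and the off diagonal entries of
elements of `Γ` vanish as soon as they vanish in `K`, then `R → K` is injective.
-/

set_option autoImplicit false
set_option linter.unusedSectionVars false

namespace Cfsg.Agent.RootSub.QP

open Matrix

section Lalg

variable {R : Type*} [CommRing R]

lemma slR_ext {g h : SpecialLinearGroup (Fin 2) R}
    (h00 : (g : Matrix (Fin 2) (Fin 2) R) 0 0 = (h : Matrix (Fin 2) (Fin 2) R) 0 0)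
    (h01 : (g : Matrix (Fin 2) (Fin 2) R) 0 1 = (h : Matrix (Fin 2) (Fin 2) R) 0 1)
    (h10 : (g : Matrix (Fin 2) (Fin 2) R) 1 0 = (h : Matrix (Fin 2) (Fin 2) R) 1 0)
    (h11 : (g : Matrix (Fin 2) (Fin 2) R) 1 1 = (h : Matrix (Fin 2) (Fin 2) R) 1 1) : g = h := by
  apply Subtype.ext
  ext i j
  fin_cases i <;> fin_cases j <;> simpa

lemma det_R (g : SpecialLinearGroup (Fin 2) R) :
    (g : Matrix (Fin 2) (Fin 2) R) 0 0 * (g : Matrix (Fin 2) (Fin 2) R) 1 1 -
      (g : Matrix (Fin 2) (Fin 2) R) 0 1 * (g : Matrix (Fin 2) (Fin 2) R) 1 0 = 1 := by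
  have h := g.2
  rw [det_fin_two] at h
  exact h

lemma upR_mul (s t : R) : upR s * upR t = upR (s + t) := by
  apply slR_ext <;> simp [mul_entry, add_comm]

lemma loR_mul (s t : R) : loR s * loR t = loR (s + t) := by
  apply slR_ext <;> simp [mul_entry, add_comm]

variable {k K : Type*} [Field k] [Field K] [Algebra k R] [Algebra k K]

/-- conjugate of `up 1` when the lower left entry is zero. -/
lemma conj_up_of_c (m : SpecialLinearGroup (Fin 2) R) (hc : (m : Matrix (Fin 2) (Fin 2) R) 1 0 = 0) :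
    m * upR 1 * m⁻¹ = upR ((m : Matrix (Fin 2) (Fin 2) R) 0 0 * (m : Matrix (Fin 2) (Fin 2) R) 0 0) := by
  have hd := det_R m
  rw [hc, mul_zero, sub_zero] at hd
  apply slR_ext <;> simp only [mul_entry, inv_00, inv_01, inv_10, inv_11, hc, upR_val] <;> simp <;>
    first | ring1 | linear_combination hd | linear_combination (-1 : R) * hd

/-- conjugate of `lo t` when the upper right entry is zero. -/
lemma conj_lo_of_b (m : SpecialLinearGroup (Fin 2) R) (hb : (m : Matrix (Fin 2) (Fin 2) R) 0 1 = 0) (t : R) :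
    m * loR t * m⁻¹ = loR ((m : Matrix (Fin 2) (Fin 2) R) 1 1 * (m : Matrix (Fin 2) (Fin 2) R) 1 1 * t) := by
  have hd := det_R m
  rw [hb, zero_mul, sub_zero] at hd
  apply slR_ext <;> simp only [mul_entry, inv_00, inv_01, inv_10, inv_11, hb, loR_val] <;> simp <;>
    first | ring1 | linear_combination hd | linear_combination (-1 : R) * hd

/-- the hypotheses of the rigidity lemma -/
structure LHyp (π : R →ₐ[k] K) (Γ : Subgroup (SpecialLinearGroup (Fin 2) R)) (t : R) : Prop where
  h2 : (2 : R) * (2⁻¹ : k) • (1 : R) = 1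
  ht : IsUnit t
  hgen : ∀ r : R, r ∈ Algebra.adjoin k ({t} : Set R)
  hup : ∀ c : k, upR (algebraMap k R c) ∈ Γ
  hlo : ∀ c : k, loR (algebraMap k R c * t) ∈ Γ
  hsurj : ∀ g : SpecialLinearGroup (Fin 2) K, ∃ m ∈ Γ, SpecialLinearGroup.map π.toRingHom m = g
  hC : ∀ m ∈ Γ, π ((m : Matrix (Fin 2) (Fin 2) R) 1 0) = 0 → (m : Matrix (Fin 2) (Fin 2) R) 1 0 = 0
  hB : ∀ m ∈ Γ, π ((m : Matrix (Fin 2) (Fin 2) R) 0 1) = 0 → (m : Matrix (Fin 2) (Fin 2) R) 0 1 = 0

variable {π : R →ₐ[k] K} {Γ : Subgroup (SpecialLinearGroup (Fin 2) R)} {t : R}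

lemma map_entry (m : SpecialLinearGroup (Fin 2) R) (i j : Fin 2) :
    ((SpecialLinearGroup.map π.toRingHom m : SpecialLinearGroup (Fin 2) K) : Matrix (Fin 2) (Fin 2) K) i j =
      π ((m : Matrix (Fin 2) (Fin 2) R) i j) := rfl

lemma LHyp.cancel2 (H : LHyp π Γ t) {a : R} (h : 2 * a = 0) : a = 0 := by
  have := H.h2
  calc a = ((2 : R) * (2⁻¹ : k) • (1 : R)) * a := by rw [this, one_mul]
    _ = (2⁻¹ : k) • (1 : R) * (2 * a) := by ring
    _ = 0 := by rw [h, mul_zero]

lemma LHyp.two_k (H : LHyp π Γ t) : (2 : k) ≠ 0 := by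
  intro h
  have h1 := H.h2
  have e : (2⁻¹ : k) = 0 := by rw [h, _root_.inv_zero]
  rw [e, zero_smul, mul_zero] at h1
  have h3 : (1 : R) = 0 := h1.symm
  -- `R` is nontrivial since it maps to `K`.
  have := congrArg π h3
  simp at this

lemma LHyp.exists_up (H : LHyp π Γ t) (r : K) : ∃ f : R, upR f ∈ Γ ∧ π f = r := by
  have h2k := H.two_k
  have h2K : (2 : K) ≠ 0 := by
    intro h
    apply h2k
    have : algebraMap k K 2 = 0 := by rw [map_ofNat, h]
    simpa using this
  obtain ⟨m, hm, hme⟩ := H.hsurj (upM (r / 2))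
  have e00 : π ((m : Matrix (Fin 2) (Fin 2) R) 0 0) = 1 := by
    rw [← map_entry (π := π), hme]; simp
  have e01 : π ((m : Matrix (Fin 2) (Fin 2) R) 0 1) = r / 2 := by
    rw [← map_entry (π := π), hme]; simp
  have e10 : π ((m : Matrix (Fin 2) (Fin 2) R) 1 0) = 0 := by
    rw [← map_entry (π := π), hme]; simp
  have hc := H.hC m hm e10
  have hconj := conj_up_of_c m hc
  have h1 : upR (1 : R) ∈ Γ := by
    have := H.hup 1
    rwa [map_one] at this
  set a := (m : Matrix (Fin 2) (Fin 2) R) 0 0 with ha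
  have h2 : upR (a * a) ∈ Γ := by
    rw [← hconj]
    exact Subgroup.mul_mem _ (Subgroup.mul_mem _ hm h1) (Subgroup.inv_mem _ hm)
  have h3 : upR (a * a - 1) ∈ Γ := by
    have := Subgroup.mul_mem _ h2 (Subgroup.inv_mem _ h1)
    rwa [upR_inv, upR_mul, ← sub_eq_add_neg] at this
  have h4 : a * a - 1 = 0 := by
    have := H.hB _ h3 (by simp [map_sub, map_mul, ← ha, e00])
    simpa using this
  have hd := det_R m
  rw [hc, mul_zero, sub_zero] at hd
  have hda : (m : Matrix (Fin 2) (Fin 2) R) 1 1 = a := by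
    linear_combination (a) * hd - (m : Matrix (Fin 2) (Fin 2) R) 1 1 * h4
  refine ⟨2 * (a * (m : Matrix (Fin 2) (Fin 2) R) 0 1), ?_, ?_⟩
  · have e : m * m = upR (2 * (a * (m : Matrix (Fin 2) (Fin 2) R) 0 1)) := by
      apply slR_ext <;> simp only [mul_entry, upR_val, hc, hda, ← ha] <;> simp
      · linear_combination h4
      · ring
      · linear_combination h4
    rw [← e]
    exact Subgroup.mul_mem _ hm hm
  · rw [map_mul, map_mul, e00, e01, map_ofNat]
    field_simp

lemma LHyp.exists_lo (H : LHyp π Γ t) (s : K) : ∃ f : R, loR f ∈ Γ ∧ π f = s := by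
  have h2k := H.two_k
  have h2K : (2 : K) ≠ 0 := by
    intro h
    apply h2k
    have : algebraMap k K 2 = 0 := by rw [map_ofNat, h]
    simpa using this
  obtain ⟨m, hm, hme⟩ := H.hsurj (loM (s / 2))
  have e11 : π ((m : Matrix (Fin 2) (Fin 2) R) 1 1) = 1 := by
    rw [← map_entry (π := π), hme]; simp
  have e10 : π ((m : Matrix (Fin 2) (Fin 2) R) 1 0) = s / 2 := by
    rw [← map_entry (π := π), hme]; simp
  have e01 : π ((m : Matrix (Fin 2) (Fin 2) R) 0 1) = 0 := by
    rw [← map_entry (π := π), hme]; simp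
  have hb := H.hB m hm e01
  have hconj := conj_lo_of_b m hb t
  have h1 : loR t ∈ Γ := by
    have := H.hlo 1
    rwa [map_one, one_mul] at this
  set d := (m : Matrix (Fin 2) (Fin 2) R) 1 1 with hd'
  have h2 : loR (d * d * t) ∈ Γ := by
    rw [← hconj]
    exact Subgroup.mul_mem _ (Subgroup.mul_mem _ hm h1) (Subgroup.inv_mem _ hm)
  have h3 : loR (d * d * t - t) ∈ Γ := by
    have := Subgroup.mul_mem _ h2 (Subgroup.inv_mem _ h1)
    rwa [loR_inv, loR_mul, ← sub_eq_add_neg] at this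
  have hπt : π t ≠ 0 := by
    obtain ⟨u, rfl⟩ := H.ht
    exact (u.isUnit.map π).ne_zero
  have h4 : d * d - 1 = 0 := by
    have h5 := H.hC _ h3 (by simp [map_sub, map_mul, ← hd', e11])
    have h6 : d * d * t - t = 0 := by simpa using h5
    obtain ⟨u, rfl⟩ := H.ht
    have h7 : (d * d - 1) * (u : R) = 0 := by linear_combination h6
    calc d * d - 1 = (d * d - 1) * (u : R) * ((u⁻¹ : Rˣ) : R) := by
          rw [mul_assoc, Units.mul_inv, mul_one]
      _ = 0 := by rw [h7, zero_mul]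
  have hd := det_R m
  rw [hb, zero_mul, sub_zero, ← hd'] at hd
  have hda : (m : Matrix (Fin 2) (Fin 2) R) 0 0 = d := by
    linear_combination (d) * hd - (m : Matrix (Fin 2) (Fin 2) R) 0 0 * h4
  refine ⟨2 * (d * (m : Matrix (Fin 2) (Fin 2) R) 1 0), ?_, ?_⟩
  · have e : m * m = loR (2 * (d * (m : Matrix (Fin 2) (Fin 2) R) 1 0)) := by
      apply slR_ext <;> simp only [mul_entry, loR_val, hb, hda, ← hd'] <;> simp
      · linear_combination h4
      · ring
      · linear_combination h4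
    rw [← e]
    exact Subgroup.mul_mem _ hm hm
  · rw [map_mul, map_mul, e11, e10, map_ofNat]
    field_simp

namespace LHyp

variable (H : LHyp π Γ t)

include H

lemma up_uniq {f f' : R} (hf : upR f ∈ Γ) (hf' : upR f' ∈ Γ) (he : π f = π f') : f = f' := by
  have h3 : upR (f - f') ∈ Γ := by
    have := Subgroup.mul_mem _ hf (Subgroup.inv_mem _ hf')
    rwa [upR_inv, upR_mul, ← sub_eq_add_neg] at this
  have h4 := H.hB _ h3 (by simp [map_sub, he])
  have h5 : f - f' = 0 := by simpa using h4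
  exact sub_eq_zero.mp h5

lemma lo_uniq {f f' : R} (hf : loR f ∈ Γ) (hf' : loR f' ∈ Γ) (he : π f = π f') : f = f' := by
  have h3 : loR (f - f') ∈ Γ := by
    have := Subgroup.mul_mem _ hf (Subgroup.inv_mem _ hf')
    rwa [loR_inv, loR_mul, ← sub_eq_add_neg] at this
  have h4 := H.hC _ h3 (by simp [map_sub, he])
  have h5 : f - f' = 0 := by simpa using h4
  exact sub_eq_zero.mp h5

/-- the section on the upper triangular group -/
noncomputable def tau (r : K) : R := Classical.choose (H.exists_up r)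
lemma tau_mem (r : K) : upR (H.tau r) ∈ Γ := (Classical.choose_spec (H.exists_up r)).1
lemma pi_tau (r : K) : π (H.tau r) = r := (Classical.choose_spec (H.exists_up r)).2

/-- the section on the lower triangular group -/
noncomputable def sig (r : K) : R := Classical.choose (H.exists_lo r)
lemma sig_mem (r : K) : loR (H.sig r) ∈ Γ := (Classical.choose_spec (H.exists_lo r)).1
lemma pi_sig (r : K) : π (H.sig r) = r := (Classical.choose_spec (H.exists_lo r)).2

lemma tau_eq {f : R} (hf : upR f ∈ Γ) : H.tau (π f) = f :=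
  H.up_uniq (H.tau_mem _) hf (H.pi_tau _)

lemma sig_eq {f : R} (hf : loR f ∈ Γ) : H.sig (π f) = f :=
  H.lo_uniq (H.sig_mem _) hf (H.pi_sig _)

lemma tau_add (r s : K) : H.tau (r + s) = H.tau r + H.tau s := by
  have h := Subgroup.mul_mem _ (H.tau_mem r) (H.tau_mem s)
  rw [upR_mul] at h
  have := H.tau_eq h
  rwa [map_add, H.pi_tau, H.pi_tau] at this

lemma sig_add (r s : K) : H.sig (r + s) = H.sig r + H.sig s := by
  have h := Subgroup.mul_mem _ (H.sig_mem r) (H.sig_mem s)
  rw [loR_mul] at h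
  have := H.sig_eq h
  rwa [map_add, H.pi_sig, H.pi_sig] at this

lemma tau_zero : H.tau 0 = 0 := by
  have := H.tau_add 0 0
  rw [add_zero] at this
  exact left_eq_add.mp this

lemma sig_zero : H.sig 0 = 0 := by
  have := H.sig_add 0 0
  rw [add_zero] at this
  exact left_eq_add.mp this

lemma tau_neg (r : K) : H.tau (-r) = - H.tau r := by
  have := H.tau_add r (-r)
  rw [add_neg_cancel, H.tau_zero] at this
  exact (neg_eq_of_add_eq_zero_right this.symm).symm

lemma sig_neg (r : K) : H.sig (-r) = - H.sig r := by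
  have := H.sig_add r (-r)
  rw [add_neg_cancel, H.sig_zero] at this
  exact (neg_eq_of_add_eq_zero_right this.symm).symm

lemma tau_alg (c : k) : H.tau (algebraMap k K c) = algebraMap k R c := by
  have := H.tau_eq (H.hup c)
  rwa [AlgHom.commutes] at this

lemma tau_one : H.tau 1 = 1 := by
  have := H.tau_alg 1
  rwa [map_one, map_one] at this

lemma sig_t : H.sig (π t) = t := by
  apply H.sig_eq
  have := H.hlo 1
  rwa [map_one, one_mul] at this

lemma d_sq {m : SpecialLinearGroup (Fin 2) R} (hm : m ∈ Γ) (hb : (m : Matrix (Fin 2) (Fin 2) R) 0 1 = 0)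
    (hd1 : π ((m : Matrix (Fin 2) (Fin 2) R) 1 1) = 1) :
    (m : Matrix (Fin 2) (Fin 2) R) 1 1 * (m : Matrix (Fin 2) (Fin 2) R) 1 1 = 1 := by
  have hconj := conj_lo_of_b m hb t
  have h1 : loR t ∈ Γ := by
    have := H.hlo 1
    rwa [map_one, one_mul] at this
  set d := (m : Matrix (Fin 2) (Fin 2) R) 1 1 with hd'
  have h2 : loR (d * d * t) ∈ Γ := by
    rw [← hconj]
    exact Subgroup.mul_mem _ (Subgroup.mul_mem _ hm h1) (Subgroup.inv_mem _ hm)
  have h3 : loR (d * d * t - t) ∈ Γ := by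
    have := Subgroup.mul_mem _ h2 (Subgroup.inv_mem _ h1)
    rwa [loR_inv, loR_mul, ← sub_eq_add_neg] at this
  have h5 := H.hC _ h3 (by simp [map_sub, map_mul, hd1])
  have h6 : d * d * t - t = 0 := by simpa using h5
  obtain ⟨u, rfl⟩ := H.ht
  have h7 : (d * d - 1) * (u : R) = 0 := by linear_combination h6
  have h8 : d * d - 1 = 0 := by
    calc d * d - 1 = (d * d - 1) * (u : R) * ((u⁻¹ : Rˣ) : R) := by
          rw [mul_assoc, Units.mul_inv, mul_one]
      _ = 0 := by rw [h7, zero_mul]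
  exact sub_eq_zero.mp h8

/-- the main relation -/
lemma tau_mul_sig {r : K} (hr : r ≠ 0) : H.tau r * H.sig (-r⁻¹) = -1 := by
  set f := H.tau r with hf
  set c := H.sig (-r⁻¹) with hc
  have hπf : π f = r := H.pi_tau r
  have hπc : π c = -r⁻¹ := H.pi_sig _
  have hup1 : upR (1 : R) ∈ Γ := by
    have := H.hup 1
    rwa [map_one] at this
  set m : SpecialLinearGroup (Fin 2) R := upR f * loR c * upR f with hm
  have hmΓ : m ∈ Γ := Subgroup.mul_mem _ (Subgroup.mul_mem _ (H.tau_mem r) (H.sig_mem _)) (H.tau_mem r)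
  have e00 : (m : Matrix (Fin 2) (Fin 2) R) 0 0 = 1 + f * c := by
    simp [hm, mul_entry]
  have e01 : (m : Matrix (Fin 2) (Fin 2) R) 0 1 = (1 + f * c) * f + f := by
    simp [hm, mul_entry]
  have e10 : (m : Matrix (Fin 2) (Fin 2) R) 1 0 = c := by
    simp [hm, mul_entry]
  have e11 : (m : Matrix (Fin 2) (Fin 2) R) 1 1 = c * f + 1 := by
    simp [hm, mul_entry]
  set A := 1 + f * c with hA
  have hπA : π A = 0 := by
    rw [hA, map_add, map_one, map_mul, hπf, hπc]
    field_simp
    ring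
  set n : SpecialLinearGroup (Fin 2) R := m * upR 1 * m⁻¹ with hn
  have hnΓ : n ∈ Γ := Subgroup.mul_mem _ (Subgroup.mul_mem _ hmΓ hup1) (Subgroup.inv_mem _ hmΓ)
  have n01 : (n : Matrix (Fin 2) (Fin 2) R) 0 1 = A * A := by
    simp only [hn, mul_entry, inv_01, inv_11, upR_val, e00, e01]
    simp
    ring
  have n11 : (n : Matrix (Fin 2) (Fin 2) R) 1 1 = 1 + A * c := by
    have hd := det_R m
    rw [e00, e01, e10, e11] at hd
    simp only [hn, mul_entry, inv_01, inv_11, upR_val, e00, e01, e10, e11]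
    simp
    linear_combination hd
  have hAA : A * A = 0 := by
    have := H.hB n hnΓ (by rw [n01, map_mul, hπA, mul_zero])
    rwa [n01] at this
  have hn01 : (n : Matrix (Fin 2) (Fin 2) R) 0 1 = 0 := by rw [n01, hAA]
  have hπn : π ((n : Matrix (Fin 2) (Fin 2) R) 1 1) = 1 := by
    rw [n11, map_add, map_one, map_mul, hπA, zero_mul, add_zero]
  have hsq := H.d_sq hnΓ hn01 hπn
  rw [n11] at hsq
  have hAc : A * c = 0 := by
    apply H.cancel2
    linear_combination hsq - c * c * hAA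
  have hA0 : A = 0 := by
    have : A * A = A := by
      calc A * A = A * 1 + f * (A * c) := by rw [hA]; ring
        _ = A := by rw [hAc, mul_zero, add_zero, mul_one]
    rw [← this, hAA]
  linear_combination hA0

lemma tau_mul_sig_inv {r : K} (hr : r ≠ 0) : H.tau r * H.sig r⁻¹ = 1 := by
  have h := H.tau_mul_sig hr
  rw [H.sig_neg] at h
  linear_combination -h

lemma tau_sq (r : K) : H.tau (r * r) = H.tau r * H.tau r := by
  by_cases h0 : r = 0
  · subst h0
    rw [mul_zero, H.tau_zero, mul_zero]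
  by_cases h1 : r = 1
  · subst h1
    rw [mul_one, H.tau_one, mul_one]
  have h1' : 1 - r ≠ 0 := sub_ne_zero.mpr (Ne.symm h1)
  have h3 : r - r * r ≠ 0 := by
    have : r - r * r = r * (1 - r) := by ring
    rw [this]
    exact mul_ne_zero h0 h1'
  have e1 := H.tau_mul_sig_inv h0
  have e2 := H.tau_mul_sig_inv h1'
  have e3 := H.tau_mul_sig_inv h3
  have e4 : (r - r * r)⁻¹ = r⁻¹ + (1 - r)⁻¹ := by
    have : r - r * r = r * (1 - r) := by ring
    rw [this]
    field_simp
    ring
  rw [e4, H.sig_add] at e3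
  have e5 : H.tau (1 - r) = 1 - H.tau r := by
    rw [sub_eq_add_neg, H.tau_add, H.tau_neg, H.tau_one]
    ring
  have e6 : H.tau (r - r * r) = H.tau r - H.tau (r * r) := by
    rw [sub_eq_add_neg, H.tau_add, H.tau_neg]
    ring
  rw [e5] at e2
  rw [e6] at e3
  set u := H.tau r
  set s₁ := H.sig r⁻¹
  set s₂ := H.sig (1 - r)⁻¹
  set w := H.tau (r * r)
  -- `w' = u (1 - u)`
  have key : u - w = u * (1 - u) := by
    calc u - w = (u - w) * ((s₁ + s₂) * (u * (1 - u))) := by
          have : (s₁ + s₂) * (u * (1 - u)) = 1 := by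
            linear_combination (1 - u) * e1 + u * e2
          rw [this, mul_one]
      _ = ((u - w) * (s₁ + s₂)) * (u * (1 - u)) := by ring
      _ = u * (1 - u) := by rw [e3, one_mul]
  linear_combination -key

lemma tau_mul (r s : K) : H.tau (r * s) = H.tau r * H.tau s := by
  rw [← sub_eq_zero]
  apply H.cancel2
  have h := H.tau_sq (r + s)
  have e : (r + s) * (r + s) = r * r + (r * s + r * s) + s * s := by ring
  rw [e, H.tau_add, H.tau_add, H.tau_add, H.tau_add, H.tau_sq, H.tau_sq] at h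
  linear_combination h

lemma sig_eq_tau (s : K) : H.sig s = H.tau s := by
  by_cases h0 : s = 0
  · subst h0
    rw [H.sig_zero, H.tau_zero]
  have h1 := H.tau_mul_sig_inv (inv_ne_zero h0)
  rw [inv_inv] at h1
  have h2 : H.tau s⁻¹ * H.tau s = 1 := by
    rw [← H.tau_mul, inv_mul_cancel₀ h0, H.tau_one]
  calc H.sig s = (H.tau s⁻¹ * H.tau s) * H.sig s := by rw [h2, one_mul]
    _ = H.tau s * (H.tau s⁻¹ * H.sig s) := by ring
    _ = H.tau s := by rw [h1, mul_one]

/-- the rigidity theorem. -/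
theorem injective_pi : Function.Injective π := by
  have hsurj : ∀ f : R, ∃ r : K, H.tau r = f := by
    intro f
    have := H.hgen f
    induction this using Algebra.adjoin_induction with
    | mem x hx =>
      rw [Set.mem_singleton_iff] at hx
      subst hx
      exact ⟨π x, by rw [← H.sig_eq_tau, H.sig_t]⟩
    | algebraMap c => exact ⟨algebraMap k K c, H.tau_alg c⟩
    | add a b _ _ h1 h2 =>
      obtain ⟨r, rfl⟩ := h1
      obtain ⟨s, rfl⟩ := h2
      exact ⟨r + s, H.tau_add r s⟩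
    | mul a b _ _ h1 h2 =>
      obtain ⟨r, rfl⟩ := h1
      obtain ⟨s, rfl⟩ := h2
      exact ⟨r * s, H.tau_mul r s⟩
  intro f f' he
  obtain ⟨r, rfl⟩ := hsurj f
  obtain ⟨s, rfl⟩ := hsurj f'
  rw [H.pi_tau, H.pi_tau] at he
  rw [he]

end LHyp

end Lalg

end Cfsg.Agent.RootSub.QP
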