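import Cfsg.Agent.RootSub.QP3

/-!
# Quadratic pairs: Fitting data of `T = xy + yx` and the key rank argument
-/

set_option autoImplicit false
set_option linter.unusedSectionVars false

namespace Cfsg.Agent.RootSub.QP

open Cfsg Polynomial Matrix

variable {k : Type*} [Field k] {M : Type*} [AddCommGroup M] [Module k M]

section Fit

variable [FiniteDimensional k M]

/-- Fitting decomposition data of `T`. -/
structure Fit (T : M →ₗ[k] M) where
  e : ℕ
  q : k[X]
  s : k[X]
  t : k[X]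
  u : k[X]
  v : k[X]
  hmin : minpoly k (T : Module.End k M) = X ^ e * q
  hq : ¬ X ∣ q
  hbez : X ^ e * s + q * t = 1
  hbez2 : X * u + q * v = 1

lemma pv_minpoly (T : M →ₗ[k] M) : pv T (minpoly k (T : Module.End k M)) = 0 :=
  minpoly.aeval k (T : Module.End k M)

lemma isIntegral_T (T : M →ₗ[k] M) : IsIntegral k (T : Module.End k M) :=
  Algebra.IsIntegral.isIntegral _

lemma minpoly_dvd_of_pv {T : M →ₗ[k] M} {f : k[X]} (h : pv T f = 0) : minpoly k (T : Module.End k M) ∣ f :=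
  minpoly.dvd k (T : Module.End k M) h

/-- existence of Fitting data -/
noncomputable def exists_fit (T : M →ₗ[k] M) : Nonempty (Fit T) := by
  classical
  have h0 : minpoly k (T : Module.End k M) ≠ 0 := minpoly.ne_zero (isIntegral_T T)
  obtain ⟨q, hq, hnd⟩ := exists_eq_pow_rootMultiplicity_mul_and_not_dvd (minpoly k (T : Module.End k M)) h0 0
  simp only [C_0, sub_zero] at hq hnd
  have hX : Irreducible (X : k[X]) := irreducible_X
  have hc : IsCoprime (X : k[X]) q := (hX.coprime_iff_not_dvd).mpr hnd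
  obtain ⟨u, v, huv⟩ := hc
  have hcp : IsCoprime ((X : k[X]) ^ rootMultiplicity 0 (minpoly k (T : Module.End k M))) q :=
    (IsCoprime.pow_left (hX.coprime_iff_not_dvd.mpr hnd))
  obtain ⟨s, t, hst⟩ := hcp
  exact ⟨⟨rootMultiplicity 0 (minpoly k (T : Module.End k M)), q, s, t, u, v, hq, hnd,
    by linear_combination hst, by linear_combination huv⟩⟩

namespace Fit

variable {T : M →ₗ[k] M} (F : Fit T)

/-- the idempotent -/
noncomputable def eps : M →ₗ[k] M := pv T (X ^ F.e * F.s)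

lemma pv_Xe_q : pv T (X ^ F.e * F.q) = 0 := by
  rw [← F.hmin]
  exact pv_minpoly T

lemma one_sub_eps : 1 - F.eps = pv T (F.q * F.t) := by
  unfold eps
  rw [← pv_one (T := T), ← pv_sub, ← F.hbez]
  congr 1
  ring

lemma eps_eq : F.eps = 1 - pv T (F.q * F.t) := by
  rw [← F.one_sub_eps]
  abel

lemma q_eps : pv T F.q * F.eps = 0 := by
  unfold eps
  rw [← pv_mul]
  have : F.q * (X ^ F.e * F.s) = (X ^ F.e * F.q) * F.s := by ring
  rw [this, pv_mul, F.pv_Xe_q, zero_mul]

lemma eps_idem : F.eps * F.eps = F.eps := by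
  have h := F.q_eps
  calc F.eps * F.eps = F.eps * (1 - pv T (F.q * F.t)) := by rw [← F.eps_eq]
    _ = F.eps - F.eps * pv T (F.q * F.t) := by rw [mul_sub, mul_one]
    _ = F.eps - pv T F.t * (pv T F.q * F.eps) := by
        unfold eps
        rw [sub_right_inj, pv_mul F.q F.t, ← pv_mul, ← pv_mul, ← pv_mul, ← pv_mul]
        congr 1
        ring
    _ = F.eps := by rw [h, mul_zero, sub_zero]

lemma T_u_eps : T * pv T F.u * F.eps = F.eps := by
  have h : pv T (X * F.u) = 1 - pv T (F.q * F.v) := by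
    rw [← pv_one (T := T), ← pv_sub, ← F.hbez2]
    congr 1
    ring
  have e : T * pv T F.u = pv T (X * F.u) := by rw [pv_mul, pv_X]
  rw [e, h, sub_mul, one_mul, mul_comm F.q F.v, pv_mul, mul_assoc, F.q_eps, mul_zero, sub_zero]

lemma Te_one_sub : T ^ F.e * (1 - F.eps) = 0 := by
  rw [F.one_sub_eps]
  have e : T ^ F.e = pv T (X ^ F.e) := by rw [pv_pow, pv_X]
  rw [e, ← pv_mul, ← mul_assoc, pv_mul, F.pv_Xe_q, zero_mul]

/-- `f(T) ε = 0` iff `q ∣ f`. -/
lemma dvd_of_pv_eps {f : k[X]} (h : pv T f * F.eps = 0) : F.q ∣ f := by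
  unfold eps at h
  rw [← pv_mul] at h
  have h1 := minpoly_dvd_of_pv h
  rw [F.hmin] at h1
  obtain ⟨r, hr⟩ := h1
  have hXe : (X : k[X]) ^ F.e ≠ 0 := pow_ne_zero _ X_ne_zero
  have h2 : F.q * r = f * F.s := by
    apply mul_left_cancel₀ hXe
    linear_combination -hr
  have hcop : IsCoprime F.q F.s := ⟨F.t, X ^ F.e, by linear_combination F.hbez⟩
  exact hcop.dvd_of_dvd_mul_right ⟨r, h2.symm⟩

/-- a vector killed by `p(T)`. -/
lemma exists_ker_p {p : k[X]} (hp : Irreducible p) (hpq : p ∣ F.q) : ∃ v : M, v ≠ 0 ∧ pv T p v = 0 := by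
  obtain ⟨r, hr⟩ : p ∣ minpoly k (T : Module.End k M) := by
    rw [F.hmin]
    exact Dvd.dvd.mul_left hpq _
  have hrne : pv T r ≠ 0 := by
    intro h
    have h1 := minpoly_dvd_of_pv h
    have h0 : minpoly k (T : Module.End k M) ≠ 0 := minpoly.ne_zero (isIntegral_T T)
    have hr0 : r ≠ 0 := by
      rintro rfl
      simp at hr
      exact h0 hr
    have h2 := natDegree_le_of_dvd h1 hr0
    rw [hr, natDegree_mul hp.ne_zero hr0] at h2
    have h3 : 0 < p.natDegree := by
      exact Irreducible.natDegree_pos hp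
    omega
  obtain ⟨w, hw⟩ : ∃ w, pv T r w ≠ 0 := by
    by_contra hcon
    apply hrne
    ext w
    by_contra h
    exact hcon ⟨w, h⟩
  refine ⟨pv T r w, hw, ?_⟩
  have : pv T p * pv T r = 0 := by
    rw [← pv_mul, ← hr]
    exact pv_minpoly T
  exact LinearMap.congr_fun this w

end Fit

lemma coprime_X_of_dvd {q p : k[X]} (hq : ¬ X ∣ q) (hp : p ∣ q) (hpi : Irreducible p) : IsCoprime (X : k[X]) p := by
  rw [irreducible_X.coprime_iff_not_dvd]
  intro h
  exact hq (h.trans hp)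

end Fit

section Rank2

variable [FiniteDimensional k M]

lemma rk_mul_left_le (f h : M →ₗ[k] M) : rk (f * h) ≤ rk h := by
  unfold rk
  rw [Module.End.mul_eq_comp, LinearMap.range_comp]
  exact Submodule.finrank_map_le _ _

lemma rk_lt_of_ker {f g : M →ₗ[k] M} (hk : LinearMap.ker f ≤ LinearMap.ker g) {v : M} (h1 : f v ≠ 0) (h2 : g v = 0) :
    rk g < rk f := by
  unfold rk
  have e1 := LinearMap.finrank_range_add_finrank_ker f
  have e2 := LinearMap.finrank_range_add_finrank_ker g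
  have hlt : LinearMap.ker f < LinearMap.ker g := by
    refine lt_of_le_of_ne hk ?_
    intro h
    have : v ∈ LinearMap.ker f := by
      rw [h]
      exact h2
    exact h1 this
  have := Submodule.finrank_lt_finrank_of_lt hlt
  omega

end Rank2

section Comb

variable {x y : M →ₗ[k] M}

lemma pv_comm_x (hx : x * x = 0) (f : k[X]) : pv (TT x y) f * x = x * pv (TT x y) f :=
  pv_comm_of (comm_TT_x hx).symm f

lemma pv_comm_y (hy : y * y = 0) (f : k[X]) : pv (TT x y) f * y = y * pv (TT x y) f :=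
  pv_comm_of (comm_TT_y hy).symm f

lemma x_WW (hx : x * x = 0) : x * WW x y = -(TT x y * x) := by
  rw [TT_mul_x hx]
  unfold WW
  rw [mul_sub, ← mul_assoc, hx, zero_mul, zero_sub, mul_assoc]

lemma WW_x (hx : x * x = 0) : WW x y * x = TT x y * x := by
  rw [TT_mul_x hx]
  unfold WW
  rw [sub_mul, mul_assoc y, hx, mul_zero, sub_zero]

/-- The product formulas for `z = f₁(T) x - f₂(T) w - f₃(T) y`. -/
lemma comb_TT (hx : x * x = 0) (f₁ f₂ f₃ : k[X]) :
    TT x (pv (TT x y) f₁ * x - pv (TT x y) f₂ * WW x y - pv (TT x y) f₃ * y) = - pv (TT x y) (f₃ * X) := by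
  have h1 : x * (pv (TT x y) f₁ * x) = 0 := by
    rw [← mul_assoc, ← pv_comm_x hx, mul_assoc, hx, mul_zero]
  have h2 : x * (pv (TT x y) f₂ * WW x y) = - (pv (TT x y) f₂ * (TT x y * x)) := by
    rw [← mul_assoc, ← pv_comm_x hx, mul_assoc, x_WW hx, mul_neg]
  have h3 : x * (pv (TT x y) f₃ * y) = pv (TT x y) f₃ * (x * y) := by
    rw [← mul_assoc, ← pv_comm_x hx, mul_assoc]
  have h4 : (pv (TT x y) f₁ * x) * x = 0 := by
    rw [mul_assoc, hx, mul_zero]
  have h5 : (pv (TT x y) f₂ * WW x y) * x = pv (TT x y) f₂ * (TT x y * x) := by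
    rw [mul_assoc, WW_x hx]
  have h6 : (pv (TT x y) f₃ * y) * x = pv (TT x y) f₃ * (y * x) := by
    rw [mul_assoc]
  have e0 : ∀ z, TT x z = x * z + z * x := fun _ => rfl
  rw [e0, mul_sub, mul_sub, sub_mul, sub_mul, h1, h2, h3, h4, h5, h6, pv_mul, pv_X]
  have : pv (TT x y) f₃ * TT x y = pv (TT x y) f₃ * (x * y) + pv (TT x y) f₃ * (y * x) := by
    rw [← mul_add]
    rfl
  rw [this]
  abel

lemma comb_WW (hx : x * x = 0) (f₁ f₂ f₃ : k[X]) :
    WW x (pv (TT x y) f₁ * x - pv (TT x y) f₂ * WW x y - pv (TT x y) f₃ * y) =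
      (2 : k) • (pv (TT x y) (f₂ * X) * x) - pv (TT x y) f₃ * WW x y := by
  have h1 : x * (pv (TT x y) f₁ * x) = 0 := by
    rw [← mul_assoc, ← pv_comm_x hx, mul_assoc, hx, mul_zero]
  have h2 : x * (pv (TT x y) f₂ * WW x y) = - (pv (TT x y) f₂ * (TT x y * x)) := by
    rw [← mul_assoc, ← pv_comm_x hx, mul_assoc, x_WW hx, mul_neg]
  have h3 : x * (pv (TT x y) f₃ * y) = pv (TT x y) f₃ * (x * y) := by
    rw [← mul_assoc, ← pv_comm_x hx, mul_assoc]
  have h4 : (pv (TT x y) f₁ * x) * x = 0 := by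
    rw [mul_assoc, hx, mul_zero]
  have h5 : (pv (TT x y) f₂ * WW x y) * x = pv (TT x y) f₂ * (TT x y * x) := by
    rw [mul_assoc, WW_x hx]
  have h6 : (pv (TT x y) f₃ * y) * x = pv (TT x y) f₃ * (y * x) := by
    rw [mul_assoc]
  have e0 : ∀ z, WW x z = x * z - z * x := fun _ => rfl
  rw [e0, mul_sub, mul_sub, sub_mul, sub_mul, h1, h2, h3, h4, h5, h6, pv_mul, pv_X]
  have e : pv (TT x y) f₂ * TT x y * x = pv (TT x y) f₂ * (TT x y * x) := mul_assoc _ _ _
  rw [e]
  have : pv (TT x y) f₃ * WW x y = pv (TT x y) f₃ * (x * y) - pv (TT x y) f₃ * (y * x) := by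
    rw [← mul_sub]
    rfl
  rw [this, two_smul]
  abel

end Comb

end Cfsg.Agent.RootSub.QP
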