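import Cfsg.Agent.RootSub.QP4

/-!
# Quadratic pairs: the key lemma

If an element of `Γ` has lower left entry divisible by `p`, then this entry vanishes on the
invertible Fitting part of `T`.
-/

set_option autoImplicit false
set_option linter.unusedSectionVars false

namespace Cfsg.Agent.RootSub.QP

open Cfsg Polynomial Matrix

variable {k : Type*} [Field k] {M : Type*} [AddCommGroup M] [Module k M]
variable {G : Subgroup (LinearMap.GeneralLinearGroup k M)}

/-- the dichotomy for a pair -/
def Dich (x y : M →ₗ[k] M) : Prop :=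
  (x * y * x = 0 ∧ y * x * y = 0) ∨
    ((∀ v, TT x y (x v) = 0 → x v = 0) ∧ (∀ v, TT x y (y v) = 0 → y v = 0))

section Comm

variable {x y : M →ₗ[k] M}

lemma comm_T_x (hx : x * x = 0) : Commute (TT x y) x := (comm_TT_x hx).symm

lemma comm_T_y (hy : y * y = 0) : Commute (TT x y) y := (comm_TT_y hy).symm

lemma comm_T_pv (T : M →ₗ[k] M) (f : k[X]) : Commute T (pv T f) := by
  have := pv_comm_of (T := T) (z := T) rfl f
  exact this.symm

lemma comm_pv_pv (T : M →ₗ[k] M) (f g : k[X]) : Commute (pv T f) (pv T g) := pv_comm f g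

lemma comm_pv_of {T z : M →ₗ[k] M} (h : Commute T z) (f : k[X]) : Commute (pv T f) z :=
  pv_comm_of h f

lemma comm_T_ev (hx : x * x = 0) (hy : y * y = 0) (m : Matrix (Fin 2) (Fin 2) k[X]) :
    Commute (TT x y) (ev x y m) := by
  have h1 : Commute (TT x y) ((m 0 0).coeff 0 • (1 : M →ₗ[k] M)) := (Commute.one_right _).smul_right _
  have h2 : Commute (TT x y) (pv (TT x y) (divX (m 0 0)) * x * y) :=
    ((comm_T_pv (TT x y) _).mul_right (comm_T_x (y := y) hx)).mul_right (comm_T_y (x := x) hy)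
  have h3 : Commute (TT x y) (pv (TT x y) (divX (m 1 1)) * y * x) :=
    ((comm_T_pv (TT x y) _).mul_right (comm_T_y (x := x) hy)).mul_right (comm_T_x (y := y) hx)
  have h4 : Commute (TT x y) (pv (TT x y) (m 0 1) * x) := (comm_T_pv (TT x y) _).mul_right (comm_T_x (y := y) hx)
  have h5 : Commute (TT x y) (pv (TT x y) (divX (m 1 0)) * y) := (comm_T_pv (TT x y) _).mul_right (comm_T_y (x := x) hy)
  unfold ev
  apply Commute.add_right _ h5
  apply Commute.add_right _ h4
  apply Commute.add_right _ h3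
  apply Commute.add_right h1 h2

lemma comm_T_WW (hx : x * x = 0) (hy : y * y = 0) : Commute (TT x y) (WW x y) := by
  unfold WW
  exact ((comm_T_x (y := y) hx).mul_right (comm_T_y (x := x) hy)).sub_right ((comm_T_y (x := x) hy).mul_right (comm_T_x (y := y) hx))

end Comm

section KeyLemma

variable [FiniteDimensional k M] {d : ℕ} {x y : M →ₗ[k] M}

/-- the key lemma -/
theorem lemma_C (hmin : ∀ z, QE G z → d ≤ rk z) (h2 : (2 : k) ≠ 0) (hx : QE G x) (hy : QE G y)
    (hrx : rk x = d) (hry : rk y = d) (F : Fit (TT x y))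
    (IH : ∀ x' y', QE G x' → QE G y' → rk x' = d → rk y' = d → rk (TT x' y') < rk (TT x y) → Dich x' y')
    {p : k[X]} (hp : Irreducible p) (hpq : p ∣ F.q)
    {γ : SpecialLinearGroup (Fin 2) k[X]} (hγ : γ ∈ GamP k)
    (hpc : p ∣ (γ : Matrix (Fin 2) (Fin 2) k[X]) 1 0) :
    pv (TT x y) ((γ : Matrix (Fin 2) (Fin 2) k[X]) 1 0) * F.eps = 0 := by
  have hxx := hx.1
  have hyy := hy.1
  have hU := (EvP_of_mem (x := x) (y := y) hxx hyy hγ).1
  set a := (γ : Matrix (Fin 2) (Fin 2) k[X]) 0 0 with ha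
  set b := (γ : Matrix (Fin 2) (Fin 2) k[X]) 0 1 with hb
  set c := (γ : Matrix (Fin 2) (Fin 2) k[X]) 1 0 with hc
  set d' := (γ : Matrix (Fin 2) (Fin 2) k[X]) 1 1 with hd'
  have hdet : a * d' - b * c = 1 := det_R γ
  have hcX : c = X * divX c := by
    have := X_mul_divX_add c
    rw [hU.1, C_0, add_zero] at this
    exact this.symm
  set c' := divX c with hc'
  have hXp : IsCoprime (X : k[X]) p := coprime_X_of_dvd F.hq hpq hp
  have hpc' : p ∣ c' := by
    rw [hcX] at hpc
    exact hXp.symm.dvd_of_dvd_mul_left hpc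
  obtain ⟨h₀, hh₀⟩ := hpc'
  -- the conjugate
  obtain ⟨g, hg, hge, hgi⟩ := exists_unit_ev hx hy hγ
  have hcj : cj g x = pv (TT x y) (a * a) * x - pv (TT x y) (a * c') * WW x y - pv (TT x y) (X * c' * c') * y := by
    unfold cj
    rw [hge, hgi]
    exact ev_conj_x hxx hyy hγ
  set z := cj g x with hz
  have hQz : QE G z := hx.cj hg
  have hrz : rk z = d := (rk_cj g x).trans hrx
  have hTT : TT x z = - pv (TT x y) (X * c' * c' * X) := by
    rw [hcj]
    exact comb_TT hxx _ _ _
  have hWW : WW x z = (2 : k) • (pv (TT x y) (a * c' * X) * x) - pv (TT x y) (X * c' * c') * WW x y := by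
    rw [hcj]
    exact comb_WW hxx _ _ _
  have ecc : X * c' * c' * X = c * c := by
    rw [hcX]
    ring
  have eac : a * c' * X = a * c := by
    rw [hcX]
    ring
  rw [ecc] at hTT
  rw [eac] at hWW
  -- the vector
  obtain ⟨v₀, hv₀, hpv₀⟩ := F.exists_ker_p hp hpq
  have hTv₀ : (TT x y) v₀ ≠ 0 := by
    intro h
    obtain ⟨r, s, hrs⟩ := hXp
    apply hv₀
    have e1 : pv (TT x y) (r * X + s * p) = 1 := by rw [hrs, pv_one]
    have e2 : (pv (TT x y) (r * X + s * p)) v₀ = pv (TT x y) r ((TT x y) v₀) + pv (TT x y) s (pv (TT x y) p v₀) := by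
      rw [pv_add, pv_mul, pv_mul, pv_X]
      rfl
    rw [e1, h, hpv₀, map_zero, map_zero, add_zero] at e2
    exact e2
  have hker : ∀ w, pv (TT x y) p w = 0 → ∀ f : k[X], pv (TT x y) (f * p) w = 0 := by
    intro w hw f
    rw [pv_mul]
    change pv (TT x y) f (pv (TT x y) p w) = 0
    rw [hw, map_zero]
  have hcomm_x : ∀ (f : k[X]) (w : M), pv (TT x y) f (x w) = x (pv (TT x y) f w) := fun f w =>
    LinearMap.congr_fun (pv_comm_x (y := y) hxx f) w
  have hcomm_y : ∀ (f : k[X]) (w : M), pv (TT x y) f (y w) = y (pv (TT x y) f w) := fun f w =>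
    LinearMap.congr_fun (pv_comm_y (x := x) hyy f) w
  obtain ⟨u, hu, hxu⟩ : ∃ u, pv (TT x y) p u = 0 ∧ x u ≠ 0 := by
    by_cases h0 : x v₀ = 0
    · refine ⟨y v₀, by rw [hcomm_y, hpv₀, map_zero], ?_⟩
      intro h1
      apply hTv₀
      change (x * y + y * x) v₀ = 0
      simp only [LinearMap.add_apply, Module.End.mul_apply]
      rw [h0, h1, map_zero, add_zero]
    · exact ⟨v₀, hpv₀, h0⟩
  have hr₀ : pv (TT x y) p (x u) = 0 := by rw [hcomm_x, hu, map_zero]
  -- the rank of the new `(TT x y)`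
  have hpcc : ∃ f, c * c = f * p := by
    refine ⟨c * X * h₀, ?_⟩
    calc c * c = c * (X * c') := by rw [← hcX]
      _ = (c * X * h₀) * p := by rw [hh₀]; ring
  obtain ⟨f₀, hf₀⟩ := hpcc
  have hlt : rk (TT x z) < rk (TT x y) := by
    refine rk_lt_of_ker (v := v₀) ?_ hTv₀ ?_
    · intro w hw
      rw [LinearMap.mem_ker] at hw ⊢
      rw [hTT]
      have e : pv (TT x y) (c * c) = pv (TT x y) (X * c' * c') * (TT x y) := by
        rw [← ecc, pv_mul _ X, pv_X]
      rw [LinearMap.neg_apply, e, Module.End.mul_apply, hw, map_zero, neg_zero]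
    · rw [hTT, LinearMap.neg_apply, hf₀, hker _ hpv₀, neg_zero]
  -- type U
  obtain ⟨hU1, hU2⟩ : x * z * x = 0 ∧ z * x * z = 0 := by
    rcases IH x z hx hQz hrx hrz hlt with h | h
    · exact h
    · exfalso
      apply hxu
      apply h.1
      rw [hTT, LinearMap.neg_apply, hf₀, hker _ hr₀, neg_zero]
  have hccx : pv (TT x y) (c * c) * x = 0 := by
    have h3 : TT x z * x = 0 := by rw [TT_mul_x hxx, hU1]
    rw [hTT, neg_mul] at h3
    exact neg_eq_zero.mp h3
  have hccT : pv (TT x y) (c * c) * (TT x y) = 0 := by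
    have e1 : pv (TT x y) (c * c) * (TT x y) = pv (TT x y) (c * c) * x * y + y * (pv (TT x y) (c * c) * x) := by
      rw [← mul_assoc y, ← pv_comm_y (x := x) hyy, mul_assoc _ y x, mul_assoc _ x y, ← mul_add]
      rfl
    rw [e1, hccx, zero_mul, mul_zero, add_zero]
  set ε := F.eps with hε
  have hεdef : ε = pv (TT x y) (X ^ F.e * F.s) := rfl
  have hεidem : ε * ε = ε := F.eps_idem
  have hTuε : (TT x y) * pv (TT x y) F.u * ε = ε := F.T_u_eps
  have hcomm_εx : Commute ε x := by
    rw [hεdef]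
    exact comm_pv_of (comm_T_x (y := y) hxx) _
  have hcomm_εy : Commute ε y := by
    rw [hεdef]
    exact comm_pv_of (comm_T_y (x := x) hyy) _
  have hcomm_εpv : ∀ f, Commute ε (pv (TT x y) f) := fun f => by
    rw [hεdef]
    exact comm_pv_pv _ _ _
  have hcomm_εT : Commute ε (TT x y) := by
    rw [hεdef]
    exact (comm_T_pv _ _).symm
  have hccε : pv (TT x y) (c * c) * ε = 0 := by
    calc pv (TT x y) (c * c) * ε = pv (TT x y) (c * c) * ((TT x y) * pv (TT x y) F.u * ε) := by rw [hTuε]
      _ = (pv (TT x y) (c * c) * (TT x y)) * (pv (TT x y) F.u * ε) := by simp only [mul_assoc]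
      _ = 0 := by rw [hccT, zero_mul]
  have hc3ε : pv (TT x y) (X * c' * c') * ε = 0 := by
    calc pv (TT x y) (X * c' * c') * ε = pv (TT x y) (X * c' * c') * ((TT x y) * pv (TT x y) F.u * ε) := by rw [hTuε]
      _ = (pv (TT x y) (X * c' * c') * (TT x y)) * (pv (TT x y) F.u * ε) := by simp only [mul_assoc]
      _ = pv (TT x y) (c * c) * (pv (TT x y) F.u * ε) := by
          rw [← ecc, pv_mul _ X, pv_X]
      _ = pv (TT x y) F.u * (pv (TT x y) (c * c) * ε) := by
          rw [← mul_assoc, (comm_pv_pv (TT x y) _ _).eq, mul_assoc]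
      _ = 0 := by rw [hccε, mul_zero]
  have hεw : Commute ε (WW x y) := by
    rw [hεdef]
    exact comm_pv_of (comm_T_WW hxx hyy) _
  -- the group element commutes with `ε`
  have hεg : Commute ε (g : M →ₗ[k] M) := by
    rw [hεdef, hge]
    exact comm_pv_of (comm_T_ev hxx hyy _) _
  have hεgi : Commute ε ((g⁻¹ : LinearMap.GeneralLinearGroup k M) : M →ₗ[k] M) := by
    rw [hεdef, hgi]
    exact comm_pv_of (comm_T_ev hxx hyy _) _
  have hεz : Commute ε z := by
    rw [hz]
    unfold cj
    exact (hεg.mul_right hcomm_εx).mul_right hεgi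
  have hεW' : Commute ε (WW x z) := by
    unfold WW
    exact (hcomm_εx.mul_right hεz).sub_right (hεz.mul_right hcomm_εx)
  -- the formula for `w' ε`
  have hW'ε : WW x z * ε = (2 : k) • (pv (TT x y) (a * c) * x * ε) := by
    rw [hWW, sub_mul, smul_mul_assoc]
    have : pv (TT x y) (X * c' * c') * WW x y * ε = 0 := by
      rw [mul_assoc, ← hεw.eq, ← mul_assoc, hc3ε, zero_mul]
    rw [this, sub_zero]
  -- `w' = 0`
  have hW0 : WW x z = 0 := by
    by_contra hne
    obtain ⟨hsq, hG⟩ := WW_of_U hx hQz hU1 hU2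
    have hQW : QE G (WW x z) := ⟨hsq, hne, hG⟩
    have hdW := hmin _ hQW
    have hsplit := rk_add_idem (f := WW x z) (ε := ε) hεidem hεW'.symm.eq
    have hsplitx := rk_add_idem (f := x) (ε := ε) hεidem hcomm_εx.symm.eq
    -- the part on `1 - ε`
    have h1ε : (1 - ε) * (1 - ε) = 1 - ε := by
      have : (1 - ε) * (1 - ε) = 1 - ε - ε + ε * ε := by noncomm_ring
      rw [this, hεidem]
      abel
    have hc1x : Commute (1 - ε) x := (Commute.one_left _).sub_left hcomm_εx
    have hc1z : Commute (1 - ε) z := (Commute.one_left _).sub_left hεz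
    have hp1 : rk (WW x z * (1 - ε)) ≤ rk (z * (1 - ε)) := by
      have e1 : WW x z * (1 - ε) = (x * (1 - ε)) * (z * (1 - ε)) - (z * (1 - ε)) * (x * (1 - ε)) := by
        have a1 : (x * (1 - ε)) * (z * (1 - ε)) = x * z * (1 - ε) := by
          rw [mul_assoc x, ← mul_assoc (1 - ε), hc1z.eq, mul_assoc z, h1ε, mul_assoc]
        have a2 : (z * (1 - ε)) * (x * (1 - ε)) = z * x * (1 - ε) := by
          rw [mul_assoc z, ← mul_assoc (1 - ε), hc1x.eq, mul_assoc x, h1ε, mul_assoc]
        rw [a1, a2, ← sub_mul]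
        rfl
      rw [e1]
      apply rk_comm_le
      calc (x * (1 - ε)) * (z * (1 - ε)) * (x * (1 - ε))
          = x * z * x * (((1 - ε) * (1 - ε)) * (1 - ε)) := by
            have a1 : (1 - ε) * z = z * (1 - ε) := hc1z.eq
            have a2 : (1 - ε) * x = x * (1 - ε) := hc1x.eq
            calc (x * (1 - ε)) * (z * (1 - ε)) * (x * (1 - ε))
                = x * ((1 - ε) * z) * ((1 - ε) * x) * (1 - ε) := by simp only [mul_assoc]
              _ = x * (z * (1 - ε)) * (x * (1 - ε)) * (1 - ε) := by rw [a1, a2]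
              _ = x * z * ((1 - ε) * x) * (1 - ε) * (1 - ε) := by simp only [mul_assoc]
              _ = x * z * (x * (1 - ε)) * (1 - ε) * (1 - ε) := by rw [a2]
              _ = _ := by simp only [mul_assoc]
        _ = 0 := by rw [hU1, zero_mul]
    have hp2 : rk (z * (1 - ε)) = rk (x * (1 - ε)) := by
      have e1 : z * (1 - ε) = cj g (x * (1 - ε)) := by
        rw [cj_mul, hz]
        congr 1
        unfold cj
        have hεg1 : Commute (1 - ε) (g : M →ₗ[k] M) := (Commute.one_left _).sub_left hεg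
        rw [← hεg1.eq, mul_assoc, val_mul_inv, mul_one]
      rw [e1, rk_cj]
    -- the part on `ε`
    have hp3 : rk (WW x z * ε) ≤ rk (pv (TT x y) c * (x * ε)) := by
      rw [hW'ε]
      have e2 : (2 : k) • (pv (TT x y) (a * c) * x * ε) = ((2 : k) • pv (TT x y) a) * (pv (TT x y) c * (x * ε)) := by
        rw [pv_mul, smul_mul_assoc]
        simp only [mul_assoc]
      rw [e2]
      exact rk_mul_left_le _ _
    have hp4 : 2 * rk (pv (TT x y) c * (x * ε)) ≤ rk (x * ε) := by
      apply rk_half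
      · have hcx : Commute (pv (TT x y) c) x := comm_pv_of (comm_T_x (y := y) hxx) _
        have hcε : Commute (pv (TT x y) c) ε := (hcomm_εpv c).symm
        exact (hcx.mul_right hcε).eq
      · rw [← pv_mul, ← mul_assoc, hccx, zero_mul]
    have hp5 : 0 < rk (x * ε) := by
      rw [Nat.pos_iff_ne_zero]
      intro h0
      have h1 : LinearMap.range (x * ε) = ⊥ := Submodule.finrank_eq_zero.mp h0
      have h3 : (x * ε) u = 0 := by
        have : (x * ε) u ∈ LinearMap.range (x * ε) := LinearMap.mem_range_self _ _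
        rw [h1] at this
        simpa using this
      have h4 : (x * ε) u = ε (x u) := LinearMap.congr_fun hcomm_εx.symm.eq u
      have h5 : ε (x u) = x u := by
        have h6 : (1 - ε) (x u) = 0 := by
          rw [hε, F.one_sub_eps]
          obtain ⟨q', hq'⟩ := hpq
          have : F.q * F.t = (q' * F.t) * p := by rw [hq']; ring
          rw [this, hker _ hr₀]
        have h7 : (1 - ε) (x u) = x u - ε (x u) := rfl
        rw [h7] at h6
        exact (sub_eq_zero.mp h6).symm
      rw [h4, h5] at h3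
      exact hxu h3
    omega
  -- conclusion
  rw [hW0] at hW'ε
  have hacx : pv (TT x y) (a * c) * x * ε = 0 := by
    have h3 : (2 : k) • (pv (TT x y) (a * c) * x * ε) = 0 := by
      rw [← hW'ε, zero_mul]
    exact (smul_eq_zero.mp h3).resolve_left h2
  have hcxε : pv (TT x y) c * x * ε = 0 := by
    have e1 : pv (TT x y) d' * (pv (TT x y) (a * c) * x * ε) = pv (TT x y) c * x * ε + pv (TT x y) b * (pv (TT x y) (c * c) * x) * ε := by
      have e2 : d' * (a * c) = c + b * (c * c) := by
        linear_combination c * hdet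
      have e3 : pv (TT x y) d' * (pv (TT x y) (a * c) * x * ε) = pv (TT x y) (d' * (a * c)) * x * ε := by
        rw [pv_mul d']
        simp only [mul_assoc]
      rw [e3, e2, pv_add, pv_mul b]
      simp only [add_mul, mul_assoc]
    rw [hacx, mul_zero, hccx, mul_zero, zero_mul, add_zero] at e1
    exact e1.symm
  have hcT : pv (TT x y) c * (TT x y) * ε = 0 := by
    have e1 : pv (TT x y) c * (TT x y) * ε = (pv (TT x y) c * x * ε) * y + y * (pv (TT x y) c * x * ε) := by
      have hcy : Commute (pv (TT x y) c) y := comm_pv_of (comm_T_y (x := x) hyy) _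
      have a1 : (pv (TT x y) c * x * ε) * y = pv (TT x y) c * (x * y) * ε := by
        rw [mul_assoc _ ε y, hcomm_εy.eq, ← mul_assoc, mul_assoc (pv (TT x y) c) x y]
      have a2 : y * (pv (TT x y) c * x * ε) = pv (TT x y) c * (y * x) * ε := by
        rw [← mul_assoc, ← mul_assoc, ← hcy.eq, mul_assoc (pv (TT x y) c) y x]
      rw [a1, a2, ← add_mul, ← mul_add]
      rfl
    rw [e1, hcxε, zero_mul, mul_zero, add_zero]
  calc pv (TT x y) c * ε = pv (TT x y) c * ((TT x y) * pv (TT x y) F.u * ε) := by rw [hTuε]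
    _ = pv (TT x y) c * (TT x y) * ε * pv (TT x y) F.u := by
        rw [mul_assoc (TT x y), (hcomm_εpv F.u).symm.eq]
        simp only [mul_assoc]
    _ = 0 := by rw [hcT, zero_mul]

end KeyLemma

end Cfsg.Agent.RootSub.QP
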