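import Cfsg.Agent.RootSub.QP5

/-!
# Quadratic pairs: rigidity, `T` has irreducible minimal polynomial on its invertible part
-/

set_option autoImplicit false
set_option linter.unusedSectionVars false

namespace Cfsg.Agent.RootSub.QP

open Cfsg Polynomial Matrix

variable {k : Type*} [Field k] {M : Type*} [AddCommGroup M] [Module k M]
variable {G : Subgroup (LinearMap.GeneralLinearGroup k M)}

section Lift

variable {p : k[X]} [hpi : Fact (Irreducible p)]

lemma map_up_C {R : Type*} [CommRing R] (φ : k[X] →+* R) (f : k[X]) :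
    SpecialLinearGroup.map φ (upR f) = upR (φ f) := by
  apply slR_ext <;> simp [SpecialLinearGroup.map_apply_coe, RingHom.mapMatrix_apply]

lemma map_lo_C {R : Type*} [CommRing R] (φ : k[X] →+* R) (f : k[X]) :
    SpecialLinearGroup.map φ (loR f) = loR (φ f) := by
  apply slR_ext <;> simp [SpecialLinearGroup.map_apply_coe, RingHom.mapMatrix_apply]

lemma upR_eq_upM {K : Type*} [Field K] (t : K) : upR t = upM t := rfl

lemma loR_eq_loM {K : Type*} [Field K] (t : K) : loR t = loM t := rfl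

/-- every element of `SL₂(k[X]/p)` lifts to `Γ`. -/
theorem exists_lift (h2 : (2 : k) ≠ 0) (hk3 : Nat.card k ≠ 3) (hX : ¬ X ∣ p)
    (g : SpecialLinearGroup (Fin 2) (AdjoinRoot p)) :
    ∃ γ ∈ GamP k, SpecialLinearGroup.map (AdjoinRoot.mk p) γ = g := by
  have hp0 : p ≠ 0 := hpi.out.ne_zero
  haveI : FiniteDimensional k (AdjoinRoot p) := (AdjoinRoot.powerBasis hp0).finite
  have hroot : AdjoinRoot.root p ≠ 0 := by
    intro h
    apply hX
    have h1 : AdjoinRoot.mk p X = 0 := by rw [AdjoinRoot.mk_X, h]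
    rw [AdjoinRoot.mk_eq_zero] at h1
    have h3 : Associated p X := by
      obtain ⟨r, hr⟩ := h1
      have hu : IsUnit r := (irreducible_X.isUnit_or_isUnit hr).resolve_left hpi.out.not_isUnit
      exact ⟨hu.unit, hr.symm⟩
    exact h3.symm.dvd
  have hgen : ∀ z : AdjoinRoot p, z ∈ Algebra.adjoin k ({AdjoinRoot.root p} : Set (AdjoinRoot p)) := by
    intro z
    rw [AdjoinRoot.adjoinRoot_eq_top]
    trivial
  have htop := HH_eq_top h2 hk3 hroot hgen
  have hle : HH k (AdjoinRoot.root p) ≤ (GamP k).map (SpecialLinearGroup.map (AdjoinRoot.mk p)) := by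
    unfold HH
    rw [Subgroup.closure_le]
    rintro _ (⟨c, rfl⟩ | ⟨c, rfl⟩)
    · refine ⟨upR (C c), up_mem_Gam c, ?_⟩
      rw [map_up_C, upR_eq_upM]
      congr 1
    · refine ⟨loR (C c * X), lo_mem_Gam c, ?_⟩
      rw [map_lo_C, loR_eq_loM, map_mul, AdjoinRoot.mk_X]
      congr 1
  have hg : g ∈ HH k (AdjoinRoot.root p) := by rw [htop]; trivial
  obtain ⟨γ, hγ, hγe⟩ := hle hg
  exact ⟨γ, hγ, hγe⟩

end Lift

section Rigidity

variable [FiniteDimensional k M] {d : ℕ} {x y : M →ₗ[k] M}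

/-- version of the key lemma with a general name for `T` -/
theorem lemma_C' {T : M →ₗ[k] M} (hT : TT x y = T) (hmin : ∀ z, QE G z → d ≤ rk z) (h2 : (2 : k) ≠ 0) (hx : QE G x) (hy : QE G y)
    (hrx : rk x = d) (hry : rk y = d) (F : Fit T)
    (IH : ∀ x' y', QE G x' → QE G y' → rk x' = d → rk y' = d → rk (TT x' y') < rk T → Dich x' y')
    {p : k[X]} (hp : Irreducible p) (hpq : p ∣ F.q)
    {γ : SpecialLinearGroup (Fin 2) k[X]} (hγ : γ ∈ GamP k)
    (hpc : p ∣ (γ : Matrix (Fin 2) (Fin 2) k[X]) 1 0) :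
    pv T ((γ : Matrix (Fin 2) (Fin 2) k[X]) 1 0) * F.eps = 0 := by
  subst hT
  exact lemma_C hmin h2 hx hy hrx hry F IH hp hpq hγ hpc

/-- Rigidity: the invertible part of `T` has irreducible minimal polynomial. -/
theorem rigidity (hmin : ∀ z, QE G z → d ≤ rk z) (h2 : (2 : k) ≠ 0) (hk3 : Nat.card k ≠ 3) (hx : QE G x) (hy : QE G y)
    (hrx : rk x = d) (hry : rk y = d) (F : Fit (TT x y))
    (IH : ∀ x' y', QE G x' → QE G y' → rk x' = d → rk y' = d → rk (TT x' y') < rk (TT x y) → Dich x' y')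
    {p : k[X]} (hp : Irreducible p) (hpq : p ∣ F.q) : F.q ∣ p := by
  classical
  haveI hpi : Fact (Irreducible p) := ⟨hp⟩
  have hXp : ¬ X ∣ p := fun h => F.hq (h.trans hpq)
  have hcoX : IsCoprime F.q (X : k[X]) := ⟨F.v, F.u, by linear_combination F.hbez2⟩
  let R := AdjoinRoot F.q
  let K := AdjoinRoot p
  let φ : k[X] →+* R := AdjoinRoot.mk F.q
  let ρ : k[X] →+* K := AdjoinRoot.mk p
  have hev : F.q.eval₂ ((Algebra.ofId k K : k →ₐ[k] K) : k →+* K) (AdjoinRoot.root p) = 0 := by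
    have h1 : AdjoinRoot.mk p F.q = 0 := AdjoinRoot.mk_eq_zero.mpr hpq
    rw [← AdjoinRoot.aeval_eq, aeval_def] at h1
    exact h1
  let π : R →ₐ[k] K := AdjoinRoot.liftAlgHom F.q (Algebra.ofId k K) (AdjoinRoot.root p) hev
  have hπφ : ∀ f : k[X], π (φ f) = ρ f := by
    intro f
    change (AdjoinRoot.liftAlgHom F.q (Algebra.ofId k K) (AdjoinRoot.root p) hev) (AdjoinRoot.mk F.q f) = AdjoinRoot.mk p f
    rw [AdjoinRoot.liftAlgHom_mk, ← AdjoinRoot.aeval_eq, aeval_def]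
    rfl
  have hφC : ∀ c : k, φ (C c) = algebraMap k R c := fun c => rfl
  have hφX : φ X = AdjoinRoot.root F.q := AdjoinRoot.mk_X
  let Γ : Subgroup (SpecialLinearGroup (Fin 2) R) := (GamP k).map (SpecialLinearGroup.map φ)
  have hφ0 : ∀ f : k[X], φ f = 0 ↔ F.q ∣ f := fun f => AdjoinRoot.mk_eq_zero
  have hρ0 : ∀ f : k[X], ρ f = 0 ↔ p ∣ f := fun f => AdjoinRoot.mk_eq_zero
  have H : LHyp π Γ (AdjoinRoot.root F.q) := by
    refine ⟨?_, ?_, ?_, ?_, ?_, ?_, ?_, ?_⟩
    · have e : (2 : R) = algebraMap k R 2 := by rw [map_ofNat]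
      rw [e, Algebra.smul_def, mul_one, ← map_mul, mul_inv_cancel₀ h2, map_one]
    · have : AdjoinRoot.root F.q * φ F.u = 1 := by
        have h1 := congrArg φ F.hbez2
        rw [map_add, map_mul, map_mul, hφX, map_one, (hφ0 _).mpr dvd_rfl, zero_mul, add_zero] at h1
        exact h1
      exact IsUnit.of_mul_eq_one _ this
    · intro r
      rw [AdjoinRoot.adjoinRoot_eq_top]
      trivial
    · intro c
      refine ⟨upR (C c), up_mem_Gam c, ?_⟩
      rw [map_up_C, hφC]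
    · intro c
      refine ⟨loR (C c * X), lo_mem_Gam c, ?_⟩
      rw [map_lo_C, map_mul, hφC, hφX]
    · intro g
      obtain ⟨γ, hγ, hγe⟩ := exists_lift (p := p) h2 hk3 hXp g
      refine ⟨_, ⟨γ, hγ, rfl⟩, ?_⟩
      rw [← hγe]
      apply Subtype.ext
      ext i j
      exact hπφ _
    · rintro _ ⟨γ, hγ, rfl⟩ h3
      have h4 : π (φ ((γ : Matrix (Fin 2) (Fin 2) k[X]) 1 0)) = 0 := h3
      rw [hπφ, hρ0] at h4
      have h5 := lemma_C hmin h2 hx hy hrx hry F IH hp hpq hγ h4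
      exact (hφ0 _).mpr (F.dvd_of_pv_eps h5)
    · rintro _ ⟨γ, hγ, rfl⟩ h3
      have h4 : π (φ ((γ : Matrix (Fin 2) (Fin 2) k[X]) 0 1)) = 0 := h3
      rw [hπφ, hρ0] at h4
      obtain ⟨γ', hγ', -, -, h10, -⟩ := exists_swap hγ
      have h5 : p ∣ (γ' : Matrix (Fin 2) (Fin 2) k[X]) 1 0 := by
        rw [h10]
        exact Dvd.dvd.mul_left h4 _
      have IH' : ∀ x' y', QE G x' → QE G y' → rk x' = d → rk y' = d → rk (TT x' y') < rk (TT x y) → Dich x' y' := IH
      have h6 := lemma_C' (TT_comm x y) hmin h2 hy hx hry hrx F IH' hp hpq hγ' h5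
      have h7 := F.dvd_of_pv_eps h6
      rw [h10] at h7
      exact (hφ0 _).mpr (hcoX.dvd_of_dvd_mul_left h7)
  have hinj := H.injective_pi
  have h1 : π (φ p) = 0 := by
    rw [hπφ, hρ0]
  have h3 : φ p = 0 := by
    apply hinj
    rw [h1, map_zero]
  exact (hφ0 _).mp h3

end Rigidity

end Cfsg.Agent.RootSub.QP
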