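import Cfsg.Agent.RootSub.QP6

/-!
# Quadratic pairs: `x` and `y` vanish on the nilpotent Fitting part of `T`

Congruence subgroup argument: a torus element and an element congruent to `1` modulo a large
power of `X`.
-/

set_option autoImplicit false
set_option linter.unusedSectionVars false

namespace Cfsg.Agent.RootSub.QP

open Cfsg Polynomial Matrix

variable {k : Type*} [Field k] {M : Type*} [AddCommGroup M] [Module k M]
variable {G : Subgroup (LinearMap.GeneralLinearGroup k M)}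

section Cong

/-- all entries divisible -/
def MDvd (n : k[X]) (A : Matrix (Fin 2) (Fin 2) k[X]) : Prop := ∀ i j, n ∣ A i j

lemma MDvd.mul {a b : k[X]} {A B : Matrix (Fin 2) (Fin 2) k[X]} (hA : MDvd a A) (hB : MDvd b B) :
    MDvd (a * b) (A * B) := by
  intro i j
  rw [Matrix.mul_apply, Fin.sum_univ_two]
  exact dvd_add (mul_dvd_mul (hA _ _) (hB _ _)) (mul_dvd_mul (hA _ _) (hB _ _))

lemma MDvd.mul_right' {a : k[X]} {A : Matrix (Fin 2) (Fin 2) k[X]} (hA : MDvd a A)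
    (B : Matrix (Fin 2) (Fin 2) k[X]) : MDvd a (A * B) := by
  intro i j
  rw [Matrix.mul_apply, Fin.sum_univ_two]
  exact dvd_add (Dvd.dvd.mul_right (hA _ _) _) (Dvd.dvd.mul_right (hA _ _) _)

lemma MDvd.sub' {a : k[X]} {A B : Matrix (Fin 2) (Fin 2) k[X]} (hA : MDvd a A) (hB : MDvd a B) :
    MDvd a (A - B) := fun i j => by
  rw [Matrix.sub_apply]
  exact dvd_sub (hA _ _) (hB _ _)

lemma comm_sub_one (h t : SpecialLinearGroup (Fin 2) k[X]) :
    ((h * t * h⁻¹ * t⁻¹ : SpecialLinearGroup (Fin 2) k[X]) : Matrix (Fin 2) (Fin 2) k[X]) - 1 =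
      (((h : Matrix (Fin 2) (Fin 2) k[X]) - 1) * ((t : Matrix (Fin 2) (Fin 2) k[X]) - 1) -
        ((t : Matrix (Fin 2) (Fin 2) k[X]) - 1) * ((h : Matrix (Fin 2) (Fin 2) k[X]) - 1)) *
        ((h⁻¹ : SpecialLinearGroup (Fin 2) k[X]) : Matrix (Fin 2) (Fin 2) k[X]) *
        ((t⁻¹ : SpecialLinearGroup (Fin 2) k[X]) : Matrix (Fin 2) (Fin 2) k[X]) := by
  have e1 : (h : Matrix (Fin 2) (Fin 2) k[X]) * ((h⁻¹ : SpecialLinearGroup (Fin 2) k[X]) : Matrix (Fin 2) (Fin 2) k[X]) = 1 :=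
    congrArg Subtype.val (mul_inv_cancel h)
  have e2 : (t : Matrix (Fin 2) (Fin 2) k[X]) * ((t⁻¹ : SpecialLinearGroup (Fin 2) k[X]) : Matrix (Fin 2) (Fin 2) k[X]) = 1 :=
    congrArg Subtype.val (mul_inv_cancel t)
  have e3 : ((h * t * h⁻¹ * t⁻¹ : SpecialLinearGroup (Fin 2) k[X]) : Matrix (Fin 2) (Fin 2) k[X]) =
      (h : Matrix (Fin 2) (Fin 2) k[X]) * (t : Matrix (Fin 2) (Fin 2) k[X]) *
        ((h⁻¹ : SpecialLinearGroup (Fin 2) k[X]) : Matrix (Fin 2) (Fin 2) k[X]) *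
        ((t⁻¹ : SpecialLinearGroup (Fin 2) k[X]) : Matrix (Fin 2) (Fin 2) k[X]) := rfl
  have e4 : ((h : Matrix (Fin 2) (Fin 2) k[X]) - 1) * ((t : Matrix (Fin 2) (Fin 2) k[X]) - 1) -
        ((t : Matrix (Fin 2) (Fin 2) k[X]) - 1) * ((h : Matrix (Fin 2) (Fin 2) k[X]) - 1) =
      (h : Matrix (Fin 2) (Fin 2) k[X]) * (t : Matrix (Fin 2) (Fin 2) k[X]) -
        (t : Matrix (Fin 2) (Fin 2) k[X]) * (h : Matrix (Fin 2) (Fin 2) k[X]) := by
    noncomm_ring
  rw [e3, e4, sub_mul, sub_mul, mul_assoc (t : Matrix (Fin 2) (Fin 2) k[X]) (h : Matrix (Fin 2) (Fin 2) k[X]), e1, mul_one, e2]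

lemma comm_approx {h t : SpecialLinearGroup (Fin 2) k[X]} {n : ℕ}
    (hh : MDvd X ((h : Matrix (Fin 2) (Fin 2) k[X]) - 1))
    (ht : MDvd (X ^ n) ((t : Matrix (Fin 2) (Fin 2) k[X]) - 1)) :
    MDvd (X ^ (n + 1)) (((h * t * h⁻¹ * t⁻¹ : SpecialLinearGroup (Fin 2) k[X]) : Matrix (Fin 2) (Fin 2) k[X]) - 1) := by
  rw [comm_sub_one]
  apply MDvd.mul_right'
  apply MDvd.mul_right'
  apply MDvd.sub'
  · rw [pow_succ']
    exact hh.mul ht
  · rw [pow_succ]
    exact ht.mul hh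

/-- the diagonal element -/
def ddR {R : Type*} [CommRing R] (a b : R) (hab : a * b = 1) : SpecialLinearGroup (Fin 2) R :=
  ⟨!![a, 0; 0, b], by simp [det_fin_two, hab]⟩

@[simp] lemma ddR_val {R : Type*} [CommRing R] (a b : R) (hab : a * b = 1) :
    (ddR a b hab : Matrix (Fin 2) (Fin 2) R) = !![a, 0; 0, b] := rfl

lemma comm_dd_up {R : Type*} [CommRing R] (a b t : R) (hab : a * b = 1) :
    ddR a b hab * upR t * (ddR a b hab)⁻¹ * (upR t)⁻¹ = upR ((a * a - 1) * t) := by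
  have h1 : (ddR a b hab)⁻¹ = ddR b a (by rw [mul_comm]; exact hab) := by
    apply Subtype.ext
    rw [SpecialLinearGroup.SL2_inv_expl]
    ext i j
    fin_cases i <;> fin_cases j <;> simp [ddR]
  rw [h1, upR_inv]
  apply slR_ext
  · simp [mul_entry, hab]
  · simp [mul_entry]
    linear_combination (-t) * hab
  · simp [mul_entry]
  · simp [mul_entry]
    linear_combination hab

/-- the induction: elements congruent to `1` modulo `X^n` and to `up f` modulo `p`. -/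
theorem exists_approx {p : k[X]} {h : SpecialLinearGroup (Fin 2) k[X]} (hh : h ∈ GamP k)
    (hX : MDvd X ((h : Matrix (Fin 2) (Fin 2) k[X]) - 1)) {s s' : k} (hss : s * s' = 1) (hs : s * s ≠ 1)
    (hρ : SpecialLinearGroup.map (AdjoinRoot.mk p) h =
      ddR (AdjoinRoot.mk p (C s)) (AdjoinRoot.mk p (C s')) (by rw [← map_mul, ← C_mul, hss, C_1, map_one]))
    (n : ℕ) : ∀ f : k, ∃ γ ∈ GamP k, MDvd (X ^ n) ((γ : Matrix (Fin 2) (Fin 2) k[X]) - 1) ∧
      SpecialLinearGroup.map (AdjoinRoot.mk p) γ = upR (AdjoinRoot.mk p (C f)) := by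
  induction n with
  | zero =>
    intro f
    refine ⟨upR (C f), up_mem_Gam f, ?_, by rw [map_up_C]⟩
    intro i j
    simp
  | succ n ih =>
    intro f
    obtain ⟨γ, hγ, h1, h2⟩ := ih (f / (s * s - 1))
    refine ⟨h * γ * h⁻¹ * γ⁻¹, (GamP k).mul_mem ((GamP k).mul_mem ((GamP k).mul_mem hh hγ) ((GamP k).inv_mem hh)) ((GamP k).inv_mem hγ), comm_approx hX h1, ?_⟩
    simp only [map_mul, map_inv, hρ, h2, comm_dd_up]
    congr 1
    have hs' : s * s - 1 ≠ 0 := sub_ne_zero.mpr hs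
    rw [← map_mul, ← map_one (AdjoinRoot.mk p), ← map_sub, ← map_mul]
    congr 1
    rw [← C_1, ← C_mul, ← C_sub, ← C_mul]
    congr 1
    rw [mul_comm, div_mul_cancel₀ _ hs']

variable [FiniteDimensional k M]

end Cong

section Torus

/-- a torus element congruent to `1` mod `X`. -/
theorem exists_torus {p : k[X]} [hpi : Fact (Irreducible p)] (h2 : (2 : k) ≠ 0) (hk3 : Nat.card k ≠ 3) (hXp : ¬ X ∣ p)
    {s s' : k} (hss : s * s' = 1) (hs : s * s ≠ 1) :
    ∃ h ∈ GamP k, MDvd X ((h : Matrix (Fin 2) (Fin 2) k[X]) - 1) ∧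
      SpecialLinearGroup.map (AdjoinRoot.mk p) h =
        ddR (AdjoinRoot.mk p (C s)) (AdjoinRoot.mk p (C s')) (by rw [← map_mul, ← C_mul, hss, C_1, map_one]) := by
  obtain ⟨h₁, hh₁, he⟩ := exists_lift h2 hk3 hXp (ddR (AdjoinRoot.mk p (C s)) (AdjoinRoot.mk p (C s'))
    (by rw [← map_mul, ← C_mul, hss, C_1, map_one]))
  have hE := EvP_of_mem (M := k) (x := 0) (y := 0) (by simp) (by simp) hh₁
  obtain ⟨⟨hc0, had⟩, ha1, -⟩ := hE
  set b₀ := ((h₁ : Matrix (Fin 2) (Fin 2) k[X]) 0 1).coeff 0 with hb₀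
  set r := b₀ / (s * s - 1) with hr
  have hs' : s * s - 1 ≠ 0 := sub_ne_zero.mpr hs
  have hrr : s * r + (-r - b₀) * s' = 0 := by
    have hr' : r * (s * s - 1) = b₀ := by
      rw [hr, div_mul_cancel₀ _ hs']
    linear_combination s' * hr' + (-(s * r)) * hss
  refine ⟨upR (C (-r - b₀)) * h₁ * upR (C r), (GamP k).mul_mem ((GamP k).mul_mem (up_mem_Gam _) hh₁) (up_mem_Gam _), ?_, ?_⟩
  · intro i j
    rw [X_dvd_iff, Matrix.sub_apply]
    fin_cases i <;> fin_cases j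
    · simp [mul_entry, mul_coeff_zero, hc0, ha1]
    · simp [mul_entry, mul_coeff_zero, hc0, ha1, ← had, ← hb₀]
    · simp [mul_entry, mul_coeff_zero, hc0, ha1]
    · simp [mul_entry, mul_coeff_zero, hc0, ha1, ← had]
  · rw [map_mul, map_mul, map_up_C, he, map_up_C]
    have e1 : AdjoinRoot.of p s * AdjoinRoot.of p r + (- AdjoinRoot.of p r - AdjoinRoot.of p b₀) * AdjoinRoot.of p s' = 0 := by
      rw [← map_neg, ← map_sub, ← map_mul, ← map_mul, ← map_add, hrr, map_zero]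
    apply slR_ext
    · simp [mul_entry]
    · simp [mul_entry]
      linear_combination e1
    · simp [mul_entry]
    · simp [mul_entry]

lemma exists_s (h2 : (2 : k) ≠ 0) (hk3 : Nat.card k ≠ 3) : ∃ s s' : k, s * s' = 1 ∧ s * s ≠ 1 := by
  classical
  by_contra hcon
  push_neg at hcon
  have h1 : ∀ s : k, s = 0 ∨ s = 1 ∨ s = -1 := by
    intro s
    by_cases hs : s = 0
    · exact Or.inl hs
    · right
      have := hcon s s⁻¹ (mul_inv_cancel₀ hs)
      have h3 : (s - 1) * (s + 1) = 0 := by linear_combination this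
      rcases mul_eq_zero.mp h3 with h4 | h4
      · left; linear_combination h4
      · right; linear_combination h4
  apply hk3
  have huniv : (Set.univ : Set k) = {0, 1, -1} := by
    ext s
    simpa using h1 s
  have hne1 : (1 : k) ≠ -1 := by
    intro h
    apply h2
    linear_combination h
  have hne0 : (0 : k) ≠ -1 := by
    intro h
    apply one_ne_zero (α := k)
    linear_combination h
  rw [← Set.ncard_univ, huniv]
  rw [Set.ncard_insert_of_notMem (by simp [hne0]), Set.ncard_pair hne1]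

end Torus

section Fitpart

variable [FiniteDimensional k M] {x y T : M →ₗ[k] M}

lemma Fit.pv_zero_of_both (F : Fit T) {g : k[X]} (h1 : X ^ F.e ∣ g) (h2 : F.q ∣ g) : pv T g = 0 := by
  obtain ⟨w, rfl⟩ := h2
  obtain ⟨w', hw'⟩ := h1
  have hcop : IsCoprime (X ^ F.e) F.q := ⟨F.s, F.t, by linear_combination F.hbez⟩
  have h3 : X ^ F.e ∣ w := by
    apply hcop.dvd_of_dvd_mul_left
    exact ⟨w', hw'⟩
  obtain ⟨w'', rfl⟩ := h3
  have e : F.q * (X ^ F.e * w'') = (X ^ F.e * F.q) * w'' := by ring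
  rw [e, pv_mul, F.pv_Xe_q, zero_mul]

lemma Fit.pv_eq_smul_eps (F : Fit T) {g : k[X]} {f : k} (h1 : X ^ F.e ∣ g) (h2 : F.q ∣ g - C f) :
    pv T g = f • F.eps := by
  obtain ⟨w, hw⟩ := h2
  obtain ⟨w', hw'⟩ := h1
  have h3 : pv T g * (1 - F.eps) = 0 := by
    rw [hw', mul_comm, pv_mul, pv_pow, pv_X, mul_assoc, Fit.Te_one_sub, mul_zero]
  have h4 : pv T g * F.eps = f • F.eps := by
    have e : g = C f + F.q * w := by rw [← hw]; ring
    rw [e, pv_add, pv_C, add_mul, smul_mul_assoc, one_mul, mul_comm F.q, pv_mul, mul_assoc, F.q_eps, mul_zero, add_zero]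
  calc pv T g = pv T g * F.eps + pv T g * (1 - F.eps) := by
        rw [mul_sub, mul_one]
        abel
    _ = f • F.eps := by rw [h3, h4, add_zero]

lemma Fit.pv_zero_of_both' (F : Fit T) {p g : k[X]} (hqp : F.q ∣ p) (h1 : X ^ F.e ∣ g) (h2 : p ∣ g) : pv T g = 0 :=
  F.pv_zero_of_both h1 (hqp.trans h2)

lemma dvd_divX_of_pow {a : k[X]} {c₀ : k} {e : ℕ} (ha : X ^ (e + 1) ∣ a - C c₀) : X ^ e ∣ divX a := by
  have h1 := X_mul_divX_add a
  have h2 : a.coeff 0 = c₀ := by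
    have h3 : X ∣ a - C c₀ := (dvd_pow_self X (Nat.succ_ne_zero e)).trans ha
    rw [X_dvd_iff] at h3
    simpa [sub_eq_zero] using h3
  rw [h2] at h1
  have h4 : a - C c₀ = X * divX a := by
    linear_combination -h1
  rw [h4, pow_succ'] at ha
  exact (mul_dvd_mul_iff_left X_ne_zero).mp ha

lemma dvd_divX_of_irred {a p : k[X]} {c₀ : k} (hp : Irreducible p) (hXp : ¬ X ∣ p) (h0 : a.coeff 0 = c₀) (ha : p ∣ a - C c₀) :
    p ∣ divX a := by
  have h1 := X_mul_divX_add a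
  rw [h0] at h1
  have h4 : a - C c₀ = X * divX a := by
    linear_combination -h1
  rw [h4] at ha
  have hc : IsCoprime p (X : k[X]) := (coprime_X_of_dvd hXp dvd_rfl hp).symm
  exact hc.dvd_of_dvd_mul_left ha

/-- the element of the group obtained from a good approximation -/
theorem ev_of_approx (F : Fit (TT x y)) {p : k[X]} (hp : Irreducible p) (hqp : F.q ∣ p) (hXp : ¬ X ∣ p)
    {γ : SpecialLinearGroup (Fin 2) k[X]} {f : k}
    (h1 : MDvd (X ^ (F.e + 1)) ((γ : Matrix (Fin 2) (Fin 2) k[X]) - 1))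
    (h2 : SpecialLinearGroup.map (AdjoinRoot.mk p) γ = upR (AdjoinRoot.mk p (C f))) :
    ev x y (γ : Matrix (Fin 2) (Fin 2) k[X]) = 1 + f • (F.eps * x) := by
  have e00 : AdjoinRoot.mk p ((γ : Matrix (Fin 2) (Fin 2) k[X]) 0 0) = AdjoinRoot.mk p 1 := by
    have := congrArg (fun g : SpecialLinearGroup (Fin 2) (AdjoinRoot p) => (g : Matrix (Fin 2) (Fin 2) (AdjoinRoot p)) 0 0) h2
    simpa [SpecialLinearGroup.map_apply_coe] using this
  have e01 : AdjoinRoot.mk p ((γ : Matrix (Fin 2) (Fin 2) k[X]) 0 1) = AdjoinRoot.mk p (C f) := by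
    have := congrArg (fun g : SpecialLinearGroup (Fin 2) (AdjoinRoot p) => (g : Matrix (Fin 2) (Fin 2) (AdjoinRoot p)) 0 1) h2
    simpa [SpecialLinearGroup.map_apply_coe] using this
  have e10 : AdjoinRoot.mk p ((γ : Matrix (Fin 2) (Fin 2) k[X]) 1 0) = AdjoinRoot.mk p (C 0) := by
    have := congrArg (fun g : SpecialLinearGroup (Fin 2) (AdjoinRoot p) => (g : Matrix (Fin 2) (Fin 2) (AdjoinRoot p)) 1 0) h2
    simpa [SpecialLinearGroup.map_apply_coe] using this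
  have e11 : AdjoinRoot.mk p ((γ : Matrix (Fin 2) (Fin 2) k[X]) 1 1) = AdjoinRoot.mk p 1 := by
    have := congrArg (fun g : SpecialLinearGroup (Fin 2) (AdjoinRoot p) => (g : Matrix (Fin 2) (Fin 2) (AdjoinRoot p)) 1 1) h2
    simpa [SpecialLinearGroup.map_apply_coe] using this
  rw [AdjoinRoot.mk_eq_mk] at e00 e01 e10 e11
  have x00 : X ^ (F.e + 1) ∣ (γ : Matrix (Fin 2) (Fin 2) k[X]) 0 0 - C 1 := by
    simpa using h1 0 0
  have x01 : X ^ (F.e + 1) ∣ (γ : Matrix (Fin 2) (Fin 2) k[X]) 0 1 := by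
    simpa using h1 0 1
  have x10 : X ^ (F.e + 1) ∣ (γ : Matrix (Fin 2) (Fin 2) k[X]) 1 0 - C 0 := by
    simpa using h1 1 0
  have x11 : X ^ (F.e + 1) ∣ (γ : Matrix (Fin 2) (Fin 2) k[X]) 1 1 - C 1 := by
    simpa using h1 1 1
  have hXX : (X : k[X]) ∣ X ^ (F.e + 1) := dvd_pow_self X (Nat.succ_ne_zero _)
  have c00 : ((γ : Matrix (Fin 2) (Fin 2) k[X]) 0 0).coeff 0 = 1 := by
    have h3 := hXX.trans x00
    rw [X_dvd_iff] at h3
    simpa [sub_eq_zero] using h3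
  have c10 : ((γ : Matrix (Fin 2) (Fin 2) k[X]) 1 0).coeff 0 = 0 := by
    have h3 := hXX.trans x10
    rw [X_dvd_iff] at h3
    simpa [sub_eq_zero] using h3
  have c11 : ((γ : Matrix (Fin 2) (Fin 2) k[X]) 1 1).coeff 0 = 1 := by
    have h3 := hXX.trans x11
    rw [X_dvd_iff] at h3
    simpa [sub_eq_zero] using h3
  have z00 : pv (TT x y) (divX ((γ : Matrix (Fin 2) (Fin 2) k[X]) 0 0)) = 0 :=
    F.pv_zero_of_both' hqp (dvd_divX_of_pow x00) (dvd_divX_of_irred hp hXp c00 (by simpa using e00))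
  have z11 : pv (TT x y) (divX ((γ : Matrix (Fin 2) (Fin 2) k[X]) 1 1)) = 0 :=
    F.pv_zero_of_both' hqp (dvd_divX_of_pow x11) (dvd_divX_of_irred hp hXp c11 (by simpa using e11))
  have z10 : pv (TT x y) (divX ((γ : Matrix (Fin 2) (Fin 2) k[X]) 1 0)) = 0 :=
    F.pv_zero_of_both' hqp (dvd_divX_of_pow x10) (dvd_divX_of_irred hp hXp c10 e10)
  have z01 : pv (TT x y) ((γ : Matrix (Fin 2) (Fin 2) k[X]) 0 1) = f • F.eps :=
    F.pv_eq_smul_eps ((pow_dvd_pow X (Nat.le_succ _)).trans x01) (hqp.trans e01)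
  unfold ev
  rw [z00, z11, z10, z01, c00]
  simp

variable {G : Subgroup (LinearMap.GeneralLinearGroup k M)} {d : ℕ}

/-- `x` vanishes on the nilpotent part of `T`. -/
theorem G1 {T : M →ₗ[k] M} (hT : TT x y = T) (hmin : ∀ z, QE G z → d ≤ rk z) (h2 : (2 : k) ≠ 0) (hk3 : Nat.card k ≠ 3) (hx : QE G x) (hy : QE G y)
    (hrx : rk x = d) (F : Fit T) {p : k[X]} (hp : Irreducible p) (hqp : F.q ∣ p) (hXp : ¬ X ∣ p)
    (hne : x * F.eps ≠ 0) : x * F.eps = x := by
  subst hT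
  haveI hpi : Fact (Irreducible p) := ⟨hp⟩
  obtain ⟨s, s', hss, hs⟩ := exists_s h2 hk3
  obtain ⟨h, hh, hhX, hhρ⟩ := exists_torus (p := p) h2 hk3 hXp hss hs
  have hcomm : F.eps * x = x * F.eps := pv_comm_x hx.1 _
  have hεε : F.eps * F.eps = F.eps := F.eps_idem
  have hQ : QE G (x * F.eps) := by
    refine ⟨?_, hne, fun c => ?_⟩
    · calc x * F.eps * (x * F.eps) = x * (F.eps * x) * F.eps := by noncomm_ring
        _ = x * (x * F.eps) * F.eps := by rw [hcomm]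
        _ = (x * x) * (F.eps * F.eps) := by noncomm_ring
        _ = 0 := by rw [hx.1, zero_mul]
    · obtain ⟨γ, hγ, h3, h4⟩ := exists_approx hh hhX hss hs hhρ (F.e + 1) c
      obtain ⟨g, hg, hge, -⟩ := exists_unit_ev hx hy hγ
      refine ⟨g, hg, ?_⟩
      rw [hge, ev_of_approx F hp hqp hXp h3 h4, hcomm]
  have h3 := hmin _ hQ
  have h4 := rk_add_idem (f := x) hεε hcomm.symm
  have h5 : rk (x * (1 - F.eps)) = 0 := by omega
  have h6 : x * (1 - F.eps) = 0 := by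
    unfold rk at h5
    rw [Submodule.finrank_eq_zero, LinearMap.range_eq_bot] at h5
    exact h5
  rw [mul_sub, mul_one, sub_eq_zero] at h6
  exact h6.symm

end Fitpart

end Cfsg.Agent.RootSub.QP
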