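import Cfsg.Agent.RootSub.QP8

/-!
# Quadratic pairs: structure of the subgroup generated by two scalar families
-/

set_option autoImplicit false
set_option linter.unusedSectionVars false

namespace Cfsg.Agent.RootSub.QP

open Cfsg Polynomial Matrix

variable {k : Type*} [Field k] {M : Type*} [AddCommGroup M] [Module k M]
variable {G : Subgroup (LinearMap.GeneralLinearGroup k M)}

section UType

variable {x y : M →ₗ[k] M}

/-- the span of `x, y, xy, yx`. -/
def JJ (x y : M →ₗ[k] M) (j : M →ₗ[k] M) : Prop :=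
  ∃ a b c d : k, j = a • x + b • y + c • (x * y) + d • (y * x)

lemma JJ_add {j j' : M →ₗ[k] M} (h : JJ x y j) (h' : JJ x y j') : JJ x y (j + j') := by
  obtain ⟨a, b, c, d, rfl⟩ := h
  obtain ⟨a', b', c', d', rfl⟩ := h'
  refine ⟨a + a', b + b', c + c', d + d', ?_⟩
  simp only [add_smul]
  abel

lemma JJ_mul_eq (hxx : x * x = 0) (hyy : y * y = 0) (h1 : x * y * x = 0) (h2 : y * x * y = 0) {j j' : M →ₗ[k] M}
    (h : JJ x y j) (h' : JJ x y j') : ∃ c d : k, j * j' = c • (x * y) + d • (y * x) := by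
  obtain ⟨a, b, c, d, rfl⟩ := h
  obtain ⟨a', b', c', d', rfl⟩ := h'
  refine ⟨a * b', b * a', ?_⟩
  have hx' : ∀ u, x * (x * u) = 0 := fun u => by rw [← mul_assoc, hxx, zero_mul]
  have hy' : ∀ u, y * (y * u) = 0 := fun u => by rw [← mul_assoc, hyy, zero_mul]
  have h1' : x * (y * x) = 0 := by rw [← mul_assoc, h1]
  have h2' : y * (x * y) = 0 := by rw [← mul_assoc, h2]
  have h1'' : ∀ u, x * (y * (x * u)) = 0 := fun u => by rw [← mul_assoc, ← mul_assoc, h1, zero_mul]
  have h2'' : ∀ u, y * (x * (y * u)) = 0 := fun u => by rw [← mul_assoc, ← mul_assoc, h2, zero_mul]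
  simp only [add_mul, mul_add, smul_mul_assoc, mul_smul_comm, mul_assoc, hxx, hyy, hx', hy', h1', h2', h1'', h2'',
    smul_zero, add_zero, zero_add, smul_smul, mul_zero]
  rw [add_comm, mul_comm a', mul_comm b']

lemma JJ_triple (hxx : x * x = 0) (hyy : y * y = 0) (h1 : x * y * x = 0) (h2 : y * x * y = 0) {j : M →ₗ[k] M}
    (h : JJ x y j) (c d : k) : (c • (x * y) + d • (y * x)) * j = 0 := by
  obtain ⟨a', b', c', d', rfl⟩ := h
  have hx' : ∀ u, x * (x * u) = 0 := fun u => by rw [← mul_assoc, hxx, zero_mul]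
  have hy' : ∀ u, y * (y * u) = 0 := fun u => by rw [← mul_assoc, hyy, zero_mul]
  have h1' : x * (y * x) = 0 := by rw [← mul_assoc, h1]
  have h2' : y * (x * y) = 0 := by rw [← mul_assoc, h2]
  have h1'' : ∀ u, x * (y * (x * u)) = 0 := fun u => by rw [← mul_assoc, ← mul_assoc, h1, zero_mul]
  have h2'' : ∀ u, y * (x * (y * u)) = 0 := fun u => by rw [← mul_assoc, ← mul_assoc, h2, zero_mul]
  simp only [add_mul, mul_add, smul_mul_assoc, mul_smul_comm, mul_assoc, hxx, hyy, hx', hy', h1', h2', h1'', h2'',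
    smul_zero, add_zero, zero_add, smul_smul, mul_zero]

/-- In type U the group generated by the two scalar families acts unipotently. -/
theorem unip_of_U {σ τ : LinearMap.GeneralLinearGroup k M} (hσ : IsQuadraticOn σ) (hτ : IsQuadraticOn τ)
    (h1 : ((σ : M →ₗ[k] M) - 1) * ((τ : M →ₗ[k] M) - 1) * ((σ : M →ₗ[k] M) - 1) = 0)
    (h2 : ((τ : M →ₗ[k] M) - 1) * ((σ : M →ₗ[k] M) - 1) * ((τ : M →ₗ[k] M) - 1) = 0) :
    IsUnipotentOn (Subgroup.closure (scalarFamily σ ∪ scalarFamily τ)) := by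
  set x : M →ₗ[k] M := (σ : M →ₗ[k] M) - 1 with hx
  set y : M →ₗ[k] M := (τ : M →ₗ[k] M) - 1 with hy
  have hxx : x * x = 0 := hσ.1
  have hyy : y * y = 0 := hτ.1
  have key : ∀ g ∈ Subgroup.closure (scalarFamily σ ∪ scalarFamily τ), JJ x y ((g : M →ₗ[k] M) - 1) := by
    intro g hg
    induction hg using Subgroup.closure_induction'' with
    | mem g hg =>
      rcases hg with ⟨c, hc⟩ | ⟨c, hc⟩
      · refine ⟨c, 0, 0, 0, ?_⟩
        rw [hc]
        simp [← hx]
      · refine ⟨0, c, 0, 0, ?_⟩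
        rw [hc]
        simp [← hy]
    | inv_mem g hg =>
      rcases hg with ⟨c, hc⟩ | ⟨c, hc⟩
      · refine ⟨-c, 0, 0, 0, ?_⟩
        have hsq : (c • x) * (c • x) = 0 := by rw [smul_mul_smul_comm, hxx, smul_zero]
        rw [val_inv_of_sq hsq hc]
        simp [sub_eq_add_neg]
      · refine ⟨0, -c, 0, 0, ?_⟩
        have hsq : (c • y) * (c • y) = 0 := by rw [smul_mul_smul_comm, hyy, smul_zero]
        rw [val_inv_of_sq hsq hc]
        simp [sub_eq_add_neg]
    | one => exact ⟨0, 0, 0, 0, by simp⟩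
    | mul g g' _ _ h3 h4 =>
      have e : ((g * g' : LinearMap.GeneralLinearGroup k M) : M →ₗ[k] M) - 1 =
          (((g : M →ₗ[k] M) - 1) + ((g' : M →ₗ[k] M) - 1)) + ((g : M →ₗ[k] M) - 1) * ((g' : M →ₗ[k] M) - 1) := by
        rw [Units.val_mul]
        noncomm_ring
      rw [e]
      obtain ⟨c, d, hcd⟩ := JJ_mul_eq hxx hyy h1 h2 h3 h4
      rw [hcd]
      exact JJ_add (JJ_add h3 h4) ⟨0, 0, c, d, by simp⟩
  refine ⟨3, fun l hl hlen => ?_⟩
  obtain ⟨a, b, c, rfl⟩ := List.length_eq_three.mp hlen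
  have ha := key a (hl a (by simp))
  have hb := key b (hl b (by simp))
  have hc := key c (hl c (by simp))
  obtain ⟨c', d', hcd⟩ := JJ_mul_eq hxx hyy h1 h2 ha hb
  have := JJ_triple hxx hyy h1 h2 hc c' d'
  rw [← hcd] at this
  change ((a : M →ₗ[k] M) - 1) * (((b : M →ₗ[k] M) - 1) * (((c : M →ₗ[k] M) - 1) * 1)) = 0
  rw [mul_one, ← mul_assoc]
  exact this

end UType

section EvHom

variable {x y : M →ₗ[k] M}

/-- the homomorphism `Γ → GL(M)` -/
noncomputable def evHom (hxx : x * x = 0) (hyy : y * y = 0) : GamP k →* LinearMap.GeneralLinearGroup k M where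
  toFun γ := ⟨ev x y ((γ : SpecialLinearGroup (Fin 2) k[X]) : Matrix (Fin 2) (Fin 2) k[X]),
    ev x y (((γ : SpecialLinearGroup (Fin 2) k[X])⁻¹ : SpecialLinearGroup (Fin 2) k[X]) : Matrix (Fin 2) (Fin 2) k[X]),
    by rw [← ev_gam_mul hxx hyy γ.2 ((GamP k).inv_mem γ.2), mul_inv_cancel, ev_gam_one hxx],
    by rw [← ev_gam_mul hxx hyy ((GamP k).inv_mem γ.2) γ.2, inv_mul_cancel, ev_gam_one hxx]⟩
  map_one' := by
    apply Units.ext
    exact ev_gam_one hxx
  map_mul' γ δ := by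
    apply Units.ext
    exact ev_gam_mul hxx hyy γ.2 δ.2

lemma evHom_coe (hxx : x * x = 0) (hyy : y * y = 0) (γ : GamP k) :
    ((evHom hxx hyy γ : LinearMap.GeneralLinearGroup k M) : M →ₗ[k] M) =
      ev x y ((γ : SpecialLinearGroup (Fin 2) k[X]) : Matrix (Fin 2) (Fin 2) k[X]) := rfl

theorem evHom_range {σ τ : LinearMap.GeneralLinearGroup k M} (hx : x = (σ : M →ₗ[k] M) - 1) (hy : y = (τ : M →ₗ[k] M) - 1)
    (hxx : x * x = 0) (hyy : y * y = 0) :
    (evHom hxx hyy).range = Subgroup.closure (scalarFamily σ ∪ scalarFamily τ) := by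
  apply le_antisymm
  · have key : ∀ γ ∈ GamP k, ∃ g ∈ Subgroup.closure (scalarFamily σ ∪ scalarFamily τ), (g : M →ₗ[k] M) =
        ev x y (γ : Matrix (Fin 2) (Fin 2) k[X]) := by
      intro γ hγ
      induction hγ using Subgroup.closure_induction'' with
      | mem g hg =>
        rcases hg with ⟨c, rfl⟩ | ⟨c, rfl⟩
        · have hsq : (c • x) * (c • x) = 0 := by rw [smul_mul_smul_comm, hxx, smul_zero]
          refine ⟨unitOfSq (c • x) hsq, Subgroup.subset_closure (Or.inl ⟨c, ?_⟩), ?_⟩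
          · rw [unitOfSq_coe, hx]
          · rw [ev_up hxx, unitOfSq_coe]
        · have hsq : (c • y) * (c • y) = 0 := by rw [smul_mul_smul_comm, hyy, smul_zero]
          refine ⟨unitOfSq (c • y) hsq, Subgroup.subset_closure (Or.inr ⟨c, ?_⟩), ?_⟩
          · rw [unitOfSq_coe, hy]
          · rw [ev_lo hxx hyy, unitOfSq_coe]
      | inv_mem g hg =>
        rcases hg with ⟨c, rfl⟩ | ⟨c, rfl⟩
        · have hsq : ((-c) • x) * ((-c) • x) = 0 := by rw [smul_mul_smul_comm, hxx, smul_zero]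
          refine ⟨unitOfSq ((-c) • x) hsq, Subgroup.subset_closure (Or.inl ⟨-c, ?_⟩), ?_⟩
          · rw [unitOfSq_coe, hx]
          · rw [upR_inv, ← C_neg, ev_up hxx, unitOfSq_coe]
        · have hsq : ((-c) • y) * ((-c) • y) = 0 := by rw [smul_mul_smul_comm, hyy, smul_zero]
          refine ⟨unitOfSq ((-c) • y) hsq, Subgroup.subset_closure (Or.inr ⟨-c, ?_⟩), ?_⟩
          · rw [unitOfSq_coe, hy]
          · rw [loR_inv, ← neg_mul, ← C_neg, ev_lo hxx hyy, unitOfSq_coe]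
      | one => exact ⟨1, Subgroup.one_mem _, by rw [ev_gam_one hxx]; rfl⟩
      | mul a b ha hb h1 h2 =>
        obtain ⟨g, hg, hge⟩ := h1
        obtain ⟨g', hg', hge'⟩ := h2
        exact ⟨g * g', Subgroup.mul_mem _ hg hg', by rw [ev_gam_mul hxx hyy ha hb, ← hge, ← hge', Units.val_mul]⟩
    rintro _ ⟨γ, rfl⟩
    obtain ⟨g, hg, hge⟩ := key γ.1 γ.2
    have : evHom hxx hyy γ = g := Units.ext (by rw [evHom_coe, hge])
    rw [this]
    exact hg
  · rw [Subgroup.closure_le]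
    rintro g (⟨c, hc⟩ | ⟨c, hc⟩)
    · exact ⟨⟨upR (C c), up_mem_Gam c⟩, Units.ext (by rw [evHom_coe, ev_up hxx, hc, hx])⟩
    · exact ⟨⟨loR (C c * X), lo_mem_Gam c⟩, Units.ext (by rw [evHom_coe, ev_lo hxx hyy, hc, hy])⟩

/-- The subgroup generated by the two scalar families is `SL₂` of the field `k[X]/(p)`. -/
theorem FDat.iso (D : FDat x y) (hxx : x * x = 0) (hyy : y * y = 0) (hx0 : x ≠ 0) (hy0 : y ≠ 0)
    (h2 : (2 : k) ≠ 0) (hk3 : Nat.card k ≠ 3) [Fact (Irreducible D.p)]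
    {H : Subgroup (LinearMap.GeneralLinearGroup k M)} (hH : (evHom hxx hyy).range = H) :
    Nonempty (H ≃* SpecialLinearGroup (Fin 2) (AdjoinRoot D.p)) := by
  have hmem : ∀ γ : GamP k, evHom hxx hyy γ ∈ H := fun γ => hH ▸ ⟨γ, rfl⟩
  let Φ : GamP k →* H := (evHom hxx hyy).codRestrict H hmem
  have hΦ : Function.Surjective Φ := by
    rintro ⟨g, hg⟩
    rw [← hH] at hg
    obtain ⟨γ, rfl⟩ := hg
    exact ⟨γ, rfl⟩
  let R : GamP k →* SpecialLinearGroup (Fin 2) (AdjoinRoot D.p) :=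
    (SpecialLinearGroup.map (AdjoinRoot.mk D.p)).comp (GamP k).subtype
  have hR : Function.Surjective R := by
    intro g
    obtain ⟨γ, hγ, hγe⟩ := exists_lift h2 hk3 D.notX g
    exact ⟨⟨γ, hγ⟩, hγe⟩
  have hker : Φ.ker = R.ker := by
    ext γ
    rw [MonoidHom.mem_ker, MonoidHom.mem_ker]
    have h1 : Φ γ = 1 ↔ ev x y ((γ : SpecialLinearGroup (Fin 2) k[X]) : Matrix (Fin 2) (Fin 2) k[X]) = 1 := by
      constructor
      · intro h
        have h3 := congrArg (fun g : H => ((g : LinearMap.GeneralLinearGroup k M) : M →ₗ[k] M)) h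
        exact h3
      · intro h
        apply Subtype.ext
        apply Units.ext
        exact h
    rw [h1]
    exact D.ev_eq_one_iff hxx hyy hx0 hy0 γ.2
  exact ⟨(QuotientGroup.quotientKerEquivOfSurjective Φ hΦ).symm.trans
    ((QuotientGroup.quotientMulEquivOfEq hker).trans (QuotientGroup.quotientKerEquivOfSurjective R hR))⟩

end EvHom

section Main

universe u

/-- the main theorem on non-unipotent pairs of scalar families -/
theorem s5064_main {k : Type u} [Field k] (hk2 : ringChar k ≠ 2) (hk3 : Nat.card k ≠ 3)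
    {M : Type u} [AddCommGroup M] [Module k M] [FiniteDimensional k M]
    {G : Subgroup (LinearMap.GeneralLinearGroup k M)}
    {σ τ : LinearMap.GeneralLinearGroup k M} (hσ : σ ∈ minimalQuadraticElements G) (hτ : τ ∈ minimalQuadraticElements G)
    (hH : ¬ IsUnipotentOn (Subgroup.closure (scalarFamily σ ∪ scalarFamily τ))) :
    ∃ (K : Type u) (_ : Field K) (_ : Algebra k K) (lam : K), IsAlgebraic k lam ∧
      IntermediateField.adjoin k ({lam} : Set K) = ⊤ ∧
      Nonempty (↥(Subgroup.closure (scalarFamily σ ∪ scalarFamily τ)) ≃* Matrix.SpecialLinearGroup (Fin 2) K) := by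
  have h2 : (2 : k) ≠ 0 := by
    intro h
    apply hk2
    have h3 : ((2 : ℕ) : k) = 0 := by exact_mod_cast h
    have h4 := (CharP.cast_eq_zero_iff k (ringChar k) 2).mp h3
    have h5 : ringChar k ≠ 1 := CharP.ringChar_ne_one
    exact (Nat.prime_two.eq_one_or_self_of_dvd _ h4).resolve_left h5
  have hx := QE_of_min hσ
  have hy := QE_of_min hτ
  have hmin := rk_min_of_mem hσ
  have hry : rk ((τ : M →ₗ[k] M) - 1) = rk ((σ : M →ₗ[k] M) - 1) :=
    le_antisymm (rk_min_of_mem hτ _ hx) (hmin _ hy)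
  rcases thmF hmin h2 hk3 hx hy rfl hry with hU | ⟨⟨D⟩⟩
  · exact absurd (unip_of_U hσ.1.2.1 hτ.1.2.1 hU.1 hU.2) hH
  · haveI : Fact (Irreducible D.p) := ⟨D.irr⟩
    refine ⟨AdjoinRoot D.p, inferInstance, inferInstance, AdjoinRoot.root D.p, ?_, ?_, ?_⟩
    · exact AdjoinRoot.isAlgebraic_root D.irr.ne_zero
    · apply IntermediateField.adjoin_eq_top_of_algebra
      exact AdjoinRoot.adjoinRoot_eq_top
    · exact D.iso hx.1 hy.1 hx.2.1 hy.2.1 h2 hk3 (evHom_range rfl rfl hx.1 hy.1)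

end Main

end Cfsg.Agent.RootSub.QP
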